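import Cfsg.Agent.Lib.helper27.M22Blk5

set_option autoImplicit false

/-! General lemmas for the single 2-block criterion with certificates. -/

namespace Cfsg.Agent.Lib.helper27.TB

open Cfsg Cfsg.Agent.Lib.helper24 Cfsg.Agent.Lib.helper5 Cfsg.Agent.Lib.helper23
open Cfsg.Agent.Lib.helper27

universe u

theorem forall₂_app {α β : Type*} {R : α → β → Prop} {l₁ l₂ : List α} {m₁ m₂ : List β}
    (h1 : List.Forall₂ R l₁ m₁) (h2 : List.Forall₂ R l₂ m₂) :
    List.Forall₂ R (l₁ ++ l₂) (m₁ ++ m₂) := by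
  induction h1 with
  | nil => exact h2
  | cons h _ ih => exact List.Forall₂.cons h ih

theorem forall₂_flatMap_range {α β : Type*} (R : α → β → Prop) (f : ℕ → List α)
    (g : ℕ → List β) : ∀ n : ℕ, (∀ i < n, List.Forall₂ R (f i) (g i)) →
      List.Forall₂ R ((List.range n).flatMap f) ((List.range n).flatMap g)
  | 0, _ => by simp
  | n + 1, h => by
    rw [List.range_succ, List.flatMap_append, List.flatMap_append]
    apply forall₂_app (forall₂_flatMap_range R f g n (fun i hi => h i (by omega)))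
    simpa using h n (by omega)

/-- The sum of a list of values classified by labels: the values with label 0 are in the local
ideal, and those with label `i + 1` are equal to `v i`. -/
theorem sum_labels_gen {M : Ideal AlgInt} (hMp : M.IsPrime) (n : ℕ) (v : ℕ → ℂ) :
    ∀ (Z : List (ℂ × ℕ)),
      (∀ z ∈ Z, z.2 ≤ n ∧ (z.2 = 0 → MemLocalIdeal M z.1) ∧ (∀ i, z.2 = i + 1 → z.1 = v i)) →
      MemLocalIdeal M ((Z.map Prod.fst).sum
        - ∑ i ∈ Finset.range n, ((Z.map Prod.snd).count (i + 1) : ℂ) * v i)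
  | [], _ => by simpa using memLocalIdeal_zero hMp.ne_top
  | z :: Z, h => by
    have ih := sum_labels_gen hMp n v Z (fun z' hz' => h z' (List.mem_cons_of_mem _ hz'))
    obtain ⟨hle, h0, h1⟩ := h z List.mem_cons_self
    obtain ⟨a, k⟩ := z
    simp only at hle h0 h1
    rcases Nat.eq_zero_or_pos k with hk | hk
    · subst hk
      have h2 := memLocalIdeal_add hMp (h0 rfl) ih
      convert h2 using 1
      have hc : ∀ i : ℕ, List.count (i + 1) ((0 : ℕ) :: List.map Prod.snd Z)
          = List.count (i + 1) (List.map Prod.snd Z) := by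
        intro i
        rw [List.count_cons]
        simp
      simp only [List.map_cons, List.sum_cons, hc]
      ring
    · obtain ⟨i, rfl⟩ : ∃ i, k = i + 1 := ⟨k - 1, by omega⟩
      have hi : i < n := by omega
      have hai : a = v i := h1 i rfl
      convert ih using 1
      have hc : ∀ j : ℕ, List.count (j + 1) ((i + 1) :: List.map Prod.snd Z)
          = List.count (j + 1) (List.map Prod.snd Z) + (if j = i then 1 else 0) := by
        intro j
        rw [List.count_cons]
        by_cases hji : j = i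
        · subst hji; simp
        · have : ¬ i = j := fun h => hji h.symm
          simp [hji, this]
      have hs : ∑ j ∈ Finset.range n,
          ((List.count (j + 1) (List.map Prod.snd Z) + (if j = i then 1 else 0) : ℕ) : ℂ) * v j
          = ∑ j ∈ Finset.range n, (List.count (j + 1) (List.map Prod.snd Z) : ℂ) * v j + v i := by
        have e : ∀ j : ℕ,
            ((List.count (j + 1) (List.map Prod.snd Z) + (if j = i then 1 else 0) : ℕ) : ℂ) * v j
            = (List.count (j + 1) (List.map Prod.snd Z) : ℂ) * v j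
              + (if j = i then v j else 0) := by
          intro j
          split_ifs <;> push_cast <;> ring
        simp_rw [e]
        rw [Finset.sum_add_distrib, Finset.sum_ite_eq' (Finset.range n) i (fun j => v j),
          if_pos (Finset.mem_range.mpr hi)]
      simp only [List.map_cons, List.sum_cons, hc]
      rw [hs, hai]
      ring

/-- From a relation with one odd coefficient, the corresponding value is in the local ideal. -/
theorem odd_one {M : Ideal AlgInt} (hM : IsPModular 2 M) (n j : ℕ) (hj : j < n) (c : ℕ → ℕ)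
    (v : ℕ → ℂ) (hv : ∀ i, MemLocalRing M (v i))
    (hpar : ∀ i < n, c i % 2 = if i = j then 1 else 0)
    (h : MemLocalIdeal M (∑ i ∈ Finset.range n, (c i : ℂ) * v i)) : MemLocalIdeal M (v j) := by
  have hMp := isPModular_isPrime hM
  have h1 : MemLocalIdeal M (∑ i ∈ Finset.range n,
      ((c i : ℂ) * v i - ((if i = j then 1 else 0 : ℕ) : ℂ) * v i)) := by
    apply memLocalIdeal_sum hMp
    intro i hi
    exact B22.par_lemma hM (c i) _ (v i) (hv i) (hpar i (Finset.mem_range.mp hi))
  have h2 := memLocalIdeal_sub hMp h h1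
  convert h2 using 1
  rw [Finset.sum_sub_distrib, sub_sub_cancel]
  have e : ∀ i : ℕ, (((if i = j then 1 else 0 : ℕ) : ℂ) * v i) = if i = j then v i else 0 := by
    intro i
    split_ifs <;> simp
  simp_rw [e]
  rw [Finset.sum_ite_eq' (Finset.range n) j (fun i => v i), if_pos (Finset.mem_range.mpr hj)]

/-- The existence of a list of labelled values. -/
theorem exists_Z' {M : Ideal AlgInt} {γ : Type*} (lb : γ → ℕ) (n : ℕ) (v : ℕ → ℂ)
    (val : List ℕ → ℂ) :
    ∀ (L : List (List ℕ)) (C : List γ),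
      List.Forall₂ (fun l c => lb c ≤ n ∧ (lb c = 0 → MemLocalIdeal M (val l)) ∧
        (∀ i, lb c = i + 1 → val l = v i)) L C →
      ∃ Z : List (ℂ × ℕ), Z.map Prod.fst = L.map val ∧ Z.map Prod.snd = C.map lb ∧
        ∀ z ∈ Z, z.2 ≤ n ∧ (z.2 = 0 → MemLocalIdeal M z.1) ∧ (∀ i, z.2 = i + 1 → z.1 = v i) := by
  intro L C h
  induction h with
  | nil => exact ⟨[], rfl, rfl, fun z hz => absurd hz List.not_mem_nil⟩
  | @cons l c L C hlc _ ih =>
    obtain ⟨Z, h1, h2, h3⟩ := ih
    refine ⟨(val l, lb c) :: Z, ?_, ?_, ?_⟩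
    · rw [List.map_cons, List.map_cons, h1]
    · rw [List.map_cons, List.map_cons, h2]
    · intro z hz
      rcases List.mem_cons.mp hz with rfl | hz
      · exact hlc
      · exact h3 z hz

/-- The hypotheses on the centralizer of an involution. -/
def Constr {G : Type*} [Group G] (t : G) : Prop :=
  ∃ Q : Subgroup G, (∀ q ∈ Q, q * t = t * q) ∧ (∀ q ∈ Q, q * q = 1) ∧
    (∀ c : G, c * t = t * c → ∀ q ∈ Q, c * q * c⁻¹ ∈ Q) ∧
    (∀ c : G, c * t = t * c → (∀ q ∈ Q, c * q = q * c) → c ∈ Q)

theorem constr_conj {G : Type*} [Group G] (k t : G) (h : Constr t) : Constr (k * t * k⁻¹) := by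
  obtain ⟨Q, h1, h2, h3, h4⟩ := h
  have hcomm : ∀ c : G, c * (k * t * k⁻¹) = k * t * k⁻¹ * c →
      (k⁻¹ * c * k) * t = t * (k⁻¹ * c * k) := by
    intro c hc
    calc (k⁻¹ * c * k) * t = k⁻¹ * (c * (k * t * k⁻¹)) * k := by group
      _ = k⁻¹ * ((k * t * k⁻¹) * c) * k := by rw [hc]
      _ = t * (k⁻¹ * c * k) := by group
  refine ⟨Q.map (MulAut.conj k).toMonoidHom, ?_, ?_, ?_, ?_⟩
  · rintro _ ⟨q, hq, rfl⟩
    show k * q * k⁻¹ * (k * t * k⁻¹) = k * t * k⁻¹ * (k * q * k⁻¹)
    have := h1 q hq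
    calc k * q * k⁻¹ * (k * t * k⁻¹) = k * (q * t) * k⁻¹ := by group
      _ = k * (t * q) * k⁻¹ := by rw [this]
      _ = k * t * k⁻¹ * (k * q * k⁻¹) := by group
  · rintro _ ⟨q, hq, rfl⟩
    show k * q * k⁻¹ * (k * q * k⁻¹) = 1
    calc k * q * k⁻¹ * (k * q * k⁻¹) = k * (q * q) * k⁻¹ := by group
      _ = 1 := by rw [h2 q hq]; group
  · rintro c hc _ ⟨q, hq, rfl⟩
    have := h3 _ (hcomm c hc) q hq
    refine ⟨(k⁻¹ * c * k) * q * (k⁻¹ * c * k)⁻¹, this, ?_⟩
    show k * ((k⁻¹ * c * k) * q * (k⁻¹ * c * k)⁻¹) * k⁻¹ = c * (k * q * k⁻¹) * c⁻¹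
    group
  · intro c hc hall
    have hq' : ∀ q ∈ Q, (k⁻¹ * c * k) * q = q * (k⁻¹ * c * k) := by
      intro q hq
      have := hall (k * q * k⁻¹) ⟨q, hq, rfl⟩
      calc (k⁻¹ * c * k) * q = k⁻¹ * (c * (k * q * k⁻¹)) * k := by group
        _ = k⁻¹ * ((k * q * k⁻¹) * c) * k := by rw [this]
        _ = q * (k⁻¹ * c * k) := by group
    have := h4 _ (hcomm c hc) hq'
    refine ⟨k⁻¹ * c * k, this, ?_⟩
    show k * (k⁻¹ * c * k) * k⁻¹ = c
    group

theorem principal_of_constr {G : Type u} [Group G] [Finite G] (M : Ideal AlgInt)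
    (hM : IsPModular 2 M) (t : G) (h : Constr t)
    (ξ : IrrCharacter ↥(Subgroup.centralizer ((Subgroup.zpowers t : Subgroup G) : Set G))) :
    ξ ∈ principalBlock M ↥(Subgroup.centralizer ((Subgroup.zpowers t : Subgroup G) : Set G)) := by
  obtain ⟨Q, h1, h2, h3, h4⟩ := h
  have hK : ∀ c ∈ Subgroup.centralizer ((Subgroup.zpowers t : Subgroup G) : Set G),
      c * t = t * c := by
    intro c hc
    exact (Subgroup.mem_centralizer_iff.mp hc t (Subgroup.mem_zpowers t)).symm
  apply principal_of_constrained M hM _ Q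
  · intro q hq
    rw [Subgroup.mem_centralizer_iff]
    intro x hx
    obtain ⟨k, rfl⟩ := Subgroup.mem_zpowers_iff.mp hx
    have hcomm : Commute t q := (h1 q hq).symm
    exact (hcomm.zpow_left k).eq
  · exact h2
  · intro c hc q hq; exact h3 c (hK c hc) q hq
  · intro c hc hall; exact h4 c (hK c hc) hall

end Cfsg.Agent.Lib.helper27.TB
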