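import Cfsg.Agent.Lib.helper28.GolayOctad
import Cfsg.Agent.Lib.helper28.GolayGen
import Cfsg.Agent.Lib.helper27.GolayInv
import Cfsg.Agent.S0445

set_option autoImplicit false

/-! The centralizer of an involution with 8 fixed points in the group of the length-24 code is
isomorphic to the centralizer of a transvection in the special linear group of dimension 5 over the
field with two elements: the stabilizer of the fixed octad acts linearly on the 5-dimensional space
of the code words disjoint from the octad. -/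

namespace Cfsg.Agent.Lib.helper27.C2A

open Cfsg Cfsg.Agent.Lib.helper28 Cfsg.Agent.Lib.helper27
open scoped Pointwise

/-- The table of an involution fixing the base octad pointwise. -/
def zt : List ℕ :=
  [0, 1, 2, 3, 4, 6, 5, 7, 18, 14, 10, 23, 12, 15, 9, 13, 21, 22, 8, 20, 19, 16, 17, 11]

/-- Masks of a basis of the code words disjoint from the base octad: the complement of the octad
and four octads. -/
def mk : Fin 5 → ℕ := ![16771936, 1009728, 1852256, 2220640, 4645632]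

/-- Indices of the evaluation points. -/
def qv : Fin 5 → ℕ := ![23, 11, 20, 21, 22]

/-- A chain of transversals in the centralizer of the involution. -/
def zChain : List (ℕ × ℕ × List (List ℕ)) :=
[
  (5, 16771936,
    [[2, 4, 10, 12, 3, 5, 6, 7, 16, 17, 1, 20, 0, 11, 22, 23, 9, 13, 21, 18, 8, 14, 15, 19],
     [12, 0, 7, 2, 1, 6, 5, 10, 21, 22, 3, 23, 4, 19, 17, 20, 15, 14, 16, 8, 18, 13, 9, 11],
     [10, 2, 3, 4, 0, 8, 18, 7, 23, 17, 12, 21, 1, 9, 22, 14, 13, 6, 11, 20, 19, 15, 5, 16],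
     [12, 0, 10, 4, 7, 9, 14, 1, 19, 16, 2, 13, 3, 23, 21, 11, 18, 5, 20, 17, 22, 8, 6, 15],
     [7, 1, 0, 2, 4, 11, 23, 3, 15, 6, 12, 21, 10, 17, 5, 22, 14, 20, 13, 18, 8, 9, 19, 16],
     [7, 2, 3, 4, 1, 13, 15, 10, 5, 14, 12, 8, 0, 11, 9, 23, 19, 22, 6, 16, 21, 20, 17, 18],
     [7, 2, 1, 12, 10, 14, 9, 3, 22, 20, 0, 6, 4, 23, 19, 11, 13, 8, 17, 21, 16, 15, 18, 5],
     [2, 12, 10, 3, 4, 15, 13, 1, 22, 6, 0, 18, 7, 14, 5, 9, 21, 23, 17, 20, 19, 16, 11, 8],
     [10, 7, 2, 3, 4, 16, 21, 1, 23, 13, 0, 19, 12, 5, 15, 6, 9, 18, 11, 17, 22, 14, 8, 20],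
     [10, 1, 7, 3, 2, 17, 22, 4, 19, 21, 12, 18, 0, 11, 16, 23, 15, 5, 20, 14, 9, 13, 6, 8],
     [3, 12, 0, 1, 7, 18, 8, 4, 17, 20, 2, 5, 10, 21, 19, 16, 13, 14, 22, 11, 23, 15, 9, 6],
     [10, 0, 4, 1, 7, 19, 20, 12, 14, 13, 3, 17, 2, 16, 15, 21, 18, 6, 9, 23, 11, 8, 5, 22],
     [0, 1, 10, 3, 4, 20, 19, 12, 15, 17, 2, 21, 7, 8, 22, 18, 11, 14, 13, 5, 6, 23, 9, 16],
     [2, 7, 10, 0, 3, 21, 16, 4, 20, 8, 1, 23, 12, 5, 18, 6, 22, 9, 19, 13, 15, 17, 14, 11],
     [2, 12, 1, 3, 4, 22, 17, 10, 13, 8, 7, 6, 0, 20, 18, 19, 23, 16, 15, 9, 14, 11, 21, 5],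
     [0, 3, 7, 4, 1, 23, 11, 12, 21, 9, 10, 17, 2, 13, 14, 15, 19, 6, 16, 18, 8, 20, 5, 22]]),
  (8, 16771840,
    [[4, 3, 12, 1, 0, 5, 6, 10, 8, 13, 7, 20, 2, 9, 15, 14, 16, 17, 18, 23, 11, 21, 22, 19],
     [1, 3, 7, 0, 4, 5, 6, 10, 9, 20, 2, 17, 12, 11, 19, 23, 16, 13, 14, 18, 8, 21, 15, 22],
     [10, 7, 2, 0, 1, 5, 6, 4, 11, 13, 3, 20, 12, 16, 15, 21, 9, 17, 23, 18, 8, 14, 22, 19],
     [12, 4, 1, 2, 3, 5, 6, 0, 13, 19, 7, 11, 10, 8, 20, 18, 14, 21, 15, 17, 22, 9, 16, 23],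
     [12, 10, 4, 3, 0, 5, 6, 2, 14, 21, 7, 19, 1, 8, 16, 18, 22, 11, 9, 15, 13, 17, 23, 20],
     [3, 2, 7, 4, 12, 5, 6, 10, 15, 20, 1, 11, 0, 18, 19, 8, 14, 16, 13, 17, 22, 9, 21, 23],
     [2, 4, 10, 12, 3, 5, 6, 7, 16, 17, 1, 20, 0, 11, 22, 23, 9, 13, 21, 18, 8, 14, 15, 19],
     [3, 7, 12, 10, 4, 5, 6, 0, 17, 8, 2, 14, 1, 23, 18, 11, 15, 19, 22, 21, 16, 13, 20, 9],
     [1, 2, 10, 12, 0, 5, 6, 4, 18, 22, 7, 14, 3, 20, 17, 19, 15, 11, 8, 21, 16, 13, 23, 9],
     [1, 4, 3, 2, 7, 5, 6, 10, 19, 18, 12, 23, 0, 16, 8, 21, 22, 13, 20, 14, 9, 17, 15, 11],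
     [0, 2, 7, 4, 10, 5, 6, 12, 20, 15, 1, 9, 3, 8, 13, 18, 23, 21, 19, 17, 22, 11, 16, 14],
     [2, 0, 10, 7, 3, 5, 6, 12, 21, 13, 1, 20, 4, 23, 15, 11, 18, 17, 16, 9, 14, 8, 22, 19],
     [3, 1, 10, 12, 7, 5, 6, 0, 22, 16, 4, 15, 2, 20, 21, 19, 11, 14, 17, 8, 18, 23, 9, 13],
     [1, 0, 12, 3, 4, 5, 6, 7, 23, 14, 10, 18, 2, 13, 9, 15, 21, 20, 11, 22, 17, 16, 19, 8]]),
  (9, 16509440,
    [[4, 2, 1, 10, 0, 5, 6, 12, 8, 9, 3, 21, 7, 22, 14, 17, 23, 15, 18, 19, 20, 11, 13, 16],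
     [4, 2, 12, 1, 7, 5, 6, 10, 8, 11, 0, 19, 3, 14, 23, 9, 22, 21, 18, 15, 13, 17, 16, 20],
     [4, 3, 12, 1, 0, 5, 6, 10, 8, 13, 7, 20, 2, 9, 15, 14, 16, 17, 18, 23, 11, 21, 22, 19],
     [10, 0, 12, 4, 2, 5, 6, 1, 8, 14, 7, 16, 3, 17, 9, 22, 23, 15, 18, 20, 19, 11, 13, 21],
     [7, 4, 2, 0, 12, 5, 6, 3, 8, 15, 10, 16, 1, 17, 13, 22, 19, 14, 18, 11, 23, 20, 9, 21],
     [10, 7, 4, 1, 0, 5, 6, 12, 8, 16, 2, 23, 3, 15, 21, 13, 14, 19, 18, 22, 17, 9, 20, 11],
     [2, 4, 3, 0, 10, 5, 6, 7, 8, 17, 1, 19, 12, 14, 22, 9, 23, 15, 18, 21, 16, 11, 13, 20],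
     [2, 1, 0, 7, 4, 5, 6, 3, 8, 19, 10, 23, 12, 15, 20, 13, 17, 16, 18, 9, 14, 22, 21, 11],
     [10, 2, 12, 4, 0, 5, 6, 1, 8, 20, 3, 17, 7, 16, 19, 21, 11, 13, 18, 14, 9, 23, 15, 22],
     [10, 2, 4, 1, 3, 5, 6, 12, 8, 21, 7, 13, 0, 11, 16, 23, 19, 14, 18, 17, 22, 20, 9, 15],
     [7, 4, 0, 3, 10, 5, 6, 2, 8, 22, 1, 14, 12, 19, 17, 20, 13, 11, 18, 16, 21, 15, 23, 9],
     [2, 10, 7, 3, 1, 5, 6, 0, 8, 23, 4, 17, 12, 16, 11, 21, 19, 14, 18, 13, 15, 20, 9, 22]]),
  (0, 5279,
    [[0, 1, 2, 3, 4, 5, 6, 7, 8, 9, 10, 11, 12, 13, 14, 15, 16, 17, 18, 19, 20, 21, 22, 23],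
     [1, 0, 4, 12, 2, 5, 6, 10, 8, 9, 7, 17, 3, 16, 14, 21, 13, 11, 18, 19, 20, 15, 23, 22],
     [2, 4, 0, 7, 1, 5, 6, 3, 8, 9, 12, 15, 10, 23, 14, 11, 22, 21, 18, 19, 20, 17, 16, 13],
     [3, 12, 7, 0, 10, 5, 6, 2, 8, 9, 4, 13, 1, 11, 14, 23, 17, 16, 18, 19, 20, 22, 21, 15],
     [4, 2, 1, 10, 0, 5, 6, 12, 8, 9, 3, 21, 7, 22, 14, 17, 23, 15, 18, 19, 20, 11, 13, 16],
     [7, 10, 3, 2, 12, 5, 6, 0, 8, 9, 1, 23, 4, 15, 14, 13, 21, 22, 18, 19, 20, 16, 17, 11],
     [10, 7, 12, 4, 3, 5, 6, 1, 8, 9, 0, 22, 2, 21, 14, 16, 15, 23, 18, 19, 20, 13, 11, 17],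
     [12, 3, 10, 1, 7, 5, 6, 4, 8, 9, 2, 16, 0, 17, 14, 22, 11, 13, 18, 19, 20, 23, 15, 21]])]

/-- Propagation steps from the complement of the base octad to all points. -/
def zSteps : List (ℕ × ℕ) := [(31554, 168928), (15777, 39257), (15777, 69395), (15777, 18147), (18147, 31554), (5279, 36294), (5279, 69395), (5279, 10558)]

/-! ### Checks on the data -/

theorem zt_in : tabIn [o0] zt = true := by decide +kernel

theorem zt_good : tabGood zt = true := by decide +kernel

/-- The involution. -/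
def zP : Equiv.Perm GolayPt := tabPerm zt zt_good

theorem isTable_z : IsTable zP zt := isTable_tabPerm zt zt_good

theorem inv_app (g : Equiv.Perm GolayPt) (p : GolayPt) : g⁻¹ (g p) = p := g.symm_apply_apply p

theorem app_inv (g : Equiv.Perm GolayPt) (p : GolayPt) : g (g⁻¹ p) = p := g.apply_symm_apply p

theorem tv (i k : Fin 5) : (Matrix.transvection 0 1 1 : Matrix (Fin 5) (Fin 5) (ZMod 2)) i k
    = (if i = k then 1 else if i = 0 ∧ k = 1 then 1 else 0 : ZMod 2) := by
  fin_cases i <;> fin_cases k <;>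
    simp [Matrix.transvection, Matrix.single_apply, Matrix.one_apply]

theorem zP_mem_stab : zP ∈ stabM [o0] := by
  obtain ⟨g, hg, hgt⟩ := tabIn_spec zt_in
  rwa [eq_of_isTable isTable_z hgt]

theorem zP_mem : zP ∈ M24 := zP_mem_stab.1

theorem zP_sq : zP * zP = 1 :=
  sq_eq_one_of_table isTable_z (by decide +kernel)

theorem zP_inv : zP⁻¹ = zP := inv_eq_of_mul_eq_one_left zP_sq

theorem zP_ne_one : zP ≠ 1 := by
  intro h
  have h1 := isTable_z (pt 5)
  rw [h, Equiv.Perm.one_apply, idx_pt (by norm_num : 5 < 24)] at h1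
  exact absurd h1 (by decide)

theorem mk_lt (k : Fin 5) : mk k < 2 ^ 24 := by revert k; decide

theorem mk_cw (k : Fin 5) : isCW (mk k) = true := by revert k; decide +kernel

theorem mk_and (k : Fin 5) : mk k &&& o0 = 0 := by revert k; decide +kernel

theorem qv_lt (i : Fin 5) : qv i < 24 := by revert i; decide

theorem setOf_zero : setOf 0 = ∅ := by
  ext p; simp [mem_setOf]

theorem mk_disj (k : Fin 5) : Disjoint (setOf (mk k)) (setOf o0) := by
  rw [Finset.disjoint_iff_inter_eq_empty, ← setOf_and, mk_and, setOf_zero]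

/-! ### Coordinates -/

/-- A bit as an element of the field with two elements. -/
def b2z (b : Bool) : ZMod 2 := if b then 1 else 0

/-- The indicator function of a set of points. -/
def ind (S : Finset GolayPt) (p : GolayPt) : ZMod 2 := if p ∈ S then 1 else 0

theorem ind_setOf (m : ℕ) (p : GolayPt) : ind (setOf m) p = b2z (m.testBit (idx p)) := by
  unfold ind b2z
  simp only [mem_setOf]

theorem ind_smul (g : Equiv.Perm GolayPt) (S : Finset GolayPt) (p : GolayPt) :
    ind (g • S) p = ind S (g⁻¹ p) := by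
  unfold ind
  simp only [mem_smul_iff]

/-- The coordinates of a word with respect to the basis, read off at the evaluation points. -/
def K (u : GolayPt → ZMod 2) (i : Fin 5) : ZMod 2 :=
  u (pt (qv i)) + (if i = 0 then 0 else u (pt (qv 0)))

/-- The coordinates of the word with a given mask. -/
def KM (m : ℕ) (i : Fin 5) : ZMod 2 :=
  b2z (m.testBit (qv i)) + (if i = 0 then 0 else b2z (m.testBit (qv 0)))

theorem K_ind_setOf (m : ℕ) : K (ind (setOf m)) = KM m := by
  funext i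
  unfold K KM
  rw [ind_setOf, ind_setOf, idx_pt (qv_lt i), idx_pt (qv_lt 0)]

theorem K_sum (c : Fin 5 → ZMod 2) (u : Fin 5 → GolayPt → ZMod 2) (i : Fin 5) :
    K (fun p => ∑ j, c j * u j p) i = ∑ j, c j * K (u j) i := by
  unfold K
  split_ifs with h
  · simp
  · rw [← Finset.sum_add_distrib]
    refine Finset.sum_congr rfl (fun j _ => ?_)
    ring

/-- The matrix of a permutation on the basis words. -/
def Mat (g : Equiv.Perm GolayPt) : Matrix (Fin 5) (Fin 5) (ZMod 2) :=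
  fun i k => K (ind (g • setOf (mk k))) i

/-- The bit `i` of the combination of the basis masks with the coordinates of `m`. -/
def spanBit (m i : ℕ) : Bool :=
  xor (m.testBit (qv 0) && (mk 0).testBit i)
    (xor (xor (m.testBit (qv 1)) (m.testBit (qv 0)) && (mk 1).testBit i)
      (xor (xor (m.testBit (qv 2)) (m.testBit (qv 0)) && (mk 2).testBit i)
        (xor (xor (m.testBit (qv 3)) (m.testBit (qv 0)) && (mk 3).testBit i)
          (xor (m.testBit (qv 4)) (m.testBit (qv 0)) && (mk 4).testBit i))))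

/-- Every code word disjoint from the base octad is the combination of the basis words given by
its coordinates. -/
def spanChk : Bool :=
  allLt (fun n => !(cw n &&& o0 == 0) ||
    allLt (fun i => (cw n).testBit i == spanBit (cw n) i) 24) 4096

theorem spanChk_ok : spanChk = true := by decide +kernel

theorem b2z_span (a0 a1 a2 a3 a4 c0 c1 c2 c3 c4 : Bool) :
    b2z (xor (a0 && c0) (xor (xor a1 a0 && c1) (xor (xor a2 a0 && c2)
      (xor (xor a3 a0 && c3) (xor a4 a0 && c4))))) =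
    b2z a0 * b2z c0 + (b2z a1 + b2z a0) * b2z c1 + (b2z a2 + b2z a0) * b2z c2
      + (b2z a3 + b2z a0) * b2z c3 + (b2z a4 + b2z a0) * b2z c4 := by
  revert a0 a1 a2 a3 a4 c0 c1 c2 c3 c4; decide

theorem span_lemma {S : Finset GolayPt}
    (hS : S ∈ supports (golayCode : Set (GolayPt → ZMod 2)))
    (hd : Disjoint S (setOf o0)) (p : GolayPt) :
    ind S p = ∑ k : Fin 5, K (ind S) k * ind (setOf (mk k)) p := by
  obtain ⟨n, hn, hm⟩ := (mem_supports_iff_exists S).mp hS
  have hSm : S = setOf (cw n) := by rw [← hm, setOf_maskS]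
  have h0 : cw n &&& o0 = 0 := by
    have e1 : setOf (cw n &&& o0) = ∅ := by
      rw [setOf_and, ← hSm]; exact Finset.disjoint_iff_inter_eq_empty.mp hd
    have hlt : cw n &&& o0 < 2 ^ 24 := lt_of_le_of_lt Nat.and_le_right o0_lt
    have e2 := maskS_setOf hlt
    rw [e1] at e2
    rw [← e2]; decide
  have hc := allLt_spec spanChk_ok n hn
  rw [h0] at hc
  simp only [beq_self_eq_true, Bool.not_true, Bool.false_or] at hc
  have hb := allLt_spec hc (idx p) (idx_lt p)
  rw [beq_iff_eq] at hb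
  rw [hSm, K_ind_setOf, Fin.sum_univ_five]
  simp only [ind_setOf]
  rw [hb]
  unfold KM spanBit
  simp only [Fin.isValue, if_true, add_zero, one_ne_zero, if_false, Fin.reduceEq]
  exact b2z_span _ _ _ _ _ _ _ _ _ _

/-! ### The matrix representation of the stabilizer of the octad -/

theorem Mat_one : Mat 1 = 1 := by
  have key : ∀ i k : Fin 5, KM (mk k) i = (if i = k then 1 else 0 : ZMod 2) := by
    decide +kernel
  ext i k
  unfold Mat
  rw [one_smul, K_ind_setOf, key, Matrix.one_apply]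

theorem smul_mem_W {h : Equiv.Perm GolayPt} (hh : h ∈ stabM [o0]) (k : Fin 5) :
    h • setOf (mk k) ∈ supports (golayCode : Set (GolayPt → ZMod 2)) ∧
      Disjoint (h • setOf (mk k)) (setOf o0) := by
  constructor
  · exact smul_mem_supports hh.1 (setOf_mem_supports (mk_lt k) (mk_cw k))
  · have ho : h • setOf o0 = setOf o0 := hh.2 o0 (by simp)
    rw [← ho, Finset.disjoint_left]
    intro p hp1 hp2
    rw [mem_smul_iff] at hp1 hp2
    exact Finset.disjoint_left.mp (mk_disj k) hp1 hp2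

theorem Mat_col {h : Equiv.Perm GolayPt} (hh : h ∈ stabM [o0]) (k : Fin 5) (p : GolayPt) :
    ind (h • setOf (mk k)) p = ∑ j, Mat h j k * ind (setOf (mk j)) p :=
  span_lemma (smul_mem_W hh k).1 (smul_mem_W hh k).2 p

theorem Mat_mul (g h : Equiv.Perm GolayPt) (hh : h ∈ stabM [o0]) :
    Mat (g * h) = Mat g * Mat h := by
  ext i k
  rw [Matrix.mul_apply]
  have e : ind ((g * h) • setOf (mk k))
      = fun p => ∑ j, Mat h j k * ind (g • setOf (mk j)) p := by
    funext p
    rw [mul_smul, ind_smul, Mat_col hh k]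
    refine Finset.sum_congr rfl (fun j _ => ?_)
    rw [ind_smul]
  have e2 : Mat (g * h) i k = K (ind ((g * h) • setOf (mk k))) i := rfl
  rw [e2, e, K_sum]
  refine Finset.sum_congr rfl (fun j _ => ?_)
  have e3 : Mat g i j = K (ind (g • setOf (mk j))) i := rfl
  rw [e3, mul_comm]

theorem det_Mat {g : Equiv.Perm GolayPt} (hg : g ∈ stabM [o0]) : (Mat g).det = 1 := by
  have h1 : Mat g * Mat g⁻¹ = 1 := by
    rw [← Mat_mul g g⁻¹ ((stabM [o0]).inv_mem hg), mul_inv_cancel, Mat_one]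
  have h2 := congrArg Matrix.det h1
  rw [Matrix.det_mul, Matrix.det_one] at h2
  have key : ∀ a b : ZMod 2, a * b = 1 → a = 1 := by decide
  exact key _ _ h2

theorem Mat_z : Mat zP = Matrix.transvection 0 1 1 := by
  have key : ∀ i k : Fin 5, KM (preMask zt (mk k)) i
      = (if i = k then 1 else if i = 0 ∧ k = 1 then 1 else 0 : ZMod 2) := by
    decide +kernel
  ext i k
  unfold Mat
  have e : zP • setOf (mk k) = setOf (preMask zt (mk k)) := by
    rw [← inv_smul_setOf isTable_z, zP_inv]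
  rw [e, K_ind_setOf, key, tv]

/-! ### Injectivity -/

/-- The points outside the base octad are separated by the basis words. -/
def sepChk : Bool :=
  allLt (fun i => allLt (fun j => !((mk 0).testBit i) ||
    !(((mk 0).testBit i == (mk 0).testBit j) && ((mk 1).testBit i == (mk 1).testBit j) &&
      ((mk 2).testBit i == (mk 2).testBit j) && ((mk 3).testBit i == (mk 3).testBit j) &&
      ((mk 4).testBit i == (mk 4).testBit j)) || (i == j)) 24) 24

theorem sepChk_ok : sepChk = true := by decide +kernel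

theorem zSteps_ok : propRun 16771936 zSteps = some (2 ^ 24 - 1) := by decide +kernel

theorem eq_one_of_Mat {g : Equiv.Perm GolayPt} (hg : g ∈ stabM [o0]) (h : Mat g = 1) : g = 1 := by
  have hS : ∀ k : Fin 5, ∀ p, ind (g • setOf (mk k)) p = ind (setOf (mk k)) p := by
    intro k p
    rw [Mat_col hg k p, h]
    simp [Matrix.one_apply]
  have hbit : ∀ k : Fin 5, ∀ p, (mk k).testBit (idx (g p)) = (mk k).testBit (idx p) := by
    intro k p
    have h1 := hS k (g p)
    rw [ind_smul, inv_app, ind_setOf, ind_setOf] at h1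
    have key : ∀ a b : Bool, b2z a = b2z b → b = a := by decide
    exact key _ _ h1
  have hF : FixesMask g 16771936 := by
    intro p hp
    have hsep := allLt_spec (allLt_spec sepChk_ok (idx p) (idx_lt p)) (idx (g p)) (idx_lt _)
    have hp' : (mk 0).testBit (idx p) = true := hp
    rw [hbit 0 p, hbit 1 p, hbit 2 p, hbit 3 p, hbit 4 p, hp'] at hsep
    simp only [beq_self_eq_true, Bool.and_self, Bool.not_true, Bool.false_or, beq_iff_eq] at hsep
    exact (idx_injective hsep).symm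
  exact eq_one_of_propRun hg.1 zSteps (by norm_num) hF zSteps_ok

/-! ### The centralizer -/

theorem z_fix_chk : allLt (fun i => (zt.getD i 0 == i) == o0.testBit i) 24 = true := by
  decide +kernel

theorem fix_z (p : GolayPt) : zP p = p ↔ p ∈ setOf o0 := by
  have h := allLt_spec z_fix_chk (idx p) (idx_lt p)
  rw [beq_iff_eq] at h
  rw [mem_setOf, ← h, beq_iff_eq, isTable_z p]
  constructor
  · intro e; rw [e]
  · intro e; exact idx_injective e

theorem cent_le {g : Equiv.Perm GolayPt} (hg : g ∈ M24) (hc : g * zP = zP * g) :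
    g ∈ stabM [o0] := by
  refine ⟨hg, ?_⟩
  intro m hm
  rw [List.mem_singleton] at hm
  subst hm
  have hsub : g • setOf o0 ⊆ setOf o0 := by
    intro p hp
    rw [mem_smul_iff] at hp
    rw [← fix_z] at hp ⊢
    have h1 : g (zP (g⁻¹ p)) = zP (g (g⁻¹ p)) := congrArg (fun f : Equiv.Perm GolayPt => f (g⁻¹ p)) hc
    rw [hp, app_inv] at h1
    exact h1.symm
  exact Finset.eq_of_subset_of_card_le hsub (by rw [Finset.card_smul_finset])

/-- The involution as an element of the group. -/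
def zM : ↥M24 := ⟨zP, zP_mem⟩

theorem zM_order : orderOf zM = 2 := by
  rw [← Subgroup.orderOf_coe]
  exact orderOf_eq_two zP_sq zP_ne_one

theorem coe_mem_stab (c : ↥(Subgroup.centralizer ({zM} : Set ↥M24))) :
    (c.1.1 : Equiv.Perm GolayPt) ∈ stabM [o0] := by
  apply cent_le c.1.2
  have h := Subgroup.mem_centralizer_iff.mp c.2 zM rfl
  exact (congrArg (fun x : ↥M24 => (x : Equiv.Perm GolayPt)) h).symm

/-- The matrix representation of the centralizer. -/
def phi : ↥(Subgroup.centralizer ({zM} : Set ↥M24)) →*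
    Matrix.SpecialLinearGroup (Fin 5) (ZMod 2) where
  toFun c := ⟨Mat c.1.1, det_Mat (coe_mem_stab c)⟩
  map_one' := Subtype.ext Mat_one
  map_mul' a b := Subtype.ext (Mat_mul a.1.1 b.1.1 (coe_mem_stab b))

/-! ### The order of the centralizer -/

theorem zChain_gen : chainGen [] zChain = true := by decide +kernel

theorem zChain_prod : chainProd zChain = 21504 := by decide +kernel

theorem zChain_comm : zChain.all (fun c => c.2.2.all (fun l =>
    tabGood l && (mulTab l zt == mulTab zt l))) = true := by decide +kernel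

theorem card_ge : 21504 ≤ Nat.card ↥(Subgroup.centralizer ({zM} : Set ↥M24)) := by
  have h := chainProd_le_card (Subgroup.centralizer ({zP} : Set (Equiv.Perm GolayPt))) zChain []
    zChain_gen (by
      intro c hc l hl
      have h1 := List.all_eq_true.mp (List.all_eq_true.mp zChain_comm c hc) l hl
      rw [Bool.and_eq_true, beq_iff_eq] at h1
      obtain ⟨hgood, hcomm⟩ := h1
      refine ⟨tabPerm l hgood, ?_, isTable_tabPerm l hgood⟩
      rw [Subgroup.mem_centralizer_iff]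
      intro x hx
      rw [Set.mem_singleton_iff] at hx
      subst hx
      have h2 := isTable_mulTab (isTable_tabPerm l hgood) isTable_z
      rw [hcomm] at h2
      exact eq_of_isTable (isTable_mulTab isTable_z (isTable_tabPerm l hgood)) h2)
  rw [zChain_prod] at h
  have e : Nat.card ↥(Subgroup.centralizer ({zM} : Set ↥M24)) =
      Nat.card ↥(Subgroup.centralizer ({zP} : Set (Equiv.Perm GolayPt)) ⊓ stabM [] :
        Subgroup (Equiv.Perm GolayPt)) := by
    apply card_sub_eq _ _ (by rw [stabM_nil]; exact inf_le_right)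
    intro g
    rw [Subgroup.mem_inf, stabM_nil, Subgroup.mem_centralizer_iff, Subgroup.mem_centralizer_iff]
    constructor
    · intro hg
      refine ⟨?_, g.2⟩
      intro x hx
      rw [Set.mem_singleton_iff] at hx
      subst hx
      exact congrArg (fun x : ↥M24 => (x : Equiv.Perm GolayPt)) (hg zM rfl)
    · rintro ⟨hg, -⟩ x hx
      rw [Set.mem_singleton_iff] at hx
      subst hx
      exact Subtype.ext (hg zP rfl)
  rw [e]
  exact h

/-- The centralizer of an involution with 8 fixed points is isomorphic to the centralizer of a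
transvection in the special linear group of dimension 5 over the field with two elements. -/
theorem main (s : Matrix.SpecialLinearGroup (Fin 5) (ZMod 2))
    (hs : (s : Matrix (Fin 5) (Fin 5) (ZMod 2)) = Matrix.transvection 0 1 1) :
    ∃ z : ↥Cfsg.M24, orderOf z = 2 ∧
      Nonempty (↥(Subgroup.centralizer ({z} : Set ↥Cfsg.M24)) ≃*
        ↥(Subgroup.centralizer ({s} : Set (Matrix.SpecialLinearGroup (Fin 5) (ZMod 2))))) := by
  refine ⟨zM, zM_order, ?_⟩
  have hzc : zM ∈ Subgroup.centralizer ({zM} : Set ↥M24) := by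
    rw [Subgroup.mem_centralizer_iff]
    intro x hx
    rw [Set.mem_singleton_iff] at hx
    rw [hx]
  have hphi_z : phi ⟨zM, hzc⟩ = s := Subtype.ext (by rw [hs]; exact Mat_z)
  have hmem : ∀ c, phi c ∈ Subgroup.centralizer ({s} : Set _) := by
    intro c
    rw [Subgroup.mem_centralizer_iff]
    intro x hx
    rw [Set.mem_singleton_iff] at hx
    rw [hx, ← hphi_z, ← map_mul, ← map_mul]
    congr 1
    exact Subtype.ext (Subgroup.mem_centralizer_iff.mp c.2 zM rfl)
  have hinj : Function.Injective (phi.codRestrict (Subgroup.centralizer ({s} : Set _)) hmem) := by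
    rw [injective_iff_map_eq_one]
    intro c hc
    have h1 : phi c = 1 := congrArg Subtype.val hc
    have h2 : Mat c.1.1 = 1 := congrArg Subtype.val h1
    have h3 := eq_one_of_Mat (coe_mem_stab c) h2
    exact Subtype.ext (Subtype.ext h3)
  have hcard : Nat.card ↥(Subgroup.centralizer ({s} : Set _)) ≤
      Nat.card ↥(Subgroup.centralizer ({zM} : Set ↥M24)) := by
    rw [Cfsg.Agent.S0445.result s hs]; exact card_ge
  exact ⟨MulEquiv.ofBijective _ (hinj.bijective_of_nat_card_le hcard)⟩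

end Cfsg.Agent.Lib.helper27.C2A
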