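import Cfsg.Agent.Lib.helper27.GolayInv

set_option autoImplicit false

namespace Cfsg.Agent.Lib.helper27

open Cfsg
open Cfsg.Agent.Lib.helper28
open scoped Pointwise

/-! The two classes of elements of order 3 of the group of the length-24 code. -/

/-- Table of an element of order 3 with six fixed points, mapping the indices 0, 1, 2 cyclically
and fixing the index 3. -/
def tA3 : List ℕ := [1, 2, 0, 3, 4, 5, 8, 12, 20, 19, 7, 15, 10, 22, 14, 21, 13, 17, 9, 18, 6, 11, 16, 23]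

/-- Table of a fixed-point-free element of order 3, mapping the indices 0, 1, 2 cyclically and
the index 3 to the index 4. -/
def tB3 : List ℕ := [1, 2, 0, 4, 20, 19, 13, 8, 21, 22, 6, 16, 14, 10, 18, 11, 15, 5, 12, 17, 3, 7, 23, 9]

/-- Conjugating tables for the elements of order 3 with fixed points. -/
def conjs3A : List (List ℕ) :=
  [[11, 15, 21, 0, 1, 16, 23, 4, 7, 8, 2, 10, 17, 13, 20, 22, 6, 9, 12, 5, 18, 14, 19, 3],
   [12, 10, 7, 20, 6, 0, 1, 14, 13, 15, 8, 22, 3, 2, 17, 4, 21, 9, 23, 18, 19, 11, 5, 16],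
   [20, 6, 8, 21, 11, 23, 16, 17, 1, 9, 15, 4, 14, 22, 18, 13, 5, 10, 0, 7, 3, 19, 12, 2],
   [7, 12, 10, 16, 13, 0, 2, 23, 14, 5, 22, 6, 3, 4, 9, 1, 18, 17, 8, 11, 15, 19, 21, 20],
   [9, 19, 18, 7, 12, 2, 21, 10, 0, 14, 5, 13, 3, 16, 23, 6, 17, 15, 11, 22, 20, 4, 1, 8],
   [11, 15, 21, 1, 2, 16, 18, 0, 22, 7, 17, 20, 4, 6, 8, 10, 9, 5, 19, 14, 3, 13, 23, 12],
   [8, 20, 6, 10, 7, 17, 23, 12, 11, 2, 14, 18, 3, 5, 9, 4, 13, 22, 16, 19, 0, 15, 21, 1],
   [21, 11, 15, 19, 18, 8, 12, 9, 14, 22, 17, 4, 5, 1, 0, 16, 7, 10, 3, 2, 13, 6, 20, 23],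
   [12, 10, 7, 20, 6, 22, 18, 3, 0, 4, 14, 13, 8, 2, 15, 17, 16, 1, 11, 9, 23, 19, 21, 5],
   [6, 8, 20, 7, 12, 2, 23, 14, 15, 11, 3, 0, 10, 21, 19, 18, 4, 17, 5, 22, 1, 13, 9, 16],
   [8, 20, 6, 21, 11, 4, 18, 14, 3, 10, 17, 2, 15, 7, 16, 22, 0, 12, 13, 19, 1, 5, 23, 9],
   [22, 16, 13, 0, 1, 11, 19, 23, 12, 10, 4, 17, 2, 3, 14, 20, 21, 7, 6, 5, 15, 18, 8, 9]]

/-- Conjugating tables for the fixed-point-free elements of order 3. -/
def conjs3B : List (List ℕ) :=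
  [[0, 1, 2, 3, 4, 5, 6, 7, 8, 9, 10, 11, 12, 13, 14, 15, 16, 17, 18, 19, 20, 21, 22, 23],
   [19, 17, 5, 13, 10, 0, 16, 11, 4, 2, 23, 1, 3, 20, 9, 18, 8, 14, 15, 7, 6, 22, 21, 12],
   [10, 6, 13, 15, 11, 8, 1, 9, 5, 20, 17, 18, 0, 23, 22, 3, 7, 12, 19, 4, 16, 2, 14, 21],
   [23, 9, 22, 0, 1, 20, 15, 19, 7, 11, 14, 4, 8, 21, 13, 5, 2, 3, 16, 12, 6, 10, 18, 17],
   [9, 22, 23, 13, 10, 14, 19, 11, 15, 18, 2, 5, 8, 0, 12, 1, 6, 4, 20, 7, 17, 3, 16, 21],
   [5, 19, 17, 18, 12, 16, 4, 23, 1, 7, 2, 8, 6, 9, 3, 10, 14, 20, 11, 22, 15, 21, 13, 0],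
   [20, 3, 4, 8, 21, 13, 23, 1, 18, 5, 15, 6, 10, 14, 16, 2, 12, 7, 9, 19, 22, 11, 17, 0],
   [21, 7, 8, 0, 1, 15, 10, 11, 23, 17, 3, 4, 14, 5, 12, 18, 13, 2, 19, 22, 9, 16, 6, 20],
   [6, 13, 10, 12, 14, 11, 9, 4, 22, 23, 16, 20, 0, 17, 3, 15, 8, 18, 7, 21, 19, 1, 5, 2],
   [20, 3, 4, 14, 18, 0, 8, 1, 2, 9, 5, 11, 7, 16, 12, 13, 23, 17, 6, 10, 19, 15, 22, 21],
   [2, 0, 1, 12, 14, 23, 15, 16, 7, 5, 21, 13, 9, 20, 18, 10, 4, 11, 17, 3, 22, 19, 6, 8],
   [15, 11, 16, 7, 8, 14, 12, 0, 5, 13, 18, 6, 17, 4, 21, 9, 23, 19, 3, 10, 1, 22, 20, 2],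
   [15, 11, 16, 7, 8, 12, 23, 17, 2, 5, 0, 9, 18, 3, 20, 19, 14, 6, 1, 21, 4, 22, 10, 13],
   [1, 2, 0, 8, 21, 19, 11, 5, 17, 23, 22, 18, 10, 14, 15, 13, 9, 3, 6, 7, 4, 20, 12, 16],
   [18, 12, 14, 2, 0, 6, 22, 20, 17, 19, 10, 11, 5, 7, 16, 13, 4, 15, 3, 1, 23, 21, 9, 8],
   [20, 3, 4, 19, 17, 12, 9, 10, 1, 21, 22, 5, 7, 15, 2, 23, 11, 8, 14, 0, 16, 6, 13, 18],
   [10, 6, 13, 9, 22, 1, 20, 3, 7, 5, 19, 23, 14, 15, 2, 18, 8, 4, 11, 16, 0, 17, 12, 21],
   [11, 16, 15, 14, 18, 6, 17, 20, 8, 4, 22, 12, 5, 2, 0, 3, 13, 23, 21, 10, 7, 19, 9, 1],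
   [16, 15, 11, 6, 13, 9, 14, 20, 10, 1, 7, 0, 12, 17, 8, 4, 21, 19, 2, 18, 3, 5, 23, 22],
   [23, 9, 22, 11, 16, 19, 2, 1, 15, 13, 12, 8, 20, 6, 3, 4, 0, 7, 5, 18, 14, 17, 10, 21],
   [21, 7, 8, 20, 3, 13, 22, 17, 4, 10, 9, 16, 18, 0, 5, 23, 14, 6, 2, 19, 12, 15, 11, 1],
   [13, 10, 6, 0, 1, 11, 19, 23, 12, 5, 3, 21, 8, 20, 17, 4, 14, 9, 22, 16, 7, 2, 18, 15],
   [2, 0, 1, 22, 23, 12, 7, 13, 21, 18, 16, 15, 4, 3, 19, 10, 5, 20, 11, 8, 6, 9, 14, 17],
   [20, 3, 4, 8, 21, 9, 18, 1, 23, 19, 15, 2, 10, 0, 22, 6, 17, 11, 13, 5, 16, 7, 12, 14],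
   [19, 17, 5, 9, 22, 12, 23, 8, 4, 7, 3, 20, 2, 18, 0, 6, 10, 13, 11, 16, 21, 15, 1, 14],
   [23, 9, 22, 2, 0, 15, 1, 5, 19, 18, 12, 21, 7, 13, 14, 6, 20, 16, 11, 4, 8, 10, 17, 3],
   [8, 21, 7, 22, 23, 5, 9, 18, 1, 2, 13, 14, 0, 16, 12, 19, 15, 4, 11, 17, 10, 20, 6, 3],
   [10, 6, 13, 1, 2, 11, 8, 21, 17, 3, 9, 23, 4, 20, 5, 19, 7, 16, 18, 12, 14, 15, 0, 22],
   [13, 10, 6, 3, 4, 22, 21, 5, 2, 17, 7, 16, 15, 8, 9, 12, 11, 14, 23, 18, 1, 0, 20, 19],
   [19, 17, 5, 21, 7, 0, 20, 14, 1, 10, 6, 12, 3, 18, 23, 16, 13, 22, 15, 2, 9, 11, 8, 4],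
   [11, 16, 15, 19, 17, 2, 23, 1, 22, 3, 10, 18, 20, 4, 21, 8, 9, 7, 5, 6, 13, 0, 12, 14],
   [2, 0, 1, 20, 3, 10, 11, 18, 22, 7, 21, 16, 13, 14, 9, 19, 17, 15, 4, 12, 6, 8, 5, 23],
   [23, 9, 22, 16, 15, 4, 19, 14, 10, 18, 3, 13, 2, 20, 17, 6, 21, 7, 11, 0, 12, 1, 5, 8],
   [1, 2, 0, 23, 9, 3, 13, 10, 8, 22, 15, 4, 20, 21, 17, 18, 12, 5, 6, 11, 7, 19, 16, 14],
   [10, 6, 13, 4, 20, 17, 15, 19, 14, 3, 8, 7, 11, 9, 18, 0, 12, 22, 21, 16, 1, 2, 5, 23],
   [4, 20, 3, 21, 7, 0, 1, 6, 5, 8, 2, 10, 11, 23, 14, 19, 9, 17, 16, 13, 18, 22, 15, 12],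
   [4, 20, 3, 11, 16, 0, 22, 10, 21, 8, 12, 9, 5, 15, 23, 2, 6, 1, 13, 7, 18, 17, 14, 19],
   [23, 9, 22, 16, 15, 6, 17, 3, 19, 7, 2, 8, 14, 11, 10, 5, 18, 21, 1, 13, 12, 20, 4, 0],
   [5, 19, 17, 10, 6, 1, 2, 9, 12, 0, 4, 7, 16, 13, 18, 21, 20, 14, 11, 8, 23, 3, 15, 22],
   [21, 7, 8, 13, 10, 6, 23, 19, 9, 0, 2, 18, 3, 16, 1, 15, 11, 5, 17, 4, 12, 14, 22, 20],
   [8, 21, 7, 12, 14, 18, 1, 13, 3, 10, 17, 23, 16, 2, 11, 4, 22, 19, 15, 5, 0, 20, 9, 6],
   [23, 9, 22, 18, 12, 14, 15, 6, 19, 4, 8, 11, 3, 2, 10, 16, 5, 20, 21, 13, 17, 1, 0, 7],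
   [7, 8, 21, 2, 0, 23, 10, 15, 4, 13, 20, 3, 12, 9, 17, 1, 16, 11, 22, 18, 6, 14, 19, 5],
   [12, 14, 18, 0, 1, 8, 15, 19, 5, 21, 3, 13, 6, 16, 9, 2, 10, 4, 22, 20, 23, 17, 11, 7],
   [20, 3, 4, 22, 23, 6, 10, 21, 14, 17, 16, 7, 18, 0, 13, 9, 11, 12, 5, 8, 2, 15, 19, 1],
   [6, 13, 10, 0, 1, 22, 14, 8, 18, 16, 23, 12, 3, 9, 20, 19, 21, 7, 11, 5, 15, 17, 4, 2],
   [23, 9, 22, 7, 8, 11, 6, 16, 18, 13, 4, 1, 17, 5, 3, 14, 20, 19, 2, 10, 12, 0, 15, 21],
   [3, 4, 20, 14, 18, 17, 23, 7, 16, 13, 1, 10, 5, 8, 21, 6, 19, 0, 11, 15, 22, 9, 2, 12]]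

/-- Test that the cube of a table is the identity. -/
def cubeOne (l : List ℕ) : Bool := allLt (fun i => l.getD (l.getD (l.getD i 0) 0) 0 == i) 24

/-- The check on one table of the first coset. -/
def ord3Q (x : List ℕ) : Bool :=
  !(cubeOne x) || ((fixMask x == 0 && conjs3B.any (fun k => conjOK k x tB3)) ||
    (Nat.beq (pc (fixMask x)) 6 && conjs3A.any (fun k => conjOK k x tA3)))

/-- The check on one table of the second coset: no element of order 3 is a 3-cycle. -/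
def ord3Q' (x : List ℕ) : Bool :=
  !(cubeOne x) || !(allLt (fun i => Nat.ble i 2 || x.getD i 0 == i) 24)

theorem coset3_check : cosetAll ord3Q tB3 = true := by decide +kernel

theorem coset3_check' : cosetAll ord3Q' tA3 = true := by decide +kernel

theorem conjs3_ok : (conjs3A ++ conjs3B).all (fun l => tabIn [] l) = true := by decide +kernel

theorem tA3_in : tabIn [] tA3 = true := by decide +kernel

theorem tB3_in : tabIn [] tB3 = true := by decide +kernel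

/-- The element of order 3 with six fixed points. -/
noncomputable def uA3 : Equiv.Perm GolayPt := (tabIn_spec tA3_in).choose

/-- The fixed-point-free element of order 3. -/
noncomputable def uB3 : Equiv.Perm GolayPt := (tabIn_spec tB3_in).choose

theorem uA3_mem : uA3 ∈ M24 := (tabIn_spec tA3_in).choose_spec.1.1

theorem uB3_mem : uB3 ∈ M24 := (tabIn_spec tB3_in).choose_spec.1.1

theorem uA3_table : IsTable uA3 tA3 := (tabIn_spec tA3_in).choose_spec.2

theorem uB3_table : IsTable uB3 tB3 := (tabIn_spec tB3_in).choose_spec.2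

theorem perm_inv_apply (k : Equiv.Perm GolayPt) (p : GolayPt) : k⁻¹ (k p) = p :=
  k.symm_apply_apply p

theorem perm_apply_inv (k : Equiv.Perm GolayPt) (p : GolayPt) : k (k⁻¹ p) = p :=
  k.apply_symm_apply p

theorem cubeOne_of_cube {g : Equiv.Perm GolayPt} {x : List ℕ} (hx : IsTable g x)
    (hg : ∀ p, g (g (g p)) = p) : cubeOne x = true := by
  apply allLt_of_forall'
  intro k hk
  rw [beq_iff_eq]
  have h1 := hx (pt k)
  rw [idx_pt hk] at h1
  rw [h1, hx (g (pt k)), hx (g (g (pt k))), hg, idx_pt hk]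

theorem cube_of_cubeOne {g : Equiv.Perm GolayPt} {x : List ℕ} (hx : IsTable g x)
    (h : cubeOne x = true) : g ^ 3 = 1 := by
  apply Equiv.ext
  intro p
  show (g ^ 3) p = p
  have e : (g ^ 3) p = g (g (g p)) := by
    rw [pow_succ, pow_two]; rfl
  rw [e]
  have := allLt_spec h (idx p) (idx_lt p)
  rw [beq_iff_eq, hx p, hx (g p), hx (g (g p))] at this
  exact idx_injective this

theorem exists_mem_M24_apply₅ {p1 p2 p3 p4 p5 q1 q2 q3 q4 q5 : GolayPt}
    (hp : [p1, p2, p3, p4, p5].Nodup) (hq : [q1, q2, q3, q4, q5].Nodup) :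
    ∃ g ∈ M24, g p1 = q1 ∧ g p2 = q2 ∧ g p3 = q3 ∧ g p4 = q4 ∧ g p5 = q5 := by
  have inj : ∀ {a b c d e : GolayPt}, [a, b, c, d, e].Nodup →
      Function.Injective ![a, b, c, d, e] := by
    intro a b c d e h
    simp only [List.nodup_cons, List.mem_cons, List.not_mem_nil, or_false, not_or,
      not_false_eq_true, List.nodup_nil, and_true] at h
    obtain ⟨⟨h1, h2, h3, h4⟩, ⟨h5, h6, h7⟩, ⟨h8, h9⟩, h10⟩ := h
    intro m n hmn
    fin_cases m <;> fin_cases n <;> simp_all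
  let x : Fin 5 ↪ GolayPt := ⟨![p1, p2, p3, p4, p5], inj hp⟩
  let y : Fin 5 ↪ GolayPt := ⟨![q1, q2, q3, q4, q5], inj hq⟩
  have h5 := M24_fiveTransitive
  obtain ⟨g, hg⟩ :=
    (MulAction.isMultiplyPretransitive_iff (G := M24) (α := GolayPt) (n := 5)).mp h5 x y
  have hk : ∀ k, g.1 (x k) = y k := by
    intro k
    have := congrArg (fun f : Fin 5 ↪ GolayPt => f k) hg
    exact this
  exact ⟨g.1, g.2, hk 0, hk 1, hk 2, hk 3, hk 4⟩

/-- Normal form of an element of order 3: it is conjugate to one of two fixed elements, according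
to whether it has fixed points. -/
theorem ord3_normal (g : Equiv.Perm GolayPt) (hg : g ∈ M24) (hord : orderOf g = 3) :
    ((∀ p, g p ≠ p) ∧ ∃ k ∈ M24, k * g * k⁻¹ = uB3) ∨
      ((Finset.univ.filter fun p => g p = p).card = 6 ∧ ∃ k ∈ M24, k * g * k⁻¹ = uA3) := by
  have hcube : g ^ 3 = 1 := by rw [← hord]; exact pow_orderOf_eq_one g
  have hggg : ∀ p, g (g (g p)) = p := by
    intro p
    have := congrArg (fun f : Equiv.Perm GolayPt => f p) hcube
    have e : (g ^ 3) p = g (g (g p)) := by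
      rw [pow_succ, pow_two]; rfl
    rw [← e]; exact this
  have hne : g ≠ 1 := by
    intro h
    rw [h, orderOf_one] at hord
    exact absurd hord (by norm_num)
  obtain ⟨a, ha⟩ : ∃ a, g a ≠ a := by
    by_contra hno
    push Not at hno
    exact hne (Equiv.ext hno)
  have ha2 : g (g a) ≠ a := by
    intro h
    apply ha
    have := hggg a
    rw [h] at this
    exact this
  have ha3 : g (g a) ≠ g a := fun h => ha (g.injective h)
  have hfixconj : ∀ (k : Equiv.Perm GolayPt) (p : GolayPt),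
      g p = p ↔ (k * g * k⁻¹) (k p) = k p := by
    intro k p
    show g p = p ↔ k (g (k⁻¹ (k p))) = k p
    rw [perm_inv_apply]
    exact k.injective.eq_iff.symm
  by_cases hb : ∃ b, b ≠ a ∧ b ≠ g a ∧ b ≠ g (g a) ∧ g b ≠ b
  · obtain ⟨b, hba, hbga, hbgga, hgb⟩ := hb
    have hgba : g b ≠ a := by
      intro h
      apply hbgga
      have := hggg b
      rw [h] at this
      exact this.symm
    have hgbga : g b ≠ g a := fun h => hba (g.injective h)
    have hgbgga : g b ≠ g (g a) := fun h => hbga (g.injective h)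
    obtain ⟨k, hk, hk0, hk1, hk2, hk3, hk4⟩ := exists_mem_M24_apply₅ (p1 := a) (p2 := g a)
      (p3 := g (g a)) (p4 := b) (p5 := g b) (q1 := pt 0) (q2 := pt 1) (q3 := pt 2) (q4 := pt 3)
      (q5 := pt 4)
      (by simp [Ne.symm ha, Ne.symm ha2, Ne.symm hba, Ne.symm hgba, Ne.symm ha3, Ne.symm hbga,
        Ne.symm hgbga, Ne.symm hbgga, Ne.symm hgbgga, Ne.symm hgb])
      (by decide)
    have hki : ∀ {p q : GolayPt}, k p = q → k⁻¹ q = p := by
      intro p q h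
      rw [Equiv.Perm.inv_eq_iff_eq, h]
    have hg' : k * g * k⁻¹ ∈ M24 := M24.mul_mem (M24.mul_mem hk hg) (M24.inv_mem hk)
    have e0 : (k * g * k⁻¹) (pt 0) = pt 1 := by
      show k (g (k⁻¹ (pt 0))) = pt 1
      rw [hki hk0, hk1]
    have e1 : (k * g * k⁻¹) (pt 1) = pt 2 := by
      show k (g (k⁻¹ (pt 1))) = pt 2
      rw [hki hk1, hk2]
    have e2 : (k * g * k⁻¹) (pt 2) = pt 0 := by
      show k (g (k⁻¹ (pt 2))) = pt 0
      rw [hki hk2, hggg, hk0]
    have e3 : (k * g * k⁻¹) (pt 3) = pt 4 := by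
      show k (g (k⁻¹ (pt 3))) = pt 4
      rw [hki hk3, hk4]
    have t0 : uB3 (pt 0) = pt 1 := apply_of_table uB3_table (by norm_num)
    have t1 : uB3 (pt 1) = pt 2 := apply_of_table uB3_table (by norm_num)
    have t2 : uB3 (pt 2) = pt 0 := apply_of_table uB3_table (by norm_num)
    have t3 : uB3 (pt 3) = pt 4 := apply_of_table uB3_table (by norm_num)
    have hh : uB3⁻¹ * (k * g * k⁻¹) ∈ fixer (setOf 15) := by
      rw [mem_fixer]
      refine ⟨M24.mul_mem (M24.inv_mem uB3_mem) hg', ?_⟩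
      intro p hp
      show uB3⁻¹ ((k * g * k⁻¹) p) = p
      rw [Equiv.Perm.inv_eq_iff_eq]
      rcases setOf15_cases p hp with h | h | h | h
      · rw [h, e0, t0]
      · rw [h, e1, t1]
      · rw [h, e2, t2]
      · rw [h, e3, t3]
    obtain ⟨la, hla, lb, hlb, lc, hlc, htab⟩ := fixer4_tables _ hh
    have htab' : IsTable (k * g * k⁻¹) (mulTab tB3 (mulTab (mulTab la lb) lc)) := by
      have := isTable_mulTab uB3_table htab
      rwa [mul_inv_cancel_left] at this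
    have hQ : ord3Q (mulTab tB3 (mulTab (mulTab la lb) lc)) = true := by
      have h1 := coset3_check
      unfold cosetAll at h1
      exact List.all_eq_true.mp (List.all_eq_true.mp (List.all_eq_true.mp h1 la hla) lb hlb) lc hlc
    have hcube' : ∀ p, (k * g * k⁻¹) ((k * g * k⁻¹) ((k * g * k⁻¹) p)) = p := by
      intro p
      show k (g (k⁻¹ (k (g (k⁻¹ (k (g (k⁻¹ p)))))))) = p
      rw [perm_inv_apply, perm_inv_apply, hggg, perm_apply_inv]
    unfold ord3Q at hQ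
    rw [cubeOne_of_cube htab' hcube'] at hQ
    simp only [Bool.not_true, Bool.false_or, Bool.or_eq_true, Bool.and_eq_true, beq_iff_eq,
      List.any_eq_true] at hQ
    have hallin := List.all_eq_true.mp conjs3_ok
    rcases hQ with ⟨hF, kt, hkt, hconj⟩ | ⟨hF, kt, hkt, hconj⟩
    · left
      obtain ⟨K, hK, hKt⟩ := tabIn_spec (hallin kt (List.mem_append_right _ hkt))
      rw [stabM_nil] at hK
      have hc := conj_of_conjOK hKt htab' uB3_table hconj
      constructor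
      · intro p hp
        have h1 : k p ∈ Finset.univ.filter fun q => (k * g * k⁻¹) q = q := by
          rw [Finset.mem_filter]
          exact ⟨Finset.mem_univ _, (hfixconj k p).mp hp⟩
        rw [← setOf_fixMask htab', hF, setOf_zero] at h1
        exact absurd h1 (Finset.notMem_empty _)
      · refine ⟨K * k, M24.mul_mem hK hk, ?_⟩
        rw [← hc]
        group
    · right
      obtain ⟨K, hK, hKt⟩ := tabIn_spec (hallin kt (List.mem_append_left _ hkt))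
      rw [stabM_nil] at hK
      have hc := conj_of_conjOK hKt htab' uA3_table hconj
      constructor
      · have h1 : (Finset.univ.filter fun p => g p = p) =
            k⁻¹ • Finset.univ.filter fun q => (k * g * k⁻¹) q = q := by
          ext p
          rw [mem_smul_iff, inv_inv, Finset.mem_filter, Finset.mem_filter]
          simp only [Finset.mem_univ, true_and]
          exact hfixconj k p
        rw [h1, Finset.card_smul_finset, ← setOf_fixMask htab', card_setOf]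
        · exact Nat.eq_of_beq_eq_true hF
        · unfold fixMask
          exact bitsToNat_lt _ _
      · refine ⟨K * k, M24.mul_mem hK hk, ?_⟩
        rw [← hc]
        group
  · exfalso
    push Not at hb
    obtain ⟨b, -, hba, hbga, hbgga⟩ := exists_mem_ne₃ Finset.univ
      (by rw [Finset.card_univ, ← Nat.card_eq_fintype_card, card_GolayPt]; norm_num) a (g a) (g (g a))
    have hgb : g b = b := hb b hba hbga hbgga
    obtain ⟨k, hk, hk0, hk1, hk2, hk3⟩ := exists_mem_M24_apply₄ (p1 := a) (p2 := g a)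
      (p3 := g (g a)) (p4 := b) (q1 := pt 0) (q2 := pt 1) (q3 := pt 2) (q4 := pt 3)
      (by simp [Ne.symm ha, Ne.symm ha2, Ne.symm hba, Ne.symm ha3, Ne.symm hbga, Ne.symm hbgga])
      (by decide)
    have hki : ∀ {p q : GolayPt}, k p = q → k⁻¹ q = p := by
      intro p q h
      rw [Equiv.Perm.inv_eq_iff_eq, h]
    have hg' : k * g * k⁻¹ ∈ M24 := M24.mul_mem (M24.mul_mem hk hg) (M24.inv_mem hk)
    have e0 : (k * g * k⁻¹) (pt 0) = pt 1 := by
      show k (g (k⁻¹ (pt 0))) = pt 1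
      rw [hki hk0, hk1]
    have e1 : (k * g * k⁻¹) (pt 1) = pt 2 := by
      show k (g (k⁻¹ (pt 1))) = pt 2
      rw [hki hk1, hk2]
    have e2 : (k * g * k⁻¹) (pt 2) = pt 0 := by
      show k (g (k⁻¹ (pt 2))) = pt 0
      rw [hki hk2, hggg, hk0]
    have e3 : (k * g * k⁻¹) (pt 3) = pt 3 := by
      show k (g (k⁻¹ (pt 3))) = pt 3
      rw [hki hk3, hgb, hk3]
    have t0 : uA3 (pt 0) = pt 1 := apply_of_table uA3_table (by norm_num)
    have t1 : uA3 (pt 1) = pt 2 := apply_of_table uA3_table (by norm_num)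
    have t2 : uA3 (pt 2) = pt 0 := apply_of_table uA3_table (by norm_num)
    have t3 : uA3 (pt 3) = pt 3 := apply_of_table uA3_table (by norm_num)
    have hh : uA3⁻¹ * (k * g * k⁻¹) ∈ fixer (setOf 15) := by
      rw [mem_fixer]
      refine ⟨M24.mul_mem (M24.inv_mem uA3_mem) hg', ?_⟩
      intro p hp
      show uA3⁻¹ ((k * g * k⁻¹) p) = p
      rw [Equiv.Perm.inv_eq_iff_eq]
      rcases setOf15_cases p hp with h | h | h | h
      · rw [h, e0, t0]
      · rw [h, e1, t1]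
      · rw [h, e2, t2]
      · rw [h, e3, t3]
    obtain ⟨la, hla, lb, hlb, lc, hlc, htab⟩ := fixer4_tables _ hh
    have htab' : IsTable (k * g * k⁻¹) (mulTab tA3 (mulTab (mulTab la lb) lc)) := by
      have := isTable_mulTab uA3_table htab
      rwa [mul_inv_cancel_left] at this
    have hQ : ord3Q' (mulTab tA3 (mulTab (mulTab la lb) lc)) = true := by
      have h1 := coset3_check'
      unfold cosetAll at h1
      exact List.all_eq_true.mp (List.all_eq_true.mp (List.all_eq_true.mp h1 la hla) lb hlb) lc hlc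
    have hcube' : ∀ p, (k * g * k⁻¹) ((k * g * k⁻¹) ((k * g * k⁻¹) p)) = p := by
      intro p
      show k (g (k⁻¹ (k (g (k⁻¹ (k (g (k⁻¹ p)))))))) = p
      rw [perm_inv_apply, perm_inv_apply, hggg, perm_apply_inv]
    unfold ord3Q' at hQ
    rw [cubeOne_of_cube htab' hcube', Bool.not_true, Bool.false_or, Bool.not_eq_true'] at hQ
    have hall : allLt (fun i => Nat.ble i 2 ||
        (mulTab tA3 (mulTab (mulTab la lb) lc)).getD i 0 == i) 24 = true := by
      apply allLt_of_forall'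
      intro i hi
      by_cases h2 : i ≤ 2
      · rw [Nat.ble_eq_true_of_le h2, Bool.true_or]
      · rw [Bool.or_eq_true]
        right
        rw [beq_iff_eq]
        have h3 := htab' (pt i)
        rw [idx_pt hi] at h3
        rw [h3]
        have h4 : (k * g * k⁻¹) (pt i) = pt i := by
          show k (g (k⁻¹ (pt i))) = pt i
          have hne1 : k⁻¹ (pt i) ≠ a := by
            intro h
            have h5 : pt i = pt 0 := by rw [← hk0, ← h, perm_apply_inv]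
            have h6 := congrArg idx h5
            rw [idx_pt hi, idx_pt (by norm_num)] at h6
            omega
          have hne2 : k⁻¹ (pt i) ≠ g a := by
            intro h
            have h5 : pt i = pt 1 := by rw [← hk1, ← h, perm_apply_inv]
            have h6 := congrArg idx h5
            rw [idx_pt hi, idx_pt (by norm_num)] at h6
            omega
          have hne3 : k⁻¹ (pt i) ≠ g (g a) := by
            intro h
            have h5 : pt i = pt 2 := by rw [← hk2, ← h, perm_apply_inv]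
            have h6 := congrArg idx h5
            rw [idx_pt hi, idx_pt (by norm_num)] at h6
            omega
          have h7 : g (k⁻¹ (pt i)) = k⁻¹ (pt i) := hb (k⁻¹ (pt i)) hne1 hne2 hne3
          rw [h7, perm_apply_inv]
        rw [h4, idx_pt hi]
    rw [hall] at hQ
    exact absurd hQ (by decide)

theorem orderOf_eq_three {g : Equiv.Perm GolayPt} (h : g ^ 3 = 1) (hne : g ≠ 1) : orderOf g = 3 := by
  have : Fact (Nat.Prime 3) := ⟨Nat.prime_three⟩
  exact orderOf_eq_prime h hne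

theorem uA3_order : orderOf uA3 = 3 := by
  apply orderOf_eq_three
  · exact cube_of_cubeOne uA3_table (by decide +kernel)
  · intro h
    have t0 : uA3 (pt 0) = pt 1 := apply_of_table uA3_table (by norm_num)
    rw [h] at t0
    revert t0
    decide

theorem uB3_order : orderOf uB3 = 3 := by
  apply orderOf_eq_three
  · exact cube_of_cubeOne uB3_table (by decide +kernel)
  · intro h
    have t0 : uB3 (pt 0) = pt 1 := apply_of_table uB3_table (by norm_num)
    rw [h] at t0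
    revert t0
    decide

theorem uA3_fix : (Finset.univ.filter fun p => uA3 p = p).card = 6 := by
  rw [← setOf_fixMask uA3_table, card_setOf (by unfold fixMask; exact bitsToNat_lt _ _)]
  decide +kernel

theorem uB3_fix : ∀ p, uB3 p ≠ p := by
  intro p hp
  have h1 : p ∈ Finset.univ.filter fun q => uB3 q = q := by
    rw [Finset.mem_filter]
    exact ⟨Finset.mem_univ _, hp⟩
  rw [← setOf_fixMask uB3_table] at h1
  have h0 : fixMask tB3 = 0 := by decide +kernel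
  rw [h0, setOf_zero] at h1
  exact absurd h1 (Finset.notMem_empty _)

end Cfsg.Agent.Lib.helper27
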