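import Cfsg.Agent.Lib.helper27.CentD
import Cfsg.Agent.Lib.helper27.Ord3

set_option autoImplicit false

namespace Cfsg.Agent.Lib.helper27

open Cfsg Cfsg.Agent.Lib.helper28
open scoped Pointwise

/-! A generic kernel search for the elements `c` of the group of the code with `c * x = y * c`:
such an element is determined by the images of one point in each cycle of `x`. -/

/-- The canonical table of a permutation. -/
def tblOf (c : Equiv.Perm GolayPt) : List ℕ := (List.range 24).map fun i => idx (c (pt i))

theorem isTable_tblOf (c : Equiv.Perm GolayPt) : IsTable c (tblOf c) := by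
  intro p
  rw [tblOf, getD_map_range _ (idx_lt p), pt_idx]

theorem tblOf_length (c : Equiv.Perm GolayPt) : (tblOf c).length = 24 := by simp [tblOf]

theorem eq_tblOf {c : Equiv.Perm GolayPt} {l : List ℕ} (h : IsTable c l) (hl : l.length = 24) :
    l = tblOf c := by
  apply List.ext_getElem (by rw [hl, tblOf_length])
  intro i h1 h2
  have hi : i < 24 := by rw [hl] at h1; exact h1
  have e1 := getD_of_isTable h hi
  have e2 := getD_of_isTable (isTable_tblOf c) hi
  rw [List.getD_eq_getElem _ _ h1] at e1
  rw [List.getD_eq_getElem _ _ h2] at e2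
  rw [e1, e2]

/-- A level of the search: whether the base point is fixed by `x`, a mask restricting the
image of the base point, the exponents of the new cycle, and the code tests, each a packed list
of eight pairs (level, exponent). -/
abbrev SLevel := Bool × ℕ × List ℕ × List ℕ

/-- The `i`-th chosen image in the packed list of images. -/
def getV (V i : ℕ) : ℕ := Nat.mod (Nat.div V (Nat.pow 32 i)) 32

/-- The value of the pair (level, exponent) for the packed list of chosen images. -/
def sevN (yv : ℕ → ℕ → ℕ) (V : ℕ) (ik : ℕ × ℕ) : ℕ := yv ik.2 (getV V ik.1)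

/-- Fast code test for a set of indices. -/
def imgCWF (es : List ℕ) : Bool :=
  (fun m => Nat.beq (cwF (Nat.shiftRight m 12)) m) (orList (es.map fun e => 2 ^ e))

theorem imgCWF_eq (es : List ℕ) (h : ∀ e ∈ es, e < 24) : imgCWF es = imgCW es := by
  have hlt := orList_pow_lt es h
  have h12 : orList (es.map fun e => 2 ^ e) >>> 12 < 4096 := by
    rw [Nat.shiftRight_eq_div_pow]
    omega
  show Nat.beq (cwF (orList (es.map fun e => 2 ^ e) >>> 12)) (orList (es.map fun e => 2 ^ e)) =
    (cw (orList (es.map fun e => 2 ^ e) >>> 12) == orList (es.map fun e => 2 ^ e))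
  rw [natBeq_eq, cwF_eq h12]

/-- The `e`-th pair of a packed code test. -/
def unpackPair (O e : ℕ) : ℕ × ℕ :=
  (Nat.land (Nat.shiftRight O (Nat.mul 10 e)) 31,
    Nat.land (Nat.shiftRight O (Nat.add (Nat.mul 10 e) 5)) 31)

/-- The pairs of a packed code test. -/
def unpackO (O : ℕ) : List (ℕ × ℕ) :=
  [unpackPair O 0, unpackPair O 1, unpackPair O 2, unpackPair O 3, unpackPair O 4,
    unpackPair O 5, unpackPair O 6, unpackPair O 7]

/-- The bit of the image of the `e`-th point of a packed code test. -/
def entBit (yv : ℕ → ℕ → ℕ) (V O e : ℕ) : ℕ :=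
  2 ^ (yv (Nat.land (Nat.shiftRight O (Nat.add (Nat.mul 10 e) 5)) 31)
    (getV V (Nat.land (Nat.shiftRight O (Nat.mul 10 e)) 31)))

/-- A packed code test, without lists. -/
def tst8 (yv : ℕ → ℕ → ℕ) (V O : ℕ) : Bool :=
  (fun m => Nat.beq (cwF (Nat.shiftRight m 12)) m)
    (entBit yv V O 0 ||| (entBit yv V O 1 ||| (entBit yv V O 2 ||| (entBit yv V O 3 |||
      (entBit yv V O 4 ||| (entBit yv V O 5 ||| (entBit yv V O 6 ||| (entBit yv V O 7 ||| 0))))))))

theorem tst8_eq (yv : ℕ → ℕ → ℕ) (V O : ℕ) :
    tst8 yv V O = imgCWF ((unpackO O).map (sevN yv V)) := rfl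

/-- The search: `j` is the level, `V` the packed list of the chosen images, `used` the mask of
the images of the points treated so far; `FY` is the mask of the fixed points of `y`. -/
def srchN (yv : ℕ → ℕ → ℕ) (FY : ℕ) (src : List (ℕ × ℕ)) (P : List ℕ → Bool) :
    List SLevel → ℕ → ℕ → ℕ → Bool
  | [], _, V, _ => P (src.map (sevN yv V))
  | L :: rest, j, V, used =>
      forceNat (Nat.land (Nat.land L.2.1 (Nat.xor used 16777215))
          (match L.1 with
            | true => FY
            | false => Nat.xor FY 16777215)) (fun avail =>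
        allLt (fun v =>
          Nat.beq (Nat.land 1 (Nat.shiftRight avail v)) 0 ||
          forceNat (Nat.add V (Nat.mul v (Nat.pow 32 j))) (fun V' =>
            !(L.2.2.2.all (fun O => tst8 yv V' O)) ||
            forceNat (Nat.lor used (orList (L.2.2.1.map (fun k => 2 ^ (yv k v))))) (fun used' =>
              srchN yv FY src P rest (Nat.succ j) V' used'))) 24)

theorem beq_land_shift (a v : ℕ) :
    Nat.beq (Nat.land 1 (Nat.shiftRight a v)) 0 = !(a.testBit v) := by
  rw [natBeq_eq]
  show (1 &&& a >>> v == 0) = !(!(1 &&& a >>> v == 0))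
  rw [Bool.not_not]

theorem testBit_compl24 (a v : ℕ) (hv : v < 24) :
    (Nat.xor a 16777215).testBit v = !(a.testBit v) := by
  show (a ^^^ 16777215).testBit v = !(a.testBit v)
  rw [Nat.testBit_xor, show (16777215 : ℕ) = 2 ^ 24 - 1 by norm_num,
    Nat.testBit_two_pow_sub_one]
  simp [hv]

/-- The point given by a pair (level, exponent). -/
def pairPt (X B : List ℕ) (ik : ℕ × ℕ) : ℕ := (powTab X ik.2).getD (B.getD ik.1 0) 0

/-- Consistency of the data of the levels. -/
def specLevels (X B : List ℕ) (K : ℕ) : List SLevel → ℕ → List ℕ → Bool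
  | [], j, _ => j == B.length
  | L :: rest, j, cov =>
      Nat.blt j B.length && Nat.blt (B.getD j 0) 24 && !(cov.contains (B.getD j 0)) &&
      L.2.2.1.all (fun k => Nat.blt k K) &&
      L.2.2.2.all (fun O => (unpackO O).all (fun ik => Nat.ble ik.1 j && Nat.blt ik.2 K &&
        Nat.blt (B.getD ik.1 0) 24) && imgCW ((unpackO O).map (pairPt X B))) &&
      (Nat.blt 1 K && ((pairPt X B (j, 1) == B.getD j 0) == L.1)) &&
      specLevels X B K rest (j + 1) (cov ++ L.2.2.1.map (fun k => pairPt X B (j, k)))

/-- Consistency of the data of the final table. -/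
def srcOK (X B : List ℕ) (K : ℕ) (src : List (ℕ × ℕ)) : Bool :=
  src.length == 24 &&
  allLt (fun q => Nat.blt (src.getD q (0, 0)).1 B.length && Nat.blt (src.getD q (0, 0)).2 K &&
    Nat.blt (B.getD (src.getD q (0, 0)).1 0) 24 && pairPt X B (src.getD q (0, 0)) == q) 24

theorem pairPt_lt {x : Equiv.Perm GolayPt} {X : List ℕ} (hx : IsTable x X) (B : List ℕ)
    (ik : ℕ × ℕ) (hb : B.getD ik.1 0 < 24) : pairPt X B ik < 24 := by
  unfold pairPt
  rw [getD_of_isTable (isTable_powTab hx ik.2) hb]
  exact idx_lt _

/-- The basic relation: the image of the point `x ^ k b` is the image of `b` under `y ^ k`. -/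
theorem yv_eq {x y c : Equiv.Perm GolayPt} {X Y : List ℕ} (hx : IsTable x X) (hy : IsTable y Y)
    (hc : c * x = y * c) (yv : ℕ → ℕ → ℕ) (K : ℕ)
    (hyv : allLt (fun k => allLt (fun v => (powTab Y k).getD v 0 == yv k v) 24) K = true)
    (b k : ℕ) (hk : k < K) (hb : b < 24) :
    yv k (idx (c (pt b))) = idx (c (pt ((powTab X k).getD b 0))) := by
  rw [← beq_iff_eq.mp (allLt_spec (allLt_spec hyv k hk) _ (idx_lt _))]
  have hyk := isTable_powTab hy k
  have hxk := isTable_powTab hx k
  rw [hyk (c (pt b))]
  have h1 : (x ^ k) (pt b) = pt ((powTab X k).getD b 0) := apply_tab hxk hb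
  rw [← h1]
  have h2 : c * x ^ k = y ^ k * c := SemiconjBy.pow_right (show SemiconjBy c x y from hc) k
  exact congrArg idx
    (congrFun (congrArg (fun g : Equiv.Perm GolayPt => (g : GolayPt → GolayPt)) h2.symm) _)

theorem sevN_eq {x y c : Equiv.Perm GolayPt} {X Y : List ℕ} (hx : IsTable x X) (hy : IsTable y Y)
    (hc : c * x = y * c) (yv : ℕ → ℕ → ℕ) (K : ℕ)
    (hyv : allLt (fun k => allLt (fun v => (powTab Y k).getD v 0 == yv k v) 24) K = true)
    (B : List ℕ) (V i k : ℕ) (hk : k < K) (hb : B.getD i 0 < 24)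
    (hv : getV V i = idx (c (pt (B.getD i 0)))) :
    sevN yv V (i, k) = idx (c (pt (pairPt X B (i, k)))) := by
  unfold sevN pairPt
  simp only
  rw [hv]
  exact yv_eq hx hy hc yv K hyv _ k hk hb

theorem getV_add_lt {V v j i : ℕ} (hi : i < j) : getV (V + v * 32 ^ j) i = getV V i := by
  show (V + v * 32 ^ j) / 32 ^ i % 32 = V / 32 ^ i % 32
  obtain ⟨d, rfl⟩ := Nat.exists_eq_add_of_lt hi
  have e : v * 32 ^ (i + d + 1) = 32 ^ i * (32 * (v * 32 ^ d)) := by ring
  rw [e, Nat.add_mul_div_left _ _ (by positivity), Nat.add_mul_mod_self_left]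

theorem getV_add_eq {V v j : ℕ} (hV : V < 32 ^ j) (hv : v < 32) :
    getV (V + v * 32 ^ j) j = v := by
  show (V + v * 32 ^ j) / 32 ^ j % 32 = v
  rw [Nat.add_mul_div_right _ _ (by positivity), Nat.div_eq_of_lt hV, Nat.zero_add,
    Nat.mod_eq_of_lt hv]

theorem add_pack_lt {V v j : ℕ} (hV : V < 32 ^ j) (hv : v < 32) :
    V + v * 32 ^ j < 32 ^ (j + 1) := by
  have h1 : v * 32 ^ j ≤ 31 * 32 ^ j := Nat.mul_le_mul_right _ (by omega)
  have h2 : 32 ^ (j + 1) = 32 ^ j + 31 * 32 ^ j := by ring
  omega

theorem srchN_aux {x y c : Equiv.Perm GolayPt} {X Y : List ℕ} (hx : IsTable x X)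
    (hy : IsTable y Y) (hcM : c ∈ M24) (hc : c * x = y * c) (yv : ℕ → ℕ → ℕ) (K : ℕ)
    (hyv : allLt (fun k => allLt (fun v => (powTab Y k).getD v 0 == yv k v) 24) K = true)
    (FY : ℕ) (hFY : allLt (fun v => Nat.testBit FY v == Nat.beq (yv 1 v) v) 24 = true)
    (B : List ℕ) (src : List (ℕ × ℕ)) (P : List ℕ → Bool) :
    ∀ (rest : List SLevel) (j : ℕ) (cov : List ℕ) (V used : ℕ),
      specLevels X B K rest j cov = true → (∀ q ∈ cov, q < 24) → V < 32 ^ j →
      (∀ i < j, getV V i = idx (c (pt (B.getD i 0)))) →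
      (∀ w, used.testBit w = true ↔ ∃ q ∈ cov, idx (c (pt q)) = w) →
      (∀ (i : ℕ) (L : SLevel), rest[i]? = some L →
        L.2.1.testBit (idx (c (pt (B.getD (j + i) 0)))) = true) →
      srchN yv FY src P rest j V used = true →
      ∃ V', (∀ i < B.length, getV V' i = idx (c (pt (B.getD i 0)))) ∧
        P (src.map (sevN yv V')) = true := by
  intro rest
  induction rest with
  | nil =>
    intro j cov V used hs _ _ hV _ _ h
    have hj : j = B.length := by
      unfold specLevels at hs
      exact beq_iff_eq.mp hs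
    unfold srchN at h
    exact ⟨V, hj ▸ hV, h⟩
  | cons L rest ih =>
    intro j cov V used hs hcov hVlt hV hused hmask h
    unfold specLevels at hs
    simp only [Bool.and_eq_true] at hs
    obtain ⟨⟨⟨⟨⟨⟨hjB, hbj⟩, hnc⟩, hL1⟩, hL2⟩, h1K, hfx⟩, hrest⟩ := hs
    have hjB' : j < B.length := Nat.le_of_ble_eq_true hjB
    have hbj' : B.getD j 0 < 24 := Nat.le_of_ble_eq_true hbj
    unfold srchN at h
    rw [forceNat_eq] at h
    have hstep := allLt_spec h (idx (c (pt (B.getD j 0)))) (idx_lt _)
    rw [forceNat_eq] at hstep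
    have hv32 : idx (c (pt (B.getD j 0))) < 32 := lt_trans (idx_lt _) (by norm_num)
    -- the new packed list
    have hV' : ∀ i < j + 1, getV (V + idx (c (pt (B.getD j 0))) * 32 ^ j) i =
        idx (c (pt (B.getD i 0))) := by
      intro i hi
      rcases Nat.lt_succ_iff_lt_or_eq.mp hi with h' | h'
      · rw [getV_add_lt h', hV i h']
      · rw [h', getV_add_eq hVlt hv32]
    have hval : ∀ i k, i ≤ j → k < K → B.getD i 0 < 24 →
        sevN yv (V + idx (c (pt (B.getD j 0))) * 32 ^ j) (i, k) =
          idx (c (pt (pairPt X B (i, k)))) := by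
      intro i k hi hk hb
      exact sevN_eq hx hy hc yv K hyv B _ i k hk hb (hV' i (Nat.lt_succ_of_le hi))
    have hy1 : yv 1 (idx (c (pt (B.getD j 0)))) = idx (c (pt (pairPt X B (j, 1)))) :=
      yv_eq hx hy hc yv K hyv _ 1 (Nat.le_of_ble_eq_true h1K) hbj'
    have hFYv := beq_iff_eq.mp (allLt_spec hFY (idx (c (pt (B.getD j 0)))) (idx_lt _))
    -- the image is fixed by `y` exactly when the base point is fixed by `x`
    have hfix : Nat.beq (yv 1 (idx (c (pt (B.getD j 0))))) (idx (c (pt (B.getD j 0)))) = L.1 := by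
      rw [← beq_iff_eq.mp hfx, natBeq_eq, hy1]
      by_cases hpb : pairPt X B (j, 1) = B.getD j 0
      · rw [hpb, beq_self_eq_true, beq_self_eq_true]
      · rw [beq_eq_false_iff_ne.mpr hpb, beq_eq_false_iff_ne]
        intro hcon
        have h3 := c.injective (idx_injective hcon)
        have h4 := congrArg idx h3
        rw [idx_pt (pairPt_lt hx B (j, 1) hbj'), idx_pt hbj'] at h4
        exact hpb h4
    have hunused : used.testBit (idx (c (pt (B.getD j 0)))) = false := by
      by_contra hcon
      rw [Bool.not_eq_false] at hcon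
      obtain ⟨q, hq, hqe⟩ := (hused _).mp hcon
      have h3 := c.injective (idx_injective hqe)
      have h4 := congrArg idx h3
      rw [idx_pt (hcov q hq), idx_pt hbj'] at h4
      rw [h4] at hq
      rw [Bool.not_eq_true'] at hnc
      have := List.contains_iff_mem.mpr hq
      rw [hnc] at this
      exact absurd this (by decide)
    have hm0 : L.2.1.testBit (idx (c (pt (B.getD j 0)))) = true := by
      have := hmask 0 L (List.getElem?_cons_zero)
      rwa [Nat.add_zero] at this
    have htest1 : Nat.beq (Nat.land 1 (Nat.shiftRight (Nat.land (Nat.land L.2.1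
        (Nat.xor used 16777215)) (match L.1 with
            | true => FY
            | false => Nat.xor FY 16777215)) (idx (c (pt (B.getD j 0)))))) 0 = false := by
      rw [beq_land_shift, Bool.not_eq_false']
      show ((L.2.1 &&& Nat.xor used 16777215) &&& (match L.1 with
            | true => FY
            | false => Nat.xor FY 16777215)).testBit (idx (c (pt (B.getD j 0)))) = true
      rw [Nat.testBit_and, Nat.testBit_and, hm0, testBit_compl24 _ _ (idx_lt _), hunused]
      rw [← hFYv] at hfix
      cases hL : L.1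
      · rw [hL] at hfix
        simp only [Bool.not_false, Bool.and_self, Bool.true_and]
        rw [testBit_compl24 _ _ (idx_lt _), hfix]
        rfl
      · rw [hL] at hfix
        simp only [Bool.not_false, Bool.and_self, Bool.true_and]
        exact hfix
    rw [htest1, Bool.false_or] at hstep
    have htest2 : L.2.2.2.all (fun O => tst8 yv
        (V + idx (c (pt (B.getD j 0))) * 32 ^ j) O) = true := by
      rw [List.all_eq_true]
      intro O' hO
      have hO' := List.all_eq_true.mp hL2 O' hO
      rw [tst8_eq]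
      generalize unpackO O' = O at hO' ⊢
      rw [Bool.and_eq_true] at hO'
      obtain ⟨hO1, hO2⟩ := hO'
      have hOlt : ∀ q ∈ O.map (pairPt X B), q < 24 := by
        intro q hq
        rw [List.mem_map] at hq
        obtain ⟨ik, hik, rfl⟩ := hq
        have := List.all_eq_true.mp hO1 ik hik
        simp only [Bool.and_eq_true] at this
        exact pairPt_lt hx B ik (Nat.le_of_ble_eq_true this.2)
      have e : O.map (sevN yv (V + idx (c (pt (B.getD j 0))) * 32 ^ j)) =
          (O.map (pairPt X B)).map fun q => (tblOf c).getD q 0 := by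
        rw [List.map_map]
        apply List.map_congr_left
        intro ik hik
        have := List.all_eq_true.mp hO1 ik hik
        simp only [Bool.and_eq_true] at this
        obtain ⟨⟨h1, h2⟩, h3⟩ := this
        have hb : B.getD ik.1 0 < 24 := Nat.le_of_ble_eq_true h3
        show sevN yv _ ik = (tblOf c).getD (pairPt X B ik) 0
        rw [getD_of_isTable (isTable_tblOf c) (pairPt_lt hx B ik hb)]
        exact hval ik.1 ik.2 (Nat.le_of_ble_eq_true h1) (Nat.le_of_ble_eq_true h2) hb
      rw [e, imgCWF_eq]
      · exact imgCW_of_mem hcM (isTable_tblOf c) _ hOlt hO2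
      · intro v hv
        rw [List.mem_map] at hv
        obtain ⟨q, hq, rfl⟩ := hv
        rw [getD_of_isTable (isTable_tblOf c) (hOlt q hq)]
        exact idx_lt _
    have hstep' : srchN yv FY src P rest (Nat.succ j) (V + idx (c (pt (B.getD j 0))) * 32 ^ j)
        (Nat.lor used (orList (L.2.2.1.map
          (fun k => 2 ^ (yv k (idx (c (pt (B.getD j 0)))))))) ) = true := by
      have h5 : (Nat.add V (Nat.mul (idx (c (pt (B.getD j 0)))) (Nat.pow 32 j))) =
          V + idx (c (pt (B.getD j 0))) * 32 ^ j := rfl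
      rw [h5, htest2, Bool.not_true, Bool.false_or, forceNat_eq] at hstep
      exact hstep
    apply ih (j + 1) (cov ++ L.2.2.1.map (fun k => pairPt X B (j, k))) _ _ hrest _
      (add_pack_lt hVlt hv32) hV' _ _ hstep'
    · intro q hq
      rw [List.mem_append] at hq
      rcases hq with hq | hq
      · exact hcov q hq
      · rw [List.mem_map] at hq
        obtain ⟨k, _, rfl⟩ := hq
        exact pairPt_lt hx B (j, k) hbj'
    · intro w
      have e : (Nat.lor used (orList (L.2.2.1.map
          (fun k => 2 ^ (yv k (idx (c (pt (B.getD j 0))))))))).testBit w =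
          (used.testBit w || (orList (L.2.2.1.map
          (fun k => 2 ^ (yv k (idx (c (pt (B.getD j 0)))))))).testBit w) := Nat.testBit_or _ _ _
      rw [e, Bool.or_eq_true, hused w, testBit_orList]
      constructor
      · rintro (⟨q, hq, hqw⟩ | ⟨z, hz, hzw⟩)
        · exact ⟨q, List.mem_append_left _ hq, hqw⟩
        · rw [List.mem_map] at hz
          obtain ⟨k, hk, rfl⟩ := hz
          have hkK : k < K := Nat.le_of_ble_eq_true (List.all_eq_true.mp hL1 k hk)
          rw [Nat.testBit_two_pow, decide_eq_true_eq] at hzw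
          refine ⟨pairPt X B (j, k), List.mem_append_right _ (List.mem_map.mpr ⟨k, hk, rfl⟩), ?_⟩
          rw [← hzw]
          exact (yv_eq hx hy hc yv K hyv _ k hkK hbj').symm
      · rintro ⟨q, hq, hqw⟩
        rw [List.mem_append] at hq
        rcases hq with hq | hq
        · left; exact ⟨q, hq, hqw⟩
        · right
          rw [List.mem_map] at hq
          obtain ⟨k, hk, rfl⟩ := hq
          have hkK : k < K := Nat.le_of_ble_eq_true (List.all_eq_true.mp hL1 k hk)
          refine ⟨2 ^ (yv k (idx (c (pt (B.getD j 0))))), List.mem_map.mpr ⟨k, hk, rfl⟩, ?_⟩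
          rw [Nat.testBit_two_pow, decide_eq_true_eq, ← hqw]
          exact yv_eq hx hy hc yv K hyv _ k hkK hbj'
    · intro i L' hL'
      have := hmask (i + 1) L' (by rw [List.getElem?_cons_succ]; exact hL')
      rwa [show j + (i + 1) = j + 1 + i by omega] at this

/-- Soundness of the search: for every element `c` of the group of the code with
`c * x = y * c` whose images of the base points satisfy the masks of the levels, the canonical
table of `c` satisfies the final test. -/
theorem srch_sound {x y c : Equiv.Perm GolayPt} {X Y : List ℕ} (hx : IsTable x X) (hy : IsTable y Y)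
    (hcM : c ∈ M24) (hc : c * x = y * c) (yv : ℕ → ℕ → ℕ) (K : ℕ)
    (hyv : allLt (fun k => allLt (fun v => (powTab Y k).getD v 0 == yv k v) 24) K = true)
    (FY : ℕ) (hFY : allLt (fun v => Nat.testBit FY v == Nat.beq (yv 1 v) v) 24 = true)
    (B : List ℕ) (src : List (ℕ × ℕ)) (levels : List SLevel)
    (hspec : specLevels X B K levels 0 [] = true) (hsrc : srcOK X B K src = true)
    (hmask : ∀ (i : ℕ) (L : SLevel), levels[i]? = some L →
      L.2.1.testBit (idx (c (pt (B.getD i 0)))) = true)
    (P : List ℕ → Bool) (h : srchN yv FY src P levels 0 0 0 = true) :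
    P (tblOf c) = true := by
  obtain ⟨V, hV, hP⟩ := srchN_aux hx hy hcM hc yv K hyv FY hFY B src P levels 0 [] 0 0 hspec
    (by intro q hq; exact absurd hq (List.not_mem_nil)) (by norm_num)
    (by intro i hi; exact absurd hi (Nat.not_lt_zero i))
    (by
      intro w
      rw [Nat.zero_testBit]
      constructor
      · intro h'; exact absurd h' (by decide)
      · rintro ⟨q, hq, _⟩; exact absurd hq (List.not_mem_nil))
    (by intro i L hL; rw [Nat.zero_add]; exact hmask i L hL)
    h
  unfold srcOK at hsrc
  rw [Bool.and_eq_true, beq_iff_eq] at hsrc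
  obtain ⟨hlen, hall⟩ := hsrc
  have hT : IsTable c (src.map (sevN yv V)) := by
    intro p
    have hq := allLt_spec hall (idx p) (idx_lt p)
    simp only [Bool.and_eq_true, beq_iff_eq] at hq
    obtain ⟨⟨⟨h1', h2'⟩, h3'⟩, h4'⟩ := hq
    have hi : idx p < src.length := by rw [hlen]; exact idx_lt p
    rw [List.getD_eq_getElem _ _ (by rw [List.length_map]; exact hi), List.getElem_map]
    have e : src[idx p] = src.getD (idx p) (0, 0) := (List.getD_eq_getElem _ _ hi).symm
    rw [e]
    have hb : B.getD (src.getD (idx p) (0, 0)).1 0 < 24 := Nat.le_of_ble_eq_true h3'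
    have := sevN_eq hx hy hc yv K hyv B V
      (src.getD (idx p) (0, 0)).1 (src.getD (idx p) (0, 0)).2 (Nat.le_of_ble_eq_true h2') hb
      (hV _ (Nat.le_of_ble_eq_true h1'))
    rw [this, h4', pt_idx]
  rw [← eq_tblOf hT (by rw [List.length_map, hlen])]
  exact hP

/-- The masks of the levels are trivial. -/
theorem mask_full {c : Equiv.Perm GolayPt} {B : List ℕ} {levels : List SLevel}
    (h : levels.all (fun L => L.2.1 == 16777215) = true) :
    ∀ (i : ℕ) (L : SLevel), levels[i]? = some L →
      L.2.1.testBit (idx (c (pt (B.getD i 0)))) = true := by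
  intro i L hL
  have hmem : L ∈ levels := List.mem_of_getElem? hL
  rw [beq_iff_eq.mp (List.all_eq_true.mp h L hmem), show (16777215 : ℕ) = 2 ^ 24 - 1 by norm_num,
    Nat.testBit_two_pow_sub_one]
  simp [idx_lt]

/-! ### Counting by packed tables -/

/-- Packing of a table into a number. -/
def packT (l : List ℕ) : ℕ := l.foldr (fun v acc => v + 32 * acc) 0

/-- Unpacking. -/
def unpackT (r : ℕ) : List ℕ :=
  (List.range 24).map fun i => Nat.land (Nat.shiftRight r (5 * i)) 31

/-- Strictly increasing lists. -/
def sortedB : List ℕ → Bool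
  | [] => true
  | [_] => true
  | a :: b :: l => Nat.blt a b && sortedB (b :: l)

theorem sortedB_tail : ∀ (l : List ℕ) (a : ℕ), sortedB (a :: l) = true → sortedB l = true
  | [], _, _ => rfl
  | b :: l, a, h => by
    unfold sortedB at h
    rw [Bool.and_eq_true] at h
    exact h.2

theorem sortedB_lt : ∀ (l : List ℕ) (a : ℕ), sortedB (a :: l) = true → ∀ b ∈ l, a < b
  | [], _, _ => by intro b hb; exact absurd hb (List.not_mem_nil)
  | b' :: l, a, h => by
    intro b hb
    have h' := h
    unfold sortedB at h'
    rw [Bool.and_eq_true] at h'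
    have hab : a < b' := Nat.le_of_ble_eq_true h'.1
    rw [List.mem_cons] at hb
    rcases hb with rfl | hb
    · exact hab
    · exact lt_trans hab (sortedB_lt l b' h'.2 b hb)

theorem nodup_of_sortedB : ∀ (l : List ℕ), sortedB l = true → l.Nodup
  | [], _ => List.nodup_nil
  | a :: l, h => by
    rw [List.nodup_cons]
    refine ⟨fun ha => ?_, nodup_of_sortedB l (sortedB_tail l a h)⟩
    exact absurd (sortedB_lt l a h a ha) (lt_irrefl a)

theorem packT_inj : ∀ (l l' : List ℕ), l.length = l'.length → (∀ v ∈ l, v < 32) →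
    (∀ v ∈ l', v < 32) → packT l = packT l' → l = l'
  | [], [], _, _, _, _ => rfl
  | [], _ :: _, h, _, _, _ => by simp at h
  | _ :: _, [], h, _, _, _ => by simp at h
  | a :: l, a' :: l', h, h1, h2, hp => by
    have ha := h1 a List.mem_cons_self
    have ha' := h2 a' List.mem_cons_self
    have e : a + 32 * packT l = a' + 32 * packT l' := hp
    have e1 : a = a' := by omega
    have e2 : packT l = packT l' := by omega
    rw [e1, packT_inj l l' (by simpa using h) (fun v hv => h1 v (List.mem_cons_of_mem _ hv))
      (fun v hv => h2 v (List.mem_cons_of_mem _ hv)) e2]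

theorem tblOf_lt (c : Equiv.Perm GolayPt) : ∀ v ∈ tblOf c, v < 32 := by
  intro v hv
  unfold tblOf at hv
  rw [List.mem_map] at hv
  obtain ⟨i, _, rfl⟩ := hv
  exact lt_trans (idx_lt _) (by norm_num)

theorem packT_tblOf_inj {c c' : Equiv.Perm GolayPt} (h : packT (tblOf c) = packT (tblOf c')) :
    c = c' := by
  have := packT_inj _ _ (by rw [tblOf_length, tblOf_length]) (tblOf_lt c) (tblOf_lt c') h
  apply eq_of_isTable (isTable_tblOf c)
  rw [this]
  exact isTable_tblOf c'

/-- A set of permutations in bijection with a strictly increasing list of packed tables. -/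
theorem card_of_packs (C : Set (Equiv.Perm GolayPt)) (R : List ℕ) (hs : sortedB R = true)
    (h1 : ∀ c ∈ C, packT (tblOf c) ∈ R) (h2 : ∀ r ∈ R, ∃ c ∈ C, packT (tblOf c) = r) :
    Nat.card C = R.length := by
  have hnd := nodup_of_sortedB R hs
  have e : Nat.card C = Nat.card {r // r ∈ R.toFinset} := by
    apply Nat.card_congr
    refine Equiv.ofBijective
      (fun c => ⟨packT (tblOf c.1), List.mem_toFinset.mpr (h1 c.1 c.2)⟩) ⟨?_, ?_⟩
    · intro c c' h
      simp only [Subtype.mk.injEq] at h
      exact Subtype.ext (packT_tblOf_inj h)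
    · rintro ⟨r, hr⟩
      obtain ⟨c, hc, hcr⟩ := h2 r (List.mem_toFinset.mp hr)
      exact ⟨⟨c, hc⟩, Subtype.ext hcr⟩
  rw [e, Nat.card_eq_fintype_card, Fintype.card_coe, List.toFinset_card_of_nodup hnd]

theorem unpackT_length (r : ℕ) : (unpackT r).length = 24 := by simp [unpackT]

/-- An unpacked table passing the tests is the table of an element of the group. -/
theorem exists_of_unpack {r : ℕ} (h : tabIn [] (unpackT r) = true) (hp : packT (unpackT r) = r) :
    ∃ c ∈ M24, IsTable c (unpackT r) ∧ packT (tblOf c) = r := by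
  obtain ⟨g, hg, hgt⟩ := tabIn_spec h
  rw [stabM_nil] at hg
  refine ⟨g, hg, hgt, ?_⟩
  rw [← eq_tblOf hgt (unpackT_length r), hp]

end Cfsg.Agent.Lib.helper27
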