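import Cfsg.Agent.Lib.helper27.GolaySext

set_option autoImplicit false

namespace Cfsg.Agent.Lib.helper27

open Cfsg
open Cfsg.Agent.Lib.helper28
open scoped Pointwise

/-! ### Trios -/

/-- The trio determined by two disjoint octads. -/
def trioOf (o1 o2 : Finset GolayPt) : Finset (Finset GolayPt) := {o1, o2, (o1 ∪ o2)ᶜ}

theorem mem_trioOf {o1 o2 x : Finset GolayPt} :
    x ∈ trioOf o1 o2 ↔ x = o1 ∨ x = o2 ∨ x = (o1 ∪ o2)ᶜ := by
  unfold trioOf
  rw [Finset.mem_insert, Finset.mem_insert, Finset.mem_singleton]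

theorem octad_nonempty {o : Finset GolayPt} (ho : o ∈ octads) : o.Nonempty := by
  rw [← Finset.card_pos, ho.2]; norm_num

theorem octad_ne_of_disjoint {o1 o2 : Finset GolayPt} (ho1 : o1 ∈ octads)
    (hd : Disjoint o1 o2) : o1 ≠ o2 := by
  rintro rfl
  obtain ⟨x, hx⟩ := octad_nonempty ho1
  exact Finset.disjoint_left.mp hd hx hx

theorem compl_union_mem_octads {o1 o2 : Finset GolayPt} (ho1 : o1 ∈ octads) (ho2 : o2 ∈ octads)
    (hd : Disjoint o1 o2) : (o1 ∪ o2)ᶜ ∈ octads := by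
  have e : symmDiff o1 o2 = o1 ∪ o2 := Disjoint.symmDiff_eq_sup hd
  refine ⟨?_, ?_⟩
  · rw [← e]
    exact compl_mem_supports (symmDiff_mem_supports ho1.1 ho2.1)
  · rw [Finset.card_compl, Finset.card_union_of_disjoint hd, ho1.2, ho2.2, card_golayPt24]

theorem disjoint_compl_union_left (o1 o2 : Finset GolayPt) : Disjoint o1 (o1 ∪ o2)ᶜ := by
  rw [Finset.disjoint_left]
  intro x hx hx'
  rw [Finset.mem_compl, Finset.mem_union] at hx'
  exact hx' (Or.inl hx)

theorem disjoint_compl_union_right (o1 o2 : Finset GolayPt) : Disjoint o2 (o1 ∪ o2)ᶜ := by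
  rw [Finset.disjoint_left]
  intro x hx hx'
  rw [Finset.mem_compl, Finset.mem_union] at hx'
  exact hx' (Or.inr hx)

theorem trioOf_mem {o1 o2 : Finset GolayPt} (ho1 : o1 ∈ octads) (ho2 : o2 ∈ octads)
    (hd : Disjoint o1 o2) : trioOf o1 o2 ∈ trios := by
  have ho3 := compl_union_mem_octads ho1 ho2 hd
  have h12 := octad_ne_of_disjoint ho1 hd
  have h13 := octad_ne_of_disjoint ho1 (disjoint_compl_union_left o1 o2)
  have h23 := octad_ne_of_disjoint ho2 (disjoint_compl_union_right o1 o2)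
  refine ⟨?_, ?_, ?_⟩
  · unfold trioOf
    rw [Finset.card_insert_of_notMem, Finset.card_insert_of_notMem, Finset.card_singleton]
    · rw [Finset.mem_singleton]; exact h23
    · rw [Finset.mem_insert, Finset.mem_singleton]
      rintro (h | h)
      · exact h12 h
      · exact h13 h
  · intro o ho
    rcases mem_trioOf.mp ho with rfl | rfl | rfl
    · exact ho1
    · exact ho2
    · exact ho3
  · intro o ho o' ho' hne
    rcases mem_trioOf.mp ho with rfl | rfl | rfl <;> rcases mem_trioOf.mp ho' with rfl | rfl | rfl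
    · exact absurd rfl hne
    · exact hd
    · exact disjoint_compl_union_left _ _
    · exact hd.symm
    · exact absurd rfl hne
    · exact disjoint_compl_union_right _ _
    · exact (disjoint_compl_union_left _ _).symm
    · exact (disjoint_compl_union_right _ _).symm
    · exact absurd rfl hne

/-- A trio is determined by two of its octads. -/
theorem trio_eq_trioOf {T : Finset (Finset GolayPt)} (hT : T ∈ trios) {o1 o2 : Finset GolayPt}
    (h1 : o1 ∈ T) (h2 : o2 ∈ T) (hne : o1 ≠ o2) : T = trioOf o1 o2 := by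
  have hd := hT.2.2 o1 h1 o2 h2 hne
  have ho1 := hT.2.1 o1 h1
  have ho2 := hT.2.1 o2 h2
  obtain ⟨o3, h3, h31, h32⟩ : ∃ o3 ∈ T, o3 ≠ o1 ∧ o3 ≠ o2 := by
    by_contra hno
    push Not at hno
    have hsub : T ⊆ {o1, o2} := by
      intro o ho
      rw [Finset.mem_insert, Finset.mem_singleton]
      by_contra hc
      push Not at hc
      exact hc.2 (hno o ho hc.1)
    have := Finset.card_le_card hsub
    have h2' : ({o1, o2} : Finset (Finset GolayPt)).card ≤ 2 := Finset.card_le_two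
    rw [hT.1] at this
    omega
  have ho3 := hT.2.1 o3 h3
  have e3 : o3 = (o1 ∪ o2)ᶜ := by
    apply Finset.eq_of_subset_of_card_le
    · intro x hx
      rw [Finset.mem_compl, Finset.mem_union]
      rintro (h | h)
      · exact Finset.disjoint_left.mp (hT.2.2 o3 h3 o1 h1 h31) hx h
      · exact Finset.disjoint_left.mp (hT.2.2 o3 h3 o2 h2 h32) hx h
    · rw [(compl_union_mem_octads ho1 ho2 hd).2, ho3.2]
  symm
  apply Finset.eq_of_subset_of_card_le
  · intro o ho
    rcases mem_trioOf.mp ho with rfl | rfl | rfl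
    · exact h1
    · exact h2
    · rw [← e3]; exact h3
  · rw [(trioOf_mem ho1 ho2 hd).1, hT.1]

theorem trio_cover {T : Finset (Finset GolayPt)} (hT : T ∈ trios) (x : GolayPt) :
    ∃ o ∈ T, x ∈ o := by
  obtain ⟨o1, h1, o2, h2, hne⟩ := Finset.one_lt_card.mp (by rw [hT.1]; norm_num : 1 < T.card)
  have e := trio_eq_trioOf hT h1 h2 hne
  by_cases hx1 : x ∈ o1
  · exact ⟨o1, h1, hx1⟩
  · by_cases hx2 : x ∈ o2
    · exact ⟨o2, h2, hx2⟩
    · refine ⟨(o1 ∪ o2)ᶜ, ?_, ?_⟩
      · rw [e]; exact mem_trioOf.mpr (Or.inr (Or.inr rfl))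
      · rw [Finset.mem_compl, Finset.mem_union]
        rintro (h | h)
        · exact hx1 h
        · exact hx2 h

theorem smul_mem_trios {g : Equiv.Perm GolayPt} (hg : g ∈ M24) {T : Finset (Finset GolayPt)}
    (hT : T ∈ trios) : g • T ∈ trios := by
  refine ⟨?_, ?_, ?_⟩
  · rw [Finset.card_smul_finset]
    exact hT.1
  · intro o ho
    obtain ⟨u, hu, rfl⟩ := Finset.mem_smul_finset.mp ho
    exact smul_mem_octads hg (hT.2.1 u hu)
  · intro o ho o' ho' hne
    obtain ⟨u, hu, rfl⟩ := Finset.mem_smul_finset.mp ho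
    obtain ⟨u', hu', rfl⟩ := Finset.mem_smul_finset.mp ho'
    have hne' : u ≠ u' := fun h => hne (by rw [h])
    have hd := hT.2.2 u hu u' hu' hne'
    rw [Finset.disjoint_left] at hd ⊢
    intro x hx hx'
    rw [mem_smul_iff] at hx hx'
    exact hd hx hx'

/-- A trio is fixed as soon as two of its octads are mapped into it. -/
theorem trio_fixed_iff {g : Equiv.Perm GolayPt} (hg : g ∈ M24) {T : Finset (Finset GolayPt)}
    (hT : T ∈ trios) {o1 o2 : Finset GolayPt} (h1 : o1 ∈ T) (h2 : o2 ∈ T) (hne : o1 ≠ o2) :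
    g • T = T ↔ g • o1 ∈ T ∧ g • o2 ∈ T := by
  constructor
  · intro h
    constructor
    · rw [← h]; exact Finset.smul_mem_smul_finset h1
    · rw [← h]; exact Finset.smul_mem_smul_finset h2
  · rintro ⟨h1', h2'⟩
    have hne' : g • o1 ≠ g • o2 := fun h => hne (smul_left_cancel g h)
    rw [trio_eq_trioOf (smul_mem_trios hg hT) (Finset.smul_mem_smul_finset h1)
      (Finset.smul_mem_smul_finset h2) hne']
    exact (trio_eq_trioOf hT h1' h2' hne').symm

/-- The canonical pairs of octads of a trio: the first contains the index 0 and the second has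
a smaller mask than the third. -/
def CanonPair (o1 o2 : Finset GolayPt) : Prop :=
  o1 ∈ octads ∧ o2 ∈ octads ∧ Disjoint o1 o2 ∧ pt 0 ∈ o1 ∧ maskS o2 < maskS (o1 ∪ o2)ᶜ

theorem compl_union_compl {o1 o2 : Finset GolayPt} (hd : Disjoint o1 o2) :
    (o1 ∪ (o1 ∪ o2)ᶜ)ᶜ = o2 := by
  ext x
  rw [Finset.mem_compl, Finset.mem_union, Finset.mem_compl, Finset.mem_union]
  constructor
  · intro h
    by_contra hx
    apply h
    right
    rintro (h' | h')
    · exact h (Or.inl h')
    · exact hx h'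
  · intro hx
    rintro (h | h)
    · exact Finset.disjoint_left.mp hd h hx
    · exact h (Or.inr hx)

theorem exists_canonPair {T : Finset (Finset GolayPt)} (hT : T ∈ trios) :
    ∃ o1 o2, CanonPair o1 o2 ∧ trioOf o1 o2 = T := by
  obtain ⟨o1, h1, hx1⟩ := trio_cover hT (pt 0)
  obtain ⟨o2, h2, hne⟩ : ∃ o2 ∈ T, o1 ≠ o2 := by
    obtain ⟨a, ha, b, hb, hab⟩ := Finset.one_lt_card.mp (by rw [hT.1]; norm_num : 1 < T.card)
    by_cases h : o1 = a
    · exact ⟨b, hb, by rw [h]; exact hab⟩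
    · exact ⟨a, ha, h⟩
  have e := trio_eq_trioOf hT h1 h2 hne
  have ho1 := hT.2.1 o1 h1
  have ho2 := hT.2.1 o2 h2
  have hd := hT.2.2 o1 h1 o2 h2 hne
  have ho3 := compl_union_mem_octads ho1 ho2 hd
  have h3 : (o1 ∪ o2)ᶜ ∈ T := by
    rw [e]; exact mem_trioOf.mpr (Or.inr (Or.inr rfl))
  have h23 : o2 ≠ (o1 ∪ o2)ᶜ := octad_ne_of_disjoint ho2 (disjoint_compl_union_right o1 o2)
  rcases Nat.lt_or_ge (maskS o2) (maskS (o1 ∪ o2)ᶜ) with hlt | hge
  · exact ⟨o1, o2, ⟨ho1, ho2, hd, hx1, hlt⟩, e.symm⟩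
  · have hlt : maskS (o1 ∪ o2)ᶜ < maskS o2 := by
      rcases Nat.lt_or_eq_of_le hge with h | h
      · exact h
      · exact absurd (maskS_injective h).symm h23
    have h13 : o1 ≠ (o1 ∪ o2)ᶜ := octad_ne_of_disjoint ho1 (disjoint_compl_union_left o1 o2)
    refine ⟨o1, (o1 ∪ o2)ᶜ, ⟨ho1, ho3, disjoint_compl_union_left o1 o2, hx1, ?_⟩, ?_⟩
    · rw [compl_union_compl hd]
      exact hlt
    · exact (trio_eq_trioOf hT h1 h3 h13).symm

theorem canonPair_unique {o1 o2 o1' o2' : Finset GolayPt} (h : CanonPair o1 o2)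
    (h' : CanonPair o1' o2') (e : trioOf o1 o2 = trioOf o1' o2') : o1 = o1' ∧ o2 = o2' := by
  obtain ⟨ho1, ho2, hd, hx, hlt⟩ := h
  obtain ⟨ho1', ho2', hd', hx', hlt'⟩ := h'
  have hT := trioOf_mem ho1 ho2 hd
  have m1 : o1 ∈ trioOf o1 o2 := mem_trioOf.mpr (Or.inl rfl)
  have m2 : o2 ∈ trioOf o1 o2 := mem_trioOf.mpr (Or.inr (Or.inl rfl))
  have m1' : o1' ∈ trioOf o1 o2 := by rw [e]; exact mem_trioOf.mpr (Or.inl rfl)
  have m2' : o2' ∈ trioOf o1 o2 := by rw [e]; exact mem_trioOf.mpr (Or.inr (Or.inl rfl))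
  have e1 : o1 = o1' := by
    by_contra hne
    exact Finset.disjoint_left.mp (hT.2.2 o1 m1 o1' m1' hne) hx hx'
  subst e1
  refine ⟨rfl, ?_⟩
  rcases mem_trioOf.mp m2' with h | h | h
  · exact absurd h.symm (octad_ne_of_disjoint ho1 hd')
  · exact h.symm
  · exfalso
    rw [h, compl_union_compl hd] at hlt'
    exact absurd hlt (not_lt.mpr (le_of_lt hlt'))

/-! ### The computable model of trios -/

theorem setOf_compl_mask (x : ℕ) :
    Cfsg.Agent.Lib.helper28.setOf (16777215 ^^^ x) = (Cfsg.Agent.Lib.helper28.setOf x)ᶜ := by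
  ext p
  rw [Finset.mem_compl]
  exact mem_setOf_compl x p

/-- The mask of the third octad of a trio. -/
def third (m1 m2 : ℕ) : ℕ := Nat.xor 16777215 (Nat.lor m1 m2)

theorem setOf_third (m1 m2 : ℕ) : Cfsg.Agent.Lib.helper28.setOf (third m1 m2) =
    (Cfsg.Agent.Lib.helper28.setOf m1 ∪ Cfsg.Agent.Lib.helper28.setOf m2)ᶜ := by
  rw [← setOf_or]
  exact setOf_compl_mask _

theorem third_lt {m1 m2 : ℕ} (h1 : m1 < 2 ^ 24) (h2 : m2 < 2 ^ 24) : third m1 m2 < 2 ^ 24 :=
  Nat.xor_lt_two_pow (by norm_num) (Nat.or_lt_two_pow h1 h2)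

/-- Membership of a mask among the three masks of a trio. -/
def inTrio (m1 m2 x : ℕ) : Bool := Nat.beq x m1 || (Nat.beq x m2 || Nat.beq x (third m1 m2))

theorem setOf_inj {a b : ℕ} (ha : a < 2 ^ 24) (hb : b < 2 ^ 24) (h : setOf a = setOf b) : a = b := by
  rw [← maskS_setOf ha, ← maskS_setOf hb, h]

theorem inTrio_iff {m1 m2 x : ℕ} (h1 : m1 < 2 ^ 24) (h2 : m2 < 2 ^ 24) (hx : x < 2 ^ 24) :
    inTrio m1 m2 x = true ↔ setOf x ∈ trioOf (setOf m1) (setOf m2) := by
  unfold inTrio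
  rw [mem_trioOf, ← setOf_third, Bool.or_eq_true, Bool.or_eq_true, natBeq_eq, natBeq_eq,
    natBeq_eq, beq_iff_eq, beq_iff_eq, beq_iff_eq]
  constructor
  · rintro (h | h | h)
    · left; rw [h]
    · right; left; rw [h]
    · right; right; rw [h]
  · rintro (h | h | h)
    · left; exact setOf_inj hx h1 h
    · right; left; exact setOf_inj hx h2 h
    · right; right; exact setOf_inj hx (third_lt h1 h2) h

/-- The test on the second code word, given the mask of the first octad. -/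
def trioIn (l : List ℕ) (m1 n2 : ℕ) : Bool :=
  Nat.beq (Nat.land m1 (cwF n2)) 0 && (Nat.beq (pcF (cwF n2)) 8 &&
    (Nat.blt (cwF n2) (third m1 (cwF n2)) &&
      (inTrio m1 (cwF n2) (preMask l m1) && inTrio m1 (cwF n2) (preMask l (cwF n2)))))

/-- The test on the first code word. -/
def trioOut (n1 : ℕ) : Bool := Nat.beq (pcF (cwF n1)) 8 && Nat.testBit (cwF n1) 0

/-- Sum of a function over the numbers below a bound. -/
def sumLt (f : ℕ → ℕ) : ℕ → ℕ
  | 0 => 0
  | n + 1 => f n + sumLt f n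

theorem sum_range_eq_sumLt (f : ℕ → ℕ) (n : ℕ) : ∑ k ∈ Finset.range n, f k = sumLt f n := by
  induction n with
  | zero => rfl
  | succ n ih => rw [Finset.sum_range_succ, sumLt, ih, add_comm]

theorem countLt_false (n : ℕ) : countLt (fun _ => false) n = 0 := by
  induction n with
  | zero => rfl
  | succ n ih => rw [countLt, ih]; rfl

/-- The test on the second code word with a cheap first test on the indices. -/
def trioIn' (l : List ℕ) (n1 m1 n2 : ℕ) : Bool :=
  Nat.beq (Nat.land n1 n2) 0 && trioIn l m1 n2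

theorem trioIn'_eq (l : List ℕ) {n1 n2 : ℕ} (h1 : n1 < 4096) (h2 : n2 < 4096) :
    trioIn' l n1 (cwF n1) n2 = trioIn l (cwF n1) n2 := by
  unfold trioIn'
  cases h : trioIn l (cwF n1) n2
  · rw [Bool.and_false]
  · rw [Bool.and_true, natBeq_eq, beq_iff_eq]
    unfold trioIn at h
    rw [Bool.and_eq_true, natBeq_eq, beq_iff_eq, cwF_eq h1, cwF_eq h2] at h
    have h3 : (cw n1 &&& cw n2) >>> 12 = 0 := by
      have := h.1
      show (Nat.land (cw n1) (cw n2)) >>> 12 = 0
      rw [this]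
      rfl
    rw [Nat.shiftRight_and_distrib, cw_shift h1, cw_shift h2] at h3
    exact h3

/-- The number of trios fixed by the table. -/
def trioCount (l : List ℕ) : ℕ :=
  sumLt (fun n1 => match trioOut n1 with
    | true => forceNat (cwF n1) (fun m1 => countLt (trioIn' l n1 m1) 4096)
    | false => 0) 4096

theorem setOf_cw_mem_octads_iff {n : ℕ} (hn : n < 4096) :
    setOf (cw n) ∈ octads ↔ pc (cw n) = 8 := by
  rw [mem_octads_iff, maskS_setOf (cw_lt hn)]
  constructor
  · intro h; exact h.2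
  · intro h; exact ⟨isCW_cw hn, h⟩

theorem disjoint_setOf_iff {a b : ℕ} (ha : a < 2 ^ 24) :
    Disjoint (setOf a) (setOf b) ↔ a &&& b = 0 := by
  rw [Finset.disjoint_iff_inter_eq_empty, ← setOf_and, ← maskS_eq_zero,
    maskS_setOf (lt_of_le_of_lt Nat.and_le_left ha)]

theorem trio_spec {g : Equiv.Perm GolayPt} (hg : g ∈ M24) {l : List ℕ} (hl : IsTable g l)
    {n1 n2 : ℕ} (h1 : n1 < 4096) (h2 : n2 < 4096) :
    (trioOut n1 && trioIn l (cwF n1) n2) = true ↔
      CanonPair (setOf (cw n1)) (setOf (cw n2)) ∧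
        g • trioOf (setOf (cw n1)) (setOf (cw n2)) = trioOf (setOf (cw n1)) (setOf (cw n2)) := by
  have l1 := cw_lt h1
  have l2 := cw_lt h2
  have l3 := third_lt l1 l2
  unfold trioOut trioIn CanonPair
  rw [cwF_eq h1, cwF_eq h2, pcF_eq l1, pcF_eq l2]
  simp only [Bool.and_eq_true, natBeq_eq, beq_iff_eq, Nat.blt_eq]
  rw [setOf_cw_mem_octads_iff h1, setOf_cw_mem_octads_iff h2, disjoint_setOf_iff l1, mem_setOf,
    idx_pt (by norm_num : 0 < 24), maskS_setOf l2, ← setOf_third, maskS_setOf l3,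
    inTrio_iff l1 l2 (preMask_lt _ _), inTrio_iff l1 l2 (preMask_lt _ _)]
  have key : ∀ (ho1 : pc (cw n1) = 8) (ho2 : pc (cw n2) = 8) (hd : cw n1 &&& cw n2 = 0),
      (setOf (preMask l (cw n1)) ∈ trioOf (setOf (cw n1)) (setOf (cw n2)) ∧
        setOf (preMask l (cw n2)) ∈ trioOf (setOf (cw n1)) (setOf (cw n2))) ↔
      g • trioOf (setOf (cw n1)) (setOf (cw n2)) = trioOf (setOf (cw n1)) (setOf (cw n2)) := by
    intro ho1 ho2 hd
    have o1 := (setOf_cw_mem_octads_iff h1).mpr ho1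
    have o2 := (setOf_cw_mem_octads_iff h2).mpr ho2
    have dd := (disjoint_setOf_iff (b := cw n2) l1).mpr hd
    have hT := trioOf_mem o1 o2 dd
    have m1 : setOf (cw n1) ∈ trioOf (setOf (cw n1)) (setOf (cw n2)) := mem_trioOf.mpr (Or.inl rfl)
    have m2 : setOf (cw n2) ∈ trioOf (setOf (cw n1)) (setOf (cw n2)) :=
      mem_trioOf.mpr (Or.inr (Or.inl rfl))
    have h := trio_fixed_iff (M24.inv_mem hg) hT m1 m2 (octad_ne_of_disjoint o1 dd)
    rw [inv_smul_setOf hl, inv_smul_setOf hl] at h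
    rw [← h, inv_smul_eq_iff]
    exact eq_comm
  constructor
  · rintro ⟨⟨ho1, hx⟩, hd, ho2, hlt, hfix⟩
    exact ⟨⟨ho1, ho2, hd, hx, hlt⟩, (key ho1 ho2 hd).mp hfix⟩
  · rintro ⟨⟨ho1, ho2, hd, hx, hlt⟩, hfix⟩
    exact ⟨⟨ho1, hx⟩, hd, ho2, hlt, (key ho1 ho2 hd).mpr hfix⟩

/-- The trio of a pair of indices of code words. -/
def trioG (p : ℕ × ℕ) : Finset (Finset GolayPt) := trioOf (setOf (cw p.1)) (setOf (cw p.2))

/-- The canonical pairs of indices of the trios fixed by a table. -/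
def trioP (l : List ℕ) : Finset (ℕ × ℕ) :=
  (Finset.range 4096 ×ˢ Finset.range 4096).filter
    fun p => (trioOut p.1 && trioIn l (cwF p.1) p.2) = true

theorem mem_trioP (l : List ℕ) (p : ℕ × ℕ) : p ∈ trioP l ↔ (p.1 < 4096 ∧ p.2 < 4096) ∧
    (trioOut p.1 && trioIn l (cwF p.1) p.2) = true := by
  unfold trioP
  rw [Finset.mem_filter, Finset.mem_product, Finset.mem_range, Finset.mem_range]

theorem card_trioP (l : List ℕ) : (trioP l).card = trioCount l := by
  unfold trioP
  rw [Finset.card_filter, Finset.sum_product]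
  unfold trioCount
  rw [← sum_range_eq_sumLt]
  apply Finset.sum_congr rfl
  intro a ha
  rw [← Finset.card_filter, card_filter_range]
  rw [Finset.mem_range] at ha
  cases h : trioOut a
  · simp only [h, Bool.false_and]
    exact countLt_false 4096
  · simp only [h, Bool.true_and]
    rw [forceNat_eq]
    apply countLt_congr
    intro k hk
    exact (trioIn'_eq l ha hk).symm

attribute [irreducible] trioP

theorem cw_index_inj {a b : ℕ} (ha : a < 4096) (hb : b < 4096)
    (h : Cfsg.Agent.Lib.helper28.setOf (cw a) = Cfsg.Agent.Lib.helper28.setOf (cw b)) : a = b := by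
  have h1 : cw a = cw b := setOf_inj (cw_lt ha) (cw_lt hb) h
  have h2 : cw a >>> 12 = cw b >>> 12 := by rw [h1]
  rwa [cw_shift ha, cw_shift hb] at h2

/-- The number of trios fixed by an element of the group of the code. -/
theorem ncard_trios_fixed {g : Equiv.Perm GolayPt} (hg : g ∈ M24) {l : List ℕ}
    (hl : IsTable g l) :
    {T : Finset (Finset GolayPt) | T ∈ trios ∧ g • T = T}.ncard = trioCount l := by
  have himg : trioG '' (trioP l : Set (ℕ × ℕ)) =
      {T : Finset (Finset GolayPt) | T ∈ trios ∧ g • T = T} := by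
    ext T
    constructor
    · rintro ⟨p, hp, rfl⟩
      rw [Finset.mem_coe, mem_trioP] at hp
      obtain ⟨⟨h1, h2⟩, hQ⟩ := hp
      obtain ⟨hc, hfix⟩ := (trio_spec hg hl h1 h2).mp hQ
      exact ⟨trioOf_mem hc.1 hc.2.1 hc.2.2.1, hfix⟩
    · rintro ⟨hT, hfix⟩
      obtain ⟨o1, o2, hc, rfl⟩ := exists_canonPair hT
      obtain ⟨n1, h1, e1⟩ := (mem_supports_iff_exists o1).mp hc.1.1
      obtain ⟨n2, h2, e2⟩ := (mem_supports_iff_exists o2).mp hc.2.1.1
      have e1' : o1 = setOf (cw n1) := by rw [← e1, setOf_maskS]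
      have e2' : o2 = setOf (cw n2) := by rw [← e2, setOf_maskS]
      refine ⟨(n1, n2), ?_, ?_⟩
      · rw [Finset.mem_coe, mem_trioP]
        refine ⟨⟨h1, h2⟩, ?_⟩
        rw [trio_spec hg hl h1 h2, ← e1', ← e2']
        exact ⟨hc, hfix⟩
      · show trioOf (setOf (cw n1)) (setOf (cw n2)) = trioOf o1 o2
        rw [← e1', ← e2']
  have hinj : Set.InjOn trioG (trioP l : Set (ℕ × ℕ)) := by
    intro p hp p' hp' h
    rw [Finset.mem_coe, mem_trioP] at hp hp'
    obtain ⟨⟨h1, h2⟩, hQ⟩ := hp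
    obtain ⟨⟨h1', h2'⟩, hQ'⟩ := hp'
    obtain ⟨hc, -⟩ := (trio_spec hg hl h1 h2).mp hQ
    obtain ⟨hc', -⟩ := (trio_spec hg hl h1' h2').mp hQ'
    obtain ⟨e1, e2⟩ := canonPair_unique hc hc' h
    exact Prod.ext (cw_index_inj h1 h1' e1) (cw_index_inj h2 h2' e2)
  rw [← himg, Set.InjOn.ncard_image hinj, Set.ncard_coe_finset, card_trioP]

/-! ### Fixed code words of a given weight, and transport by conjugation -/

/-- The test for a code word of weight `w` fixed by the table. -/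
def wtFixQ (l : List ℕ) (w n : ℕ) : Bool :=
  Nat.beq (pcF (cwF n)) w && Nat.beq (preMask l (cwF n)) (cwF n)

/-- The slow form of the test. -/
def wtQ (l : List ℕ) (w m : ℕ) : Bool := pc m == w && preMask l m == m

theorem ncard_weight_fixed {g : Equiv.Perm GolayPt} {l : List ℕ} (hl : IsTable g l) (w : ℕ) :
    {s : Finset GolayPt | s ∈ wordsOfWeight (golayCode : Set (GolayPt → ZMod 2)) w ∧ g • s = s}.ncard
      = countLt (wtFixQ l w) 4096 := by
  have e : {s : Finset GolayPt | s ∈ wordsOfWeight (golayCode : Set (GolayPt → ZMod 2)) w ∧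
      g • s = s} = {s : Finset GolayPt | s ∈ supports (golayCode : Set (GolayPt → ZMod 2)) ∧
        wtQ l w (maskS s) = true} := by
    ext s
    unfold wordsOfWeight wtQ
    simp only [Set.mem_ofPred_eq, Bool.and_eq_true, beq_iff_eq]
    rw [card_eq_pc, ← maskS_inv_smul hl, and_assoc]
    have h : g • s = s ↔ maskS (g⁻¹ • s) = maskS s := by
      constructor
      · intro h
        have : g⁻¹ • s = s := by rw [inv_smul_eq_iff, h]
        rw [this]
      · intro h
        have := maskS_injective h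
        rw [inv_smul_eq_iff] at this
        exact this.symm
    rw [h]
  rw [e, ncard_supports_filter (wtQ l w)]
  apply countLt_congr
  intro k hk
  unfold wtFixQ wtQ
  rw [cwF_eq hk, pcF_eq (cw_lt hk), natBeq_eq, natBeq_eq]

theorem ncard_octads_fixed {g : Equiv.Perm GolayPt} {l : List ℕ} (hl : IsTable g l) :
    {o : Finset GolayPt | o ∈ octads ∧ g • o = o}.ncard = countLt (wtFixQ l 8) 4096 :=
  ncard_weight_fixed hl 8

theorem ncard_dodecads_fixed {g : Equiv.Perm GolayPt} {l : List ℕ} (hl : IsTable g l) :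
    {d : Finset GolayPt | d ∈ dodecads ∧ g • d = d}.ncard = countLt (wtFixQ l 12) 4096 :=
  ncard_weight_fixed hl 12

/-- The number of fixed members of an invariant family is a class invariant. -/
theorem ncard_fixed_conj {α : Type*} [MulAction (Equiv.Perm GolayPt) α] (F : Set α)
    (k g : Equiv.Perm GolayPt) (hk : ∀ x ∈ F, k • x ∈ F) (hk' : ∀ x ∈ F, k⁻¹ • x ∈ F) :
    {x : α | x ∈ F ∧ (k * g * k⁻¹) • x = x}.ncard = {x : α | x ∈ F ∧ g • x = x}.ncard := by
  symm
  apply Set.ncard_congr (fun x _ => k • x)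
  · rintro x ⟨hx, hgx⟩
    exact ⟨hk x hx, by rw [mul_smul, mul_smul, inv_smul_smul, hgx]⟩
  · intro a b _ _ h
    exact smul_left_cancel k h
  · rintro y ⟨hy, hgy⟩
    refine ⟨k⁻¹ • y, ⟨hk' y hy, ?_⟩, smul_inv_smul k y⟩
    rw [mul_smul, mul_smul] at hgy
    exact eq_inv_smul_iff.mpr hgy

theorem ncard_octads_fixed_conj {k : Equiv.Perm GolayPt} (hk : k ∈ M24) (g : Equiv.Perm GolayPt) :
    {o : Finset GolayPt | o ∈ octads ∧ (k * g * k⁻¹) • o = o}.ncard =
      {o : Finset GolayPt | o ∈ octads ∧ g • o = o}.ncard :=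
  ncard_fixed_conj octads k g (fun _ h => smul_mem_octads hk h)
    (fun _ h => smul_mem_octads (M24.inv_mem hk) h)

theorem ncard_dodecads_fixed_conj {k : Equiv.Perm GolayPt} (hk : k ∈ M24)
    (g : Equiv.Perm GolayPt) :
    {o : Finset GolayPt | o ∈ dodecads ∧ (k * g * k⁻¹) • o = o}.ncard =
      {o : Finset GolayPt | o ∈ dodecads ∧ g • o = o}.ncard :=
  ncard_fixed_conj dodecads k g (fun _ h => smul_mem_dodecads hk h)
    (fun _ h => smul_mem_dodecads (M24.inv_mem hk) h)

theorem ncard_trios_fixed_conj {k : Equiv.Perm GolayPt} (hk : k ∈ M24) (g : Equiv.Perm GolayPt) :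
    {T : Finset (Finset GolayPt) | T ∈ trios ∧ (k * g * k⁻¹) • T = T}.ncard =
      {T : Finset (Finset GolayPt) | T ∈ trios ∧ g • T = T}.ncard :=
  ncard_fixed_conj trios k g (fun _ h => smul_mem_trios hk h)
    (fun _ h => smul_mem_trios (M24.inv_mem hk) h)

theorem ncard_sextets_fixed_conj {k : Equiv.Perm GolayPt} (hk : k ∈ M24)
    (g : Equiv.Perm GolayPt) :
    {S : Finset (Finset GolayPt) | S ∈ sextets ∧ (k * g * k⁻¹) • S = S}.ncard =
      {S : Finset (Finset GolayPt) | S ∈ sextets ∧ g • S = S}.ncard :=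
  ncard_fixed_conj sextets k g (fun _ h => smul_mem_sextets hk h)
    (fun _ h => smul_mem_sextets (M24.inv_mem hk) h)

end Cfsg.Agent.Lib.helper27
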