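import Cfsg.Agent.Lib.helper27.M22Blk

set_option autoImplicit false

/-! The classes of elements with centralizers of odd order in the Mathieu group of degree 22. -/

namespace Cfsg.Agent.Lib.helper27.B22

open Cfsg Cfsg.Agent.Lib.helper24 Cfsg.Agent.Lib.helper5 Cfsg.Agent.Lib.helper23
open Cfsg.Agent.Lib.helper28 Cfsg.Agent.Lib.helper27 Cfsg.Agent.Lib.helper27.TB

theorem num5 : ∀ k < 5, k ≠ 0 → ∃ i, (2 ^ i * k) % 5 = 1 := by
  have h : ∀ k < 5, k ≠ 0 → ∃ i < 4, (2 ^ i * k) % 5 = 1 := by decide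
  intro k hk hk0
  obtain ⟨i, -, hi⟩ := h k hk hk0
  exact ⟨i, hi⟩

theorem num7 : ∀ k < 7, k ≠ 0 → ∃ i, (2 ^ i * k) % 7 = 1 ∨ (2 ^ i * k) % 7 = 7 - 1 := by
  have h : ∀ k < 7, k ≠ 0 → ∃ i < 3, (2 ^ i * k) % 7 = 1 ∨ (2 ^ i * k) % 7 = 6 := by decide
  intro k hk hk0
  obtain ⟨i, -, hi⟩ := h k hk hk0
  exact ⟨i, hi⟩

theorem num11 : ∀ k < 11, k ≠ 0 → ∃ i, (3 ^ i * k) % 11 = 1 ∨ (3 ^ i * k) % 11 = 11 - 1 := by
  intro k hk hk0
  obtain ⟨i, -, hi⟩ := numeric11 k hk hk0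
  exact ⟨i, hi⟩

theorem nsq5 : ¬ 5 ^ 2 ∣ Nat.card ↥Cfsg.Spor.M22 := by rw [card_G]; norm_num

theorem nsq7 : ¬ 7 ^ 2 ∣ Nat.card ↥Cfsg.Spor.M22 := by rw [card_G]; norm_num

theorem nsq11 : ¬ 11 ^ 2 ∣ Nat.card ↥Cfsg.Spor.M22 := by rw [card_G]; norm_num

theorem conj_trans {G : Type*} [Group G] {u v w x y : G} (h1 : u * w * u⁻¹ = x)
    (h2 : v * x * v⁻¹ = y) : (v * u) * w * (v * u)⁻¹ = y := by
  rw [← h2, ← h1]; group

theorem conj_ne_one {G : Type*} [Group G] {u w x : G} (h1 : u * w * u⁻¹ = x) (hw : w ≠ 1) :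
    x ≠ 1 := by
  intro h
  apply hw
  rw [h] at h1
  have h2 := congrArg (fun z => u⁻¹ * z * u) h1
  simp only [mul_one, inv_mul_cancel] at h2
  rw [← h2]; group

/-- Elements of order 5 are conjugate to the representative. -/
theorem order5_conj (y : ↥Cfsg.Spor.M22) (hy : orderOf y = 5) : ∃ u, u * y * u⁻¹ = xr 0 := by
  haveI : Fact (Nat.Prime 5) := ⟨by norm_num⟩
  obtain ⟨u, k, huk⟩ := exists_conj_pow 5 nsq5 y (xr 0) hy order_xr0
  have hy1 : y ≠ 1 := by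
    intro h; rw [h, orderOf_one] at hy; norm_num at hy
  have hk : xr 0 ^ k ≠ 1 := conj_ne_one huk hy1
  obtain ⟨v, hv⟩ := conj_to_rep1 (xr 0) gG 5 2 order_xr0 (by norm_num) rel5 num5 k hk
  exact ⟨v * u, conj_trans huk hv⟩

theorem exists_invol : ∃ t : ↥Cfsg.Spor.M22, orderOf t = 2 := by
  haveI : Fact (Nat.Prime 2) := ⟨Nat.prime_two⟩
  apply exists_prime_orderOf_dvd_card' 2
  rw [card_G]; norm_num

/-- The classes of elements with centralizers of odd order. -/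
theorem class_odd (w : ↥Cfsg.Spor.M22)
    (hw : ¬ 2 ∣ Nat.card (Subgroup.centralizer ({w} : Set ↥Cfsg.Spor.M22))) :
    ∃ j < 5, ∃ u, u * w * u⁻¹ = xr j := by
  have hw1 : w ≠ 1 := by
    intro h
    obtain ⟨t, ht⟩ := exists_invol
    apply hw
    apply even_cent w t ht
    rw [h, mul_one, one_mul]
  have hn0 : orderOf w ≠ 0 := (orderOf_pos w).ne'
  have h2 : ¬ 2 ∣ orderOf w := by
    intro h
    apply hw
    haveI : Fact (Nat.Prime 2) := ⟨Nat.prime_two⟩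
    apply even_cent w (w ^ (orderOf w / 2)) (orderOf_pow_orderOf_div hn0 h)
    rw [← pow_succ, ← pow_succ']
  by_cases h11 : 11 ∣ orderOf w
  · haveI : Fact (Nat.Prime 11) := ⟨by norm_num⟩
    obtain ⟨u, i, hui⟩ := case_q 11 nsq11 (xr 3) order_xr3 cent11 w h11
    have hi : xr 3 ^ i ≠ 1 := conj_ne_one hui hw1
    obtain ⟨v, hv | hv⟩ :=
      conj_to_rep (xr 3) (xr 0) 11 3 order_xr3 (by norm_num) rel11 num11 i hi
    · exact ⟨3, by norm_num, v * u, conj_trans hui hv⟩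
    · exact ⟨4, by norm_num, v * u, by rw [xr4_eq]; exact conj_trans hui hv⟩
  by_cases h7 : 7 ∣ orderOf w
  · haveI : Fact (Nat.Prime 7) := ⟨by norm_num⟩
    obtain ⟨u, i, hui⟩ := case_q 7 nsq7 (xr 1) order_xr1 cent7 w h7
    have hi : xr 1 ^ i ≠ 1 := conj_ne_one hui hw1
    obtain ⟨v, hv | hv⟩ :=
      conj_to_rep (xr 1) nG 7 2 order_xr1 (by norm_num) rel7 num7 i hi
    · exact ⟨1, by norm_num, v * u, conj_trans hui hv⟩
    · exact ⟨2, by norm_num, v * u, by rw [xr2_eq]; exact conj_trans hui hv⟩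
  by_cases h5 : 5 ∣ orderOf w
  · haveI : Fact (Nat.Prime 5) := ⟨by norm_num⟩
    obtain ⟨u, i, hui⟩ := case_q 5 nsq5 (xr 0) order_xr0 cent5 w h5
    have hi : xr 0 ^ i ≠ 1 := conj_ne_one hui hw1
    obtain ⟨v, hv⟩ := conj_to_rep1 (xr 0) gG 5 2 order_xr0 (by norm_num) rel5 num5 i hi
    exact ⟨0, by norm_num, v * u, conj_trans hui hv⟩
  exfalso
  apply hw
  apply three_even w hw1
  have hdvd : orderOf w ∣ 9 * 49280 := by
    have := orderOf_dvd_natCard w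
    rw [card_G] at this
    exact this
  have c2 : Nat.Coprime (orderOf w) 2 :=
    ((Nat.Prime.coprime_iff_not_dvd Nat.prime_two).mpr h2).symm
  have c5 : Nat.Coprime (orderOf w) 5 :=
    ((Nat.Prime.coprime_iff_not_dvd (by norm_num)).mpr h5).symm
  have c7 : Nat.Coprime (orderOf w) 7 :=
    ((Nat.Prime.coprime_iff_not_dvd (by norm_num)).mpr h7).symm
  have c11 : Nat.Coprime (orderOf w) 11 :=
    ((Nat.Prime.coprime_iff_not_dvd (by norm_num)).mpr h11).symm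
  have hc : Nat.Coprime (orderOf w) (2 ^ 7 * 5 * 7 * 11) :=
    Nat.Coprime.mul_right (Nat.Coprime.mul_right (Nat.Coprime.mul_right
      (Nat.Coprime.pow_right 7 c2) c5) c7) c11
  exact Nat.Coprime.dvd_of_dvd_mul_right hc hdvd

end Cfsg.Agent.Lib.helper27.B22
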