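import Cfsg.Agent.Lib.helper27.M22Blk2

set_option autoImplicit false

/-! Soundness of the certificates for the relations among the character values on the classes
with centralizers of odd order. -/

namespace Cfsg.Agent.Lib.helper27.B22

open Cfsg Cfsg.Agent.Lib.helper24 Cfsg.Agent.Lib.helper5 Cfsg.Agent.Lib.helper23
open Cfsg.Agent.Lib.helper28 Cfsg.Agent.Lib.helper27 Cfsg.Agent.Lib.helper27.TB

theorem xr_pow (i : ℕ) (hi : i < 5) : xr i ^ 5 = 1 ∨ xr i ^ 7 = 1 ∨ xr i ^ 11 = 1 := by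
  have h0 : xr 0 ^ 5 = 1 := by rw [← order_xr0]; exact pow_orderOf_eq_one _
  have h1 : xr 1 ^ 7 = 1 := by rw [← order_xr1]; exact pow_orderOf_eq_one _
  have h3 : xr 3 ^ 11 = 1 := by rw [← order_xr3]; exact pow_orderOf_eq_one _
  interval_cases i
  · exact Or.inl h0
  · exact Or.inr (Or.inl h1)
  · right; left; rw [xr2_eq, inv_pow, h1, inv_one]
  · exact Or.inr (Or.inr h3)
  · right; right; rw [xr4_eq, inv_pow, h3, inv_one]

theorem pow_of_conj {G : Type*} [Group G] {u y x : G} (h : u * y * u⁻¹ = x) (n : ℕ)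
    (hx : x ^ n = 1) : y ^ n = 1 := by
  have h1 : u * y ^ n * u⁻¹ = 1 := by rw [← conj_pow, h, hx]
  have h2 := congrArg (fun z => u⁻¹ * z * u) h1
  simp only [mul_one, inv_mul_cancel] at h2
  rw [← h2]; group

theorem pow_ne_one_of_itr {y : Equiv.Perm GolayPt} {f : ℕ → ℕ} (hT : Tbl y f) (n p : ℕ)
    (hp : p < 24) (hne : itr f n p ≠ p) : y ^ n ≠ 1 := by
  intro h
  have h1 := Tbl_pow hT n p hp
  rw [h, Equiv.Perm.one_apply, idx_pt hp] at h1
  exact hne h1.symm

theorem class_val (χ : IrrCharacter ↥Cfsg.Spor.M22) {u y x : ↥Cfsg.Spor.M22}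
    (h : u * y * u⁻¹ = x) : χ.1 y = χ.1 x := by
  rw [← h]; exact (isClassFunction_irr χ y u).symm

/-- Soundness of one certificate. -/
theorem cert_sound (M : Ideal AlgInt) (hM : IsPModular 2 M) (χ : IrrCharacter ↥Cfsg.Spor.M22)
    (hχ : 2 ^ (Nat.card ↥Cfsg.Spor.M22).factorization 2 ∣ charDegree χ.1)
    (j : ℕ) (hj : j < 5) (l : List ℕ) (hl : l ∈ invT) (c : ℕ × ℕ × List ℕ)
    (hc : chk1 (repP j) (packT l) c = true) :
    lab c ≤ 5 ∧ (lab c = 0 → MemLocalIdeal M (χ.1 (elT l * xr j))) ∧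
      (∀ i, lab c = i + 1 → χ.1 (elT l * xr j) = χ.1 (xr i)) := by
  obtain ⟨y, hy⟩ : ∃ y : ↥Cfsg.Spor.M22, y = elT l * xr j := ⟨_, rfl⟩
  rw [← hy]
  have hT : Tbl (y : Equiv.Perm GolayPt) (fun q => lk (packT l) (lk (repP j) q)) := by
    rw [hy, Subgroup.coe_mul, coe_xr]
    exact Tbl_mul (Tbl_elT l hl) (Tbl_rP j hj)
  obtain ⟨tag, p, w⟩ := c
  match tag, hc with
  | 0, hc =>
    have hc' : (Nat.blt p 24 && !(Nat.beq (itr (fun q => lk (packT l) (lk (repP j) q)) 5 p) p) &&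
      !(Nat.beq (itr (fun q => lk (packT l) (lk (repP j) q)) 7 p) p) &&
      !(Nat.beq (itr (fun q => lk (packT l) (lk (repP j) q)) 11 p) p)) = true := hc
    simp only [Bool.and_eq_true, Bool.not_eq_true', Nat.blt_eq] at hc'
    obtain ⟨⟨⟨hp, h5⟩, h7⟩, h11⟩ := hc'
    have g5 : (y : Equiv.Perm GolayPt) ^ 5 ≠ 1 := pow_ne_one_of_itr hT 5 p hp (by
      intro h; rw [h] at h5; simp at h5)
    have g7 : (y : Equiv.Perm GolayPt) ^ 7 ≠ 1 := pow_ne_one_of_itr hT 7 p hp (by
      intro h; rw [h] at h7; simp at h7)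
    have g11 : (y : Equiv.Perm GolayPt) ^ 11 ≠ 1 := pow_ne_one_of_itr hT 11 p hp (by
      intro h; rw [h] at h11; simp at h11)
    refine ⟨Nat.zero_le _, fun _ => ?_, fun i hi => ?_⟩
    · apply memLocalIdeal_of_even_centralizer M hM χ hχ
      by_contra hodd
      obtain ⟨i, hi, u, hu⟩ := class_odd y hodd
      rcases xr_pow i hi with h | h | h
      · exact g5 (by rw [← Subgroup.coe_pow, pow_of_conj hu 5 h]; rfl)
      · exact g7 (by rw [← Subgroup.coe_pow, pow_of_conj hu 7 h]; rfl)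
      · exact g11 (by rw [← Subgroup.coe_pow, pow_of_conj hu 11 h]; rfl)
    · exact absurd hi (by show (0 : ℕ) ≠ i + 1; omega)
  | 1, hc =>
    have hc' : (allLt (fun q => Nat.beq (itr (fun q => lk (packT l) (lk (repP j) q)) 5 q) q) 24 &&
      Nat.blt p 24 && !(Nat.beq (lk (packT l) (lk (repP j) p)) p)) = true := hc
    simp only [Bool.and_eq_true, Bool.not_eq_true', Nat.blt_eq] at hc'
    obtain ⟨⟨hall, hp⟩, hmv⟩ := hc'
    have e5 : (y : Equiv.Perm GolayPt) ^ 5 = 1 := by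
      apply Tbl_ext (Tbl_pow hT 5) Tbl_one
      intro q hq
      exact Nat.eq_of_beq_eq_true (allLt_spec hall q hq)
    have ne1 : (y : Equiv.Perm GolayPt) ≠ 1 := by
      intro h
      have h1 : idx ((y : Equiv.Perm GolayPt) (pt p)) = lk (packT l) (lk (repP j) p) := hT p hp
      rw [h, Equiv.Perm.one_apply, idx_pt hp] at h1
      rw [← h1] at hmv
      simp at hmv
    have hord : orderOf y = 5 := by
      haveI : Fact (Nat.Prime 5) := ⟨by norm_num⟩
      apply orderOf_eq_prime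
      · apply Subtype.ext; rw [Subgroup.coe_pow, e5]; rfl
      · intro h; exact ne1 (by rw [h]; rfl)
    obtain ⟨u, hu⟩ := order5_conj y hord
    refine ⟨by show (1 : ℕ) ≤ 5; norm_num, fun h => absurd h (by show (1 : ℕ) ≠ 0; norm_num),
      fun i hi => ?_⟩
    have hi0 : i = 0 := by
      have : (1 : ℕ) = i + 1 := hi
      omega
    rw [hi0]; exact class_val χ hu
  | k + 2, hc =>
    have hc' : (Nat.blt k 5 && allLt (fun q => Nat.beq (appW w (lk (packT l) (lk (repP j) q)))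
      (lk (repP k) (appW w q))) 24) = true := hc
    simp only [Bool.and_eq_true, Nat.blt_eq] at hc'
    obtain ⟨hk, hall⟩ := hc'
    have e : wordPerm w * (y : Equiv.Perm GolayPt) = rP k * wordPerm w := by
      apply Tbl_ext (Tbl_mul (Tbl_word w) hT) (Tbl_mul (Tbl_rP k hk) (Tbl_word w))
      intro q hq
      exact Nat.eq_of_beq_eq_true (allLt_spec hall q hq)
    have hu : mkG (wordPerm w) (word_mem w) * y * (mkG (wordPerm w) (word_mem w))⁻¹ = xr k := by
      rw [mul_inv_eq_iff_eq_mul]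
      apply Subtype.ext
      rw [Subgroup.coe_mul, Subgroup.coe_mul, coe_xr]
      exact e
    refine ⟨by show k + 1 ≤ 5; omega, fun h => absurd h (by show k + 1 ≠ 0; omega),
      fun i hi => ?_⟩
    have hik : i = k := by
      have : k + 1 = i + 1 := hi
      omega
    rw [hik]; exact class_val χ hu

end Cfsg.Agent.Lib.helper27.B22
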