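import Cfsg.Agent.Lib.helper27.M22Blk3

set_option autoImplicit false

/-! The character values on the classes with centralizers of odd order, for characters of full
2-part degree. -/

namespace Cfsg.Agent.Lib.helper27.B22

open Cfsg Cfsg.Agent.Lib.helper24 Cfsg.Agent.Lib.helper5 Cfsg.Agent.Lib.helper23
open Cfsg.Agent.Lib.helper28 Cfsg.Agent.Lib.helper27 Cfsg.Agent.Lib.helper27.TB

theorem chkAll_spec (X : ℕ) : ∀ (Ps : List ℕ) (C : List (ℕ × ℕ × List ℕ)),
    chkAll X Ps C = true → List.Forall₂ (fun P c => chk1 X P c = true) Ps C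
  | [], [], _ => List.Forall₂.nil
  | P :: Ps, c :: cs, h => by
    have h' : (chk1 X P c && chkAll X Ps cs) = true := h
    rw [Bool.and_eq_true] at h'
    exact List.Forall₂.cons h'.1 (chkAll_spec X Ps cs h'.2)
  | [], _ :: _, h => by
    have h' : false = true := h
    exact absurd h' (by decide)
  | _ :: _, [], h => by
    have h' : false = true := h
    exact absurd h' (by decide)

theorem exists_Z {M : Ideal AlgInt} (v : ℕ → ℂ) (val : List ℕ → ℂ) :
    ∀ (L : List (List ℕ)) (C : List (ℕ × ℕ × List ℕ)),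
      List.Forall₂ (fun l c => lab c ≤ 5 ∧ (lab c = 0 → MemLocalIdeal M (val l)) ∧
        (∀ i, lab c = i + 1 → val l = v i)) L C →
      ∃ Z : List (ℂ × ℕ), Z.map Prod.fst = L.map val ∧ Z.map Prod.snd = C.map lab ∧
        ∀ z ∈ Z, z.2 ≤ 5 ∧ (z.2 = 0 → MemLocalIdeal M z.1) ∧ (∀ i, z.2 = i + 1 → z.1 = v i) := by
  intro L C h
  induction h with
  | nil => exact ⟨[], rfl, rfl, fun z hz => absurd hz List.not_mem_nil⟩
  | @cons l c L C hlc _ ih =>
    obtain ⟨Z, h1, h2, h3⟩ := ih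
    refine ⟨(val l, lab c) :: Z, ?_, ?_, ?_⟩
    · rw [List.map_cons, List.map_cons, h1]
    · rw [List.map_cons, List.map_cons, h2]
    · intro z hz
      rcases List.mem_cons.mp hz with rfl | hz
      · exact hlc
      · exact h3 z hz

theorem conj_order {G : Type*} [Group G] (t c : G) : orderOf (t * c * t⁻¹) = orderOf c := by
  have : t * c * t⁻¹ = MulAut.conj t c := by rw [MulAut.conj_apply]
  rw [this, MulEquiv.orderOf_eq]

/-- The relation among the values from the certificates of one representative. -/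
theorem rel_j (M : Ideal AlgInt) (hM : IsPModular 2 M) (χ : IrrCharacter ↥Cfsg.Spor.M22)
    (hχ : 2 ^ (Nat.card ↥Cfsg.Spor.M22).factorization 2 ∣ charDegree χ.1)
    (j : ℕ) (hj : j < 5) (C : List (ℕ × ℕ × List ℕ)) (hok : chkAll (repP j) pkL C = true) :
    MemLocalIdeal M (((C.map lab).count 1 : ℂ) * χ.1 (xr 0) + ((C.map lab).count 2 : ℂ) * χ.1 (xr 1)
      + ((C.map lab).count 3 : ℂ) * χ.1 (xr 2) + ((C.map lab).count 4 : ℂ) * χ.1 (xr 3)
      + ((C.map lab).count 5 : ℂ) * χ.1 (xr 4)) := by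
  classical
  haveI := Fintype.ofFinite ↥Cfsg.Spor.M22
  have hMp := isPModular_isPrime hM
  have h1 := chkAll_spec _ _ _ hok
  rw [← pkL_eq, List.forall₂_map_left_iff] at h1
  obtain ⟨hlen, hz⟩ := List.forall₂_iff_zip.mp h1
  have h2 : List.Forall₂ (fun l c => lab c ≤ 5 ∧
      (lab c = 0 → MemLocalIdeal M (χ.1 (elT l * xr j))) ∧
      (∀ i, lab c = i + 1 → χ.1 (elT l * xr j) = χ.1 (xr i))) invT C :=
    List.forall₂_iff_zip.mpr ⟨hlen, fun {l c} hmem =>
      cert_sound M hM χ hχ j hj l (List.of_mem_zip hmem).1 c (hz hmem)⟩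
  obtain ⟨Z, hZ1, hZ2, hZ3⟩ :=
    exists_Z (fun i => χ.1 (xr i)) (fun l => χ.1 (elT l * xr j)) invT C h2
  have h3 := sum_labels hMp (fun i => χ.1 (xr i)) Z hZ3
  rw [hZ1, hZ2] at h3
  have hsum : (invT.map (fun l => χ.1 (elT l * xr j))).sum = 0 := by
    have hS2 : ∀ c ∈ (invT.map elT).toFinset, orderOf c = 2 := by
      intro c hc
      rw [List.mem_toFinset, List.mem_map] at hc
      obtain ⟨l, hl, rfl⟩ := hc
      exact elT_order l hl
    have hSn : ∀ c ∈ (invT.map elT).toFinset, ∀ t : ↥Cfsg.Spor.M22,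
        t * c * t⁻¹ ∈ (invT.map elT).toFinset := by
      intro c hc t
      have ho : orderOf (t * c * t⁻¹) = 2 := by rw [conj_order]; exact hS2 c hc
      obtain ⟨l, hl, hl2⟩ := inv_complete _ ho
      rw [List.mem_toFinset, List.mem_map]
      exact ⟨l, hl, hl2⟩
    have h4 := sum_invol_eq_zero χ hχ (invT.map elT).toFinset hS2 hSn (xr j)
    rw [List.sum_toFinset _ elT_nodup, List.map_map] at h4
    exact h4
  rw [hsum, zero_sub] at h3
  have h5 := memLocalIdeal_neg h3
  rw [neg_neg] at h5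
  exact h5

theorem par_lemma {M : Ideal AlgInt} (hM : IsPModular 2 M) (c d : ℕ) (v : ℂ)
    (hv : MemLocalRing M v) (h : c % 2 = d) :
    MemLocalIdeal M ((c : ℂ) * v - (d : ℂ) * v) := by
  have hMp := isPModular_isPrime hM
  have h2 : MemLocalIdeal M ((2 : ℕ) : ℂ) := (memLocalIdeal_natCast_iff hM 2).mpr (dvd_refl 2)
  have h3 : MemLocalIdeal M (((2 : ℕ) : ℂ) * (((c / 2 : ℕ) : ℂ) * v)) :=
    memLocalIdeal_mul_right hMp h2
      (memLocalRing_mul hMp (memLocalRing_natCast (isPModular_ne_top hM) _) hv)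
  have e : (c : ℂ) = ((2 : ℕ) : ℂ) * ((c / 2 : ℕ) : ℂ) + (d : ℂ) := by
    have := Nat.div_add_mod c 2
    rw [h] at this
    exact_mod_cast this.symm
  convert h3 using 1
  rw [e]; ring

theorem parOK_spec (j : ℕ) (C : List (ℕ × ℕ × List ℕ)) (h : parOK j C = true) (i : ℕ)
    (hi : i < 5) : (C.map lab).count (i + 1) % 2 = if i = j then 1 else 0 := by
  unfold parOK at h
  rw [Bool.and_eq_true] at h
  exact Nat.eq_of_beq_eq_true (allLt_spec h.1 i hi)

theorem val_ring (M : Ideal AlgInt) (hM : IsPModular 2 M) (χ : IrrCharacter ↥Cfsg.Spor.M22)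
    (g : ↥Cfsg.Spor.M22) : MemLocalRing M (χ.1 g) :=
  memLocalRing_of_isIntegral (isPModular_ne_top hM)
    (isCharacter_isIntegral (isCharacter_of_isIrrCharacter χ.2) g)

theorem val_of_cert (M : Ideal AlgInt) (hM : IsPModular 2 M) (χ : IrrCharacter ↥Cfsg.Spor.M22)
    (hχ : 2 ^ (Nat.card ↥Cfsg.Spor.M22).factorization 2 ∣ charDegree χ.1)
    (j : ℕ) (hj : j < 5) (C : List (ℕ × ℕ × List ℕ)) (hok : chkAll (repP j) pkL C = true)
    (hpar : parOK j C = true) : MemLocalIdeal M (χ.1 (xr j)) := by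
  have hMp := isPModular_isPrime hM
  have hrel := rel_j M hM χ hχ j hj C hok
  have p0 := par_lemma hM _ _ (χ.1 (xr 0)) (val_ring M hM χ _) (parOK_spec j C hpar 0 (by norm_num))
  have p1 := par_lemma hM _ _ (χ.1 (xr 1)) (val_ring M hM χ _) (parOK_spec j C hpar 1 (by norm_num))
  have p2 := par_lemma hM _ _ (χ.1 (xr 2)) (val_ring M hM χ _) (parOK_spec j C hpar 2 (by norm_num))
  have p3 := par_lemma hM _ _ (χ.1 (xr 3)) (val_ring M hM χ _) (parOK_spec j C hpar 3 (by norm_num))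
  have p4 := par_lemma hM _ _ (χ.1 (xr 4)) (val_ring M hM χ _) (parOK_spec j C hpar 4 (by norm_num))
  have hall := memLocalIdeal_sub hMp hrel
    (memLocalIdeal_add hMp (memLocalIdeal_add hMp (memLocalIdeal_add hMp
      (memLocalIdeal_add hMp p0 p1) p2) p3) p4)
  interval_cases j
  · convert hall using 1; simp
  · convert hall using 1; simp
  · convert hall using 1; simp
  · convert hall using 1; simp
  · convert hall using 1; simp

/-- The second hypothesis of the criterion. -/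
theorem H2_M22 (M : Ideal AlgInt) (hM : IsPModular 2 M) (χ : IrrCharacter ↥Cfsg.Spor.M22)
    (hχ : 2 ^ (Nat.card ↥Cfsg.Spor.M22).factorization 2 ∣ charDegree χ.1)
    (w : ↥Cfsg.Spor.M22)
    (hw : ¬ 2 ∣ Nat.card (Subgroup.centralizer ({w} : Set ↥Cfsg.Spor.M22))) :
    MemLocalIdeal M (χ.1 w) := by
  obtain ⟨j, hj, u, hu⟩ := class_odd w hw
  rw [class_val χ hu]
  interval_cases j
  · exact val_of_cert M hM χ hχ 0 (by norm_num) cert0 cert0_ok cert0_par
  · exact val_of_cert M hM χ hχ 1 (by norm_num) cert1 cert1_ok cert1_par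
  · exact val_of_cert M hM χ hχ 2 (by norm_num) cert2 cert2_ok cert2_par
  · exact val_of_cert M hM χ hχ 3 (by norm_num) cert3 cert3_ok cert3_par
  · exact val_of_cert M hM χ hχ 4 (by norm_num) cert4 cert4_ok cert4_par

end Cfsg.Agent.Lib.helper27.B22
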