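import Cfsg.Agent.Lib.helper27.M22Blk4

set_option autoImplicit false

/-! The Mathieu group of degree 22 has a single 2-block. -/

namespace Cfsg.Agent.Lib.helper27.B22

open Cfsg Cfsg.Agent.Lib.helper24 Cfsg.Agent.Lib.helper5 Cfsg.Agent.Lib.helper23
open Cfsg.Agent.Lib.helper28 Cfsg.Agent.Lib.helper27 Cfsg.Agent.Lib.helper27.TB
open Cfsg.Agent.Lib.helper27.OF

/-- The first hypothesis of the criterion: the centralizers of involutions have a single
2-block. -/
theorem H1_M22 (M : Ideal AlgInt) (hM : IsPModular 2 M) (t : ↥Cfsg.Spor.M22) (ht : orderOf t = 2)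
    (ξ : IrrCharacter ↥(Subgroup.centralizer
      ((Subgroup.zpowers t : Subgroup ↥Cfsg.Spor.M22) : Set ↥Cfsg.Spor.M22))) :
    ξ ∈ principalBlock M ↥(Subgroup.centralizer
      ((Subgroup.zpowers t : Subgroup ↥Cfsg.Spor.M22) : Set ↥Cfsg.Spor.M22)) := by
  have htm := (mem22_eq _).mp t.2
  rw [mem_stabM_22] at htm
  obtain ⟨htM, h23, h0⟩ := htm
  have hord : orderOf (t : Equiv.Perm GolayPt) = 2 := by rw [Subgroup.orderOf_coe]; exact ht
  obtain ⟨O, hO⟩ : ∃ O : Finset GolayPt,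
      O = Finset.univ.filter fun q => (t : Equiv.Perm GolayPt) q = q := ⟨_, rfl⟩
  have hOct : O ∈ octads := by rw [hO]; exact fix_octad htM hord (pt 0) h0
  have htO : (t : Equiv.Perm GolayPt) ∈ fixer O := by rw [hO]; exact mem_fixer_fix htM
  have hmemO : ∀ p : GolayPt, p ∈ O ↔ (t : Equiv.Perm GolayPt) p = p := by
    intro p; rw [hO, Finset.mem_filter]; simp
  have h0O : pt 0 ∈ O := (hmemO _).mpr h0
  have h23O : pt 23 ∈ O := (hmemO _).mpr h23
  have hfM : ∀ q ∈ fixer O, q ∈ Cfsg.Spor.M22 := by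
    intro q hq
    rw [mem22_eq, mem_stabM_22]
    obtain ⟨hqM, hqf⟩ := mem_fixer.mp hq
    exact ⟨hqM, hqf _ h23O, hqf _ h0O⟩
  have hKt : ∀ c ∈ Subgroup.centralizer
      ((Subgroup.zpowers t : Subgroup ↥Cfsg.Spor.M22) : Set ↥Cfsg.Spor.M22),
      (t : Equiv.Perm GolayPt) * (c : Equiv.Perm GolayPt) = (c : Equiv.Perm GolayPt) * t := by
    intro c hc
    have := Subgroup.mem_centralizer_iff.mp hc t (Subgroup.mem_zpowers t)
    exact congrArg Subtype.val this
  have hcM : ∀ c : ↥Cfsg.Spor.M22, (c : Equiv.Perm GolayPt) ∈ M24 := by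
    intro c
    have hc := (mem22_eq _).mp c.2
    rw [mem_stabM_22] at hc
    exact hc.1
  apply principal_of_constrained M hM _ ((fixer O).subgroupOf Cfsg.Spor.M22)
  · intro q hq
    rw [Subgroup.mem_subgroupOf] at hq
    rw [Subgroup.mem_centralizer_iff]
    intro h hh
    obtain ⟨k, rfl⟩ := Subgroup.mem_zpowers_iff.mp hh
    have hcomm : Commute t q := Subtype.ext (fixer_comm hOct htO hq)
    exact (hcomm.zpow_left k).eq
  · intro q hq
    rw [Subgroup.mem_subgroupOf] at hq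
    exact Subtype.ext ((octad_pointwise_stabilizer hOct).2 _ hq)
  · intro c hc q hq
    rw [Subgroup.mem_subgroupOf] at hq ⊢
    obtain ⟨hqM, hqf⟩ := mem_fixer.mp hq
    rw [mem_fixer]
    refine ⟨(hcM _), ?_⟩
    intro p hp
    have hct := hKt c hc
    have h1 : (t : Equiv.Perm GolayPt) ((c : Equiv.Perm GolayPt)⁻¹ p)
        = (c : Equiv.Perm GolayPt)⁻¹ p := by
      have e : (t : Equiv.Perm GolayPt) * (c : Equiv.Perm GolayPt)⁻¹
          = (c : Equiv.Perm GolayPt)⁻¹ * t := by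
        have e2 : (c : Equiv.Perm GolayPt)⁻¹ * ((t : Equiv.Perm GolayPt) * c) * (c : Equiv.Perm GolayPt)⁻¹
            = (c : Equiv.Perm GolayPt)⁻¹ * ((c : Equiv.Perm GolayPt) * t) * (c : Equiv.Perm GolayPt)⁻¹ := by
          rw [hct]
        have e3 : (c : Equiv.Perm GolayPt)⁻¹ * ((t : Equiv.Perm GolayPt) * c) * (c : Equiv.Perm GolayPt)⁻¹
            = (c : Equiv.Perm GolayPt)⁻¹ * t := by group
        have e4 : (c : Equiv.Perm GolayPt)⁻¹ * ((c : Equiv.Perm GolayPt) * t) * (c : Equiv.Perm GolayPt)⁻¹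
            = (t : Equiv.Perm GolayPt) * (c : Equiv.Perm GolayPt)⁻¹ := by group
        rw [← e4, ← e2, e3]
      have e5 := congrArg (fun g : Equiv.Perm GolayPt => g p) e
      simp only [Equiv.Perm.mul_apply] at e5
      rw [e5, (hmemO p).mp hp]
    have h2 : (q : Equiv.Perm GolayPt) ((c : Equiv.Perm GolayPt)⁻¹ p)
        = (c : Equiv.Perm GolayPt)⁻¹ p := hqf _ ((hmemO _).mpr h1)
    show ((c * q * c⁻¹ : ↥Cfsg.Spor.M22) : Equiv.Perm GolayPt) p = p
    rw [Subgroup.coe_mul, Subgroup.coe_mul, Subgroup.coe_inv, Equiv.Perm.mul_apply,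
      Equiv.Perm.mul_apply, h2]
    exact Equiv.apply_symm_apply _ p
  · intro c hc hall
    rw [Subgroup.mem_subgroupOf]
    apply cent_fixer hOct (hcM c)
    intro q hq
    have hqQ : (⟨q, hfM q hq⟩ : ↥Cfsg.Spor.M22) ∈ (fixer O).subgroupOf Cfsg.Spor.M22 := by
      rw [Subgroup.mem_subgroupOf]; exact hq
    exact congrArg Subtype.val (hall _ hqQ)

/-- Every irreducible character lies in the principal 2-block. -/
theorem principal_M22 (M : Ideal AlgInt) (hM : IsPModular 2 M) (χ : IrrCharacter ↥Cfsg.Spor.M22) :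
    χ ∈ principalBlock M ↥Cfsg.Spor.M22 :=
  criterion M hM (fun t ht ξ => H1_M22 M hM t ht ξ) (fun χ hχ w hw => H2_M22 M hM χ hχ w hw) χ

end Cfsg.Agent.Lib.helper27.B22
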