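import Cfsg.Agent.Lib.helper27.M22Blk5
import Cfsg.Agent.Lib.helper27.M24BlkOct
import Cfsg.Agent.Lib.helper27.M24BlkPk
import Cfsg.Agent.Lib.helper27.M24BlkNd

set_option autoImplicit false

/-! The involutions with fixed points of the group of the code, and words in its elements. -/

namespace Cfsg.Agent.Lib.helper27.B24

open Cfsg Cfsg.Agent.Lib.helper28 Cfsg.Agent.Lib.helper27 Cfsg.Agent.Lib.helper27.OF
open Cfsg.Agent.Lib.helper27.TB
open Cfsg.Agent.Lib.helper24 Cfsg.Agent.Lib.helper5 Cfsg.Agent.Lib.helper23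
open scoped Pointwise

/-! ### Elements from tables -/

/-- The element of the group with a given table (the identity if there is none). -/
noncomputable def permOf (l : List ℕ) : Equiv.Perm GolayPt :=
  if h : tabIn [] l = true then tp [] l h else 1

theorem permOf_mem (l : List ℕ) : permOf l ∈ M24 := by
  unfold permOf
  split
  · rename_i h
    have := tp_mem [] l h
    rwa [stabM_nil] at this
  · exact M24.one_mem

theorem permOf_table {l : List ℕ} (h : tabIn [] l = true) : IsTable (permOf l) l := by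
  unfold permOf
  rw [dif_pos h]
  exact isTable_tp _ _ _

theorem gen_red (g : ℕ) : ∃ i < 9, genT g = genT i ∧ genP g = genP i := by
  match g with
  | 0 => exact ⟨0, by norm_num, rfl, rfl⟩
  | 1 => exact ⟨1, by norm_num, rfl, rfl⟩
  | 2 => exact ⟨2, by norm_num, rfl, rfl⟩
  | 3 => exact ⟨3, by norm_num, rfl, rfl⟩
  | 4 => exact ⟨4, by norm_num, rfl, rfl⟩
  | 5 => exact ⟨5, by norm_num, rfl, rfl⟩
  | 6 => exact ⟨6, by norm_num, rfl, rfl⟩
  | 7 => exact ⟨7, by norm_num, rfl, rfl⟩
  | n + 8 => exact ⟨8, by norm_num, rfl, rfl⟩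

theorem Tbl_gen (g : ℕ) : B22.Tbl (permOf (genT g)) (B22.lk (genP g)) := by
  obtain ⟨i, hi, e1, e2⟩ := gen_red g
  rw [e1, e2]
  have hin := allLt_spec genT_ok i hi
  apply B22.Tbl_congr (B22.Tbl_of_isTable (permOf_table hin))
  intro q hq
  have := allLt_spec (allLt_spec genP_ok i hi) q hq
  exact (Nat.eq_of_beq_eq_true this).symm

/-- The permutation of a word. -/
noncomputable def wordPerm (w : List ℕ) : Equiv.Perm GolayPt :=
  (w.map fun g => permOf (genT g)).prod

theorem Tbl_word : ∀ w : List ℕ, B22.Tbl (wordPerm w) (appW w)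
  | [] => by
    show B22.Tbl 1 _
    exact B22.Tbl_one
  | g :: w => by
    have : wordPerm (g :: w) = permOf (genT g) * wordPerm w := by
      unfold wordPerm; rw [List.map_cons, List.prod_cons]
    rw [this]
    exact B22.Tbl_congr (B22.Tbl_mul (Tbl_gen g) (Tbl_word w)) (fun q _ => rfl)

theorem word_mem (w : List ℕ) : wordPerm w ∈ M24 := by
  apply Subgroup.list_prod_mem
  intro x hx
  rw [List.mem_map] at hx
  obtain ⟨g, -, rfl⟩ := hx
  exact permOf_mem _

/-! ### The class representatives -/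

/-- The class representatives and their inverses. -/
noncomputable def xq (k : ℕ) : ↥M24 := ⟨permOf (repT k), permOf_mem _⟩

theorem coe_xq (k : ℕ) : ((xq k : ↥M24) : Equiv.Perm GolayPt) = permOf (repT k) := rfl

theorem xq_table (k : ℕ) (hk : k < 8) : IsTable ((xq k : ↥M24) : Equiv.Perm GolayPt) (repT k) :=
  permOf_table (allLt_spec repT_ok k hk)

theorem Tbl_xq (k : ℕ) (hk : k < 8) :
    B22.Tbl ((xq k : ↥M24) : Equiv.Perm GolayPt) (B22.lk (repP k)) := by
  apply B22.Tbl_congr (B22.Tbl_of_isTable (xq_table k hk))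
  intro q hq
  have := allLt_spec (allLt_spec repP_ok k hk) q hq
  exact (Nat.eq_of_beq_eq_true this).symm

theorem rep_inv_chk : allLt (fun k => mulTab (repT k) (repT (k + 4)) == idTab) 4 = true := by
  decide +kernel

theorem xq_inv (k : ℕ) (hk : k < 4) : xq (k + 4) = (xq k)⁻¹ := by
  have h := allLt_spec rep_inv_chk k hk
  rw [beq_iff_eq] at h
  have h1 : ((xq k : ↥M24) : Equiv.Perm GolayPt) * ((xq (k + 4) : ↥M24) : Equiv.Perm GolayPt)
      = 1 := by
    apply eq_of_isTable (isTable_mulTab (xq_table k (by omega)) (xq_table (k + 4) (by omega)))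
    rw [h]; exact isTable_one
  have h2 : xq k * xq (k + 4) = 1 := Subtype.ext h1
  exact (inv_eq_of_mul_eq_one_right h2).symm

theorem rep_pow_chk : allLt (fun k => !(isId (powTab (repT k) 3)) && !(isId (powTab (repT k) 5)) &&
    !(isId (powTab (repT k) 7))) 4 = true := by decide +kernel

theorem rep_ord_chk : (powTab (repT 0) 11 == idTab) && (powTab (repT 1) 15 == idTab) &&
    (powTab (repT 2) 21 == idTab) && (powTab (repT 3) 23 == idTab) = true := by decide +kernel

theorem xq_pow_ne (k : ℕ) (hk : k < 4) : xq k ^ 3 ≠ 1 ∧ xq k ^ 5 ≠ 1 ∧ xq k ^ 7 ≠ 1 := by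
  have h := allLt_spec rep_pow_chk k hk
  simp only [Bool.and_eq_true, Bool.not_eq_true'] at h
  obtain ⟨⟨h3, h5⟩, h7⟩ := h
  have key : ∀ n : ℕ, isId (powTab (repT k) n) = false → xq k ^ n ≠ 1 := by
    intro n hn h1
    have h2 : ((xq k : ↥M24) : Equiv.Perm GolayPt) ^ n = 1 := by
      rw [← Subgroup.coe_pow, h1]; rfl
    have := isId_of_one (isTable_powTab (xq_table k (by omega)) n) h2
    rw [this] at hn
    exact absurd hn (by decide)
  exact ⟨key 3 h3, key 5 h5, key 7 h7⟩

theorem xq_pow (k : ℕ) (hk : k < 4) :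
    xq k ^ 11 = 1 ∨ xq k ^ 15 = 1 ∨ xq k ^ 21 = 1 ∨ xq k ^ 23 = 1 := by
  have h := rep_ord_chk
  simp only [Bool.and_eq_true, beq_iff_eq, decide_eq_true_eq] at h
  obtain ⟨⟨⟨h0, h1⟩, h2⟩, h3⟩ := h
  have key : ∀ (i n : ℕ), i < 4 → powTab (repT i) n = idTab → xq i ^ n = 1 := by
    intro i n hi hn
    apply Subtype.ext
    rw [Subgroup.coe_pow]
    exact pow_eq_one_of_powTab (xq_table i (by omega)) n hn
  interval_cases k
  · exact Or.inl (key 0 11 (by norm_num) h0)
  · exact Or.inr (Or.inl (key 1 15 (by norm_num) h1))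
  · exact Or.inr (Or.inr (Or.inl (key 2 21 (by norm_num) h2)))
  · exact Or.inr (Or.inr (Or.inr (key 3 23 (by norm_num) h3)))

/-! ### The involutions -/

theorem eqL_spec : ∀ l m : List ℕ, eqL l m = true → l = m
  | [], [], _ => rfl
  | a :: l, b :: m, h => by
    have h' : (Nat.beq a b && eqL l m) = true := h
    rw [Bool.and_eq_true] at h'
    rw [Nat.eq_of_beq_eq_true h'.1, eqL_spec l m h'.2]
  | [], _ :: _, h => by
    have h' : false = true := h
    exact absurd h' (by decide)
  | _ :: _, [], h => by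
    have h' : false = true := h
    exact absurd h' (by decide)

theorem flatMap_congr' {α β : Type*} (l : List α) (f g : α → List β) (h : ∀ a ∈ l, f a = g a) :
    l.flatMap f = l.flatMap g := by
  induction l with
  | nil => rfl
  | cons a l ih =>
    rw [List.flatMap_cons, List.flatMap_cons, h a List.mem_cons_self,
      ih (fun b hb => h b (List.mem_cons_of_mem _ hb))]

theorem octA_ok : ocOK octA = true := by
  unfold ocOK octA
  rw [List.all_eq_true]
  intro z hz
  rw [List.mem_flatMap] at hz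
  obtain ⟨i, hi, hz⟩ := hz
  rw [List.mem_range] at hi
  have h := oc_ok i hi
  unfold ocOK at h
  exact List.all_eq_true.mp h z hz

theorem invTc_flatMap (n : ℕ) (f : ℕ → List (ℕ × List ℕ × List ℕ)) :
    invTc ((List.range n).flatMap f) = (List.range n).flatMap (fun i => invTc (f i)) := by
  unfold invTc
  rw [List.flatMap_assoc]

theorem pkL_eq : invT.map packT = pkL := by
  unfold invT octA pkL
  rw [invTc_flatMap, List.map_flatMap]
  apply flatMap_congr'
  intro i hi
  rw [List.mem_range] at hi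
  exact eqL_spec _ _ (pk_eq i hi)

theorem disjB_spec (l m : List ℕ) (h : disjB l m = true) : ∀ a ∈ l, a ∉ m := by
  intro a ha ham
  unfold disjB at h
  have := List.all_eq_true.mp h a ha
  rw [B22.memP_of_mem m a ham] at this
  exact absurd this (by decide)

theorem nodup_flatMap_range (f : ℕ → List ℕ) : ∀ n : ℕ, (∀ i < n, (f i).Nodup) →
    (∀ i < n, ∀ j < i, ∀ a ∈ f j, a ∉ f i) → ((List.range n).flatMap f).Nodup
  | 0, _, _ => by simp
  | n + 1, h1, h2 => by
    rw [List.range_succ, List.flatMap_append]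
    have ih := nodup_flatMap_range f n (fun i hi => h1 i (by omega))
      (fun i hi j hj => h2 i (by omega) j hj)
    rw [List.nodup_append]
    refine ⟨ih, ?_, ?_⟩
    · simpa using h1 n (by omega)
    · intro a ha b hb hab
      rw [List.mem_flatMap] at ha
      obtain ⟨j, hj, haj⟩ := ha
      rw [List.mem_range] at hj
      have hb' : b ∈ f n := by simpa using hb
      exact h2 n (by omega) j hj a haj (hab ▸ hb')

theorem pkL_nodup : pkL.Nodup := by
  unfold pkL
  apply nodup_flatMap_range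
  · intro i hi
    have h := nd_ok i hi
    unfold ndOK at h
    rw [Bool.and_eq_true] at h
    exact B22.nodupB_spec _ h.1
  · intro i hi j hj a ha hai
    have h1 := nd_ok i hi
    have h2 := nd_ok j (by omega)
    unfold ndOK at h1 h2
    rw [Bool.and_eq_true] at h1 h2
    have h3 := List.all_eq_true.mp h1.2 a hai
    have h4 := List.all_eq_true.mp h2.2 a ha
    rw [Bool.and_eq_true] at h3 h4
    have h5 : bd i ≤ fixM a 24 := Nat.le_of_ble_eq_true h3.1
    have h6 : fixM a 24 < bd (j + 1) := by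
      have := h4.2
      rw [Nat.blt_eq] at this
      exact this
    have h7 := bd_mono i hi j hj
    omega

theorem octA_spec (z : ℕ × List ℕ × List ℕ) (hz : z ∈ octA) :
    ∃ a b : Equiv.Perm GolayPt, a ∈ M24 ∧ IsTable a z.2.1 ∧ IsTable b z.2.2 ∧ b = a⁻¹ ∧
      a • setOf o0 = setOf z.1 := by
  have h := List.all_eq_true.mp octA_ok z hz
  simp only [Bool.and_eq_true, beq_iff_eq] at h
  obtain ⟨⟨⟨hA, hB⟩, hAB⟩, hm⟩ := h
  obtain ⟨a, ha, hat⟩ := tabIn_spec hA
  rw [stabM_nil] at ha
  have hbt := isTable_tabPerm z.2.2 hB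
  have hab : a * tabPerm z.2.2 hB = 1 := by
    apply eq_of_isTable (isTable_mulTab hat hbt)
    rw [hAB]; exact isTable_one
  have hb : tabPerm z.2.2 hB = a⁻¹ := (inv_eq_of_mul_eq_one_right hab).symm
  refine ⟨a, tabPerm z.2.2 hB, ha, hat, hbt, hb, ?_⟩
  have := inv_smul_setOf hbt o0
  rw [hb, inv_inv, hm] at this
  exact this

theorem invT_length (l : List ℕ) (hl : l ∈ invT) : l.length = 24 := by
  unfold invT invTc at hl
  rw [List.mem_flatMap] at hl
  obtain ⟨z, -, hl⟩ := hl
  rw [List.mem_map] at hl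
  obtain ⟨e, -, rfl⟩ := hl
  exact B22.length_mulTab _ _

theorem o0_pt0 : (pt 0 : GolayPt) ∈ setOf o0 := by
  rw [mem_setOf, idx_pt (by norm_num)]; decide

/-- Every table of the list is the table of an involution of the group with a fixed point. -/
theorem exists_invT (l : List ℕ) (hl : l ∈ invT) :
    ∃ g : Equiv.Perm GolayPt, g ∈ M24 ∧ IsTable g l ∧ g * g = 1 ∧ g ≠ 1 ∧ ∃ p, g p = p := by
  unfold invT invTc at hl
  rw [List.mem_flatMap] at hl
  obtain ⟨z, hz, hl⟩ := hl
  rw [List.mem_map] at hl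
  obtain ⟨e, he, rfl⟩ := hl
  obtain ⟨a, b, ha, hat, hbt, hb, hsm⟩ := octA_spec z hz
  have he1 := List.all_eq_true.mp B22.E0nz_ok e he
  have he2 := List.all_eq_true.mp B22.E0nz_move e he
  rw [Bool.and_eq_true] at he1
  obtain ⟨e₀, he₀, he₀t⟩ := tabIn_spec he1.1
  rw [← fixer_o0_eq] at he₀
  have hg : IsTable (a * e₀ * b) (mulTab (mulTab z.2.1 e) z.2.2) :=
    isTable_mulTab (isTable_mulTab hat he₀t) hbt
  have hfix : a * e₀ * b ∈ fixer (a • setOf o0) := by
    rw [mem_fixer_smul_iff ha, hb]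
    have : a⁻¹ * (a * e₀ * a⁻¹) * a = e₀ := by group
    rw [this]; exact he₀
  have hfix0 := hfix
  rw [hsm, mem_fixer] at hfix
  refine ⟨a * e₀ * b, hfix.1, hg, ?_, ?_, ?_⟩
  · have h1 := sq_eq_one_of_mem_fixer_o0 he₀
    rw [hb]
    calc a * e₀ * a⁻¹ * (a * e₀ * a⁻¹) = a * (e₀ * e₀) * a⁻¹ := by group
      _ = 1 := by rw [h1]; group
  · intro h1
    have he₀1 : e₀ = 1 := by
      rw [hb] at h1
      have h2 := congrArg (fun x => a⁻¹ * x * a) h1
      simp only [mul_one, inv_mul_cancel] at h2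
      rw [← h2]; group
    rw [he₀1] at he₀t
    have := he₀t (pt 5)
    rw [idx_pt (by norm_num), Equiv.Perm.one_apply, idx_pt (by norm_num)] at this
    rw [this] at he2
    exact absurd he2 (by decide)
  · refine ⟨a (pt 0), ?_⟩
    have h2 := (mem_fixer.mp he₀).2 (pt 0) o0_pt0
    rw [hb]
    show a (e₀ (a⁻¹ (a (pt 0)))) = a (pt 0)
    have h3 : a⁻¹ (a (pt 0)) = pt 0 := a.symm_apply_apply _
    rw [h3, h2]

/-- The element of the group with a given table. -/
noncomputable def elT (l : List ℕ) : ↥M24 :=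
  @dite _ (∃ g : ↥M24, IsTable (g : Equiv.Perm GolayPt) l) (Classical.propDecidable _)
    (fun h => h.choose) (fun _ => 1)

theorem elT_spec (l : List ℕ) (hl : l ∈ invT) :
    IsTable (elT l : Equiv.Perm GolayPt) l ∧ elT l * elT l = 1 ∧ elT l ≠ 1 ∧
      ∃ p, (elT l : Equiv.Perm GolayPt) p = p := by
  obtain ⟨g, hg, hgt, hsq, hne, hfp⟩ := exists_invT l hl
  have hex : ∃ g : ↥M24, IsTable (g : Equiv.Perm GolayPt) l := ⟨⟨g, hg⟩, hgt⟩
  have ht : IsTable (elT l : Equiv.Perm GolayPt) l := by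
    unfold elT
    rw [dif_pos hex]
    exact hex.choose_spec
  have heq : (elT l : Equiv.Perm GolayPt) = g := eq_of_isTable ht hgt
  refine ⟨ht, ?_, ?_, ?_⟩
  · apply Subtype.ext
    rw [Subgroup.coe_mul, heq, hsq]; rfl
  · intro h1
    apply hne
    rw [← heq, h1]; rfl
  · rw [heq]; exact hfp

theorem elT_eq {l : List ℕ} (hl : l ∈ invT) {t : ↥M24}
    (ht : IsTable (t : Equiv.Perm GolayPt) l) : elT l = t :=
  Subtype.ext (eq_of_isTable (elT_spec l hl).1 ht)

/-- Every involution of the group with a fixed point is in the list. -/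
theorem inv_complete (t : ↥M24) (ht : orderOf t = 2)
    (hfp : ∃ p, (t : Equiv.Perm GolayPt) p = p) : ∃ l ∈ invT, elT l = t := by
  have htM : (t : Equiv.Perm GolayPt) ∈ M24 := t.2
  obtain ⟨p, hp⟩ := hfp
  have hord : orderOf (t : Equiv.Perm GolayPt) = 2 := by rw [Subgroup.orderOf_coe]; exact ht
  have hO := fix_octad htM hord p hp
  obtain ⟨O, hOdef⟩ : ∃ O : Finset GolayPt,
      O = Finset.univ.filter fun q => (t : Equiv.Perm GolayPt) q = q := ⟨_, rfl⟩
  rw [← hOdef] at hO
  obtain ⟨hcw, hpc⟩ := (mem_octads_iff O).mp hO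
  obtain ⟨n, hn, hmn⟩ := (isCW_iff_exists (maskS_lt O)).mp hcw
  have hc := allLt_spec oct_complete n hn
  rw [← hmn, hpc] at hc
  simp only [beq_self_eq_true, Bool.not_true, Bool.false_or] at hc
  rw [List.any_eq_true] at hc
  obtain ⟨z, hz, hzm⟩ := hc
  rw [beq_iff_eq] at hzm
  obtain ⟨a, b, ha, hat, hbt, hb, hsm⟩ := octA_spec z hz
  rw [hzm, setOf_maskS] at hsm
  have hfix : (t : Equiv.Perm GolayPt) ∈ fixer (a • setOf o0) := by
    rw [hsm, hOdef]; exact mem_fixer_fix htM
  rw [mem_fixer_smul_iff ha] at hfix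
  rcases fixer_o0_table hfix with h1 | ⟨e, he, het⟩
  · exfalso
    have : (t : Equiv.Perm GolayPt) = 1 := by
      have h2 := congrArg (fun x => a * x * a⁻¹) h1
      simp only [mul_one, mul_inv_cancel] at h2
      rw [← h2]; group
    rw [this, orderOf_one] at hord
    exact absurd hord (by norm_num)
  · have hl : mulTab (mulTab z.2.1 e) z.2.2 ∈ invT := by
      unfold invT invTc
      rw [List.mem_flatMap]
      exact ⟨z, hz, List.mem_map.mpr ⟨e, he, rfl⟩⟩
    refine ⟨_, hl, elT_eq hl ?_⟩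
    have : (t : Equiv.Perm GolayPt) = a * (a⁻¹ * (t : Equiv.Perm GolayPt) * a) * b := by
      rw [hb]; group
    rw [this]
    exact isTable_mulTab (isTable_mulTab hat het) hbt

theorem invT_nodup : invT.Nodup := by
  have h := pkL_nodup
  rw [← pkL_eq] at h
  exact List.Nodup.of_map _ h

theorem elT_tbl (l : List ℕ) (hl : l ∈ invT) : l = tblOf (elT l : Equiv.Perm GolayPt) :=
  eq_tblOf (elT_spec l hl).1 (invT_length l hl)

theorem elT_nodup : (invT.map elT).Nodup := by
  apply List.Nodup.map_on _ invT_nodup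
  intro l₁ h₁ l₂ h₂ h
  rw [elT_tbl l₁ h₁, elT_tbl l₂ h₂, h]

theorem elT_order (l : List ℕ) (hl : l ∈ invT) : orderOf (elT l) = 2 := by
  obtain ⟨-, hsq, hne, -⟩ := elT_spec l hl
  exact orderOf_eq_prime (by rw [pow_two]; exact hsq) hne

theorem Tbl_elT (l : List ℕ) (hl : l ∈ invT) :
    B22.Tbl (elT l : Equiv.Perm GolayPt) (B22.lk (packT l)) := by
  have := B22.Tbl_pack (elT l : Equiv.Perm GolayPt)
  rw [← elT_tbl l hl] at this
  exact this

theorem card_G : Nat.card ↥M24 = 244823040 := card_M24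

end Cfsg.Agent.Lib.helper27.B24
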