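import Cfsg.Agent.Lib.helper27.M24BlkT1
import Cfsg.Agent.Lib.helper27.M24BlkSide

set_option autoImplicit false

/-! The classes of elements with centralizers of odd order in the group of the code. -/

namespace Cfsg.Agent.Lib.helper27.B24

open Cfsg Cfsg.Agent.Lib.helper28 Cfsg.Agent.Lib.helper27 Cfsg.Agent.Lib.helper27.OF
open Cfsg.Agent.Lib.helper27.TB
open Cfsg.Agent.Lib.helper24 Cfsg.Agent.Lib.helper5 Cfsg.Agent.Lib.helper23
open scoped Pointwise

/-! ### Generalities -/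

theorem case_comm {G : Type*} [Group G] [Finite G] (q : ℕ) [Fact q.Prime]
    (hq2 : ¬ q ^ 2 ∣ Nat.card G) (y : G) (hy : orderOf y = q) (w : G) (hqw : q ∣ orderOf w) :
    ∃ u : G, (u * w * u⁻¹) * y = y * (u * w * u⁻¹) := by
  have hqp : q.Prime := Fact.out
  have hn0 : orderOf w ≠ 0 := (orderOf_pos w).ne'
  have h1 : orderOf (w ^ (orderOf w / q)) = q := orderOf_pow_orderOf_div hn0 hqw
  obtain ⟨u, k, huk⟩ := exists_conj_pow q hq2 _ y h1 hy
  have hk : y ^ k ≠ 1 := by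
    intro h
    rw [h] at huk
    have : w ^ (orderOf w / q) = 1 := by
      have h2 := congrArg (fun z => u⁻¹ * z * u) huk
      simp only [mul_one, inv_mul_cancel] at h2
      rw [← h2]; group
    rw [this, orderOf_one] at h1
    exact hqp.one_lt.ne' h1.symm
  have hpow : (u * w * u⁻¹) ^ (orderOf w / q) = y ^ k := by rw [conj_pow, huk]
  have hc : (u * w * u⁻¹) * y ^ k = y ^ k * (u * w * u⁻¹) := by
    rw [← hpow, ← pow_succ', ← pow_succ]
  exact ⟨u, commute_of_pow y _ q hqp hy k hk hc⟩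

/-- An involution commuting with a conjugate gives an even centralizer. -/
theorem even_of_conj {G : Type*} [Group G] [Finite G] (w u t : G) (ht : orderOf t = 2)
    (htc : t * (u * w * u⁻¹) = (u * w * u⁻¹) * t) :
    2 ∣ Nat.card (Subgroup.centralizer ({w} : Set G)) := by
  have ht' : orderOf (u⁻¹ * t * u) = 2 := by
    have : u⁻¹ * t * u = MulAut.conj u⁻¹ t := by rw [MulAut.conj_apply, inv_inv]
    rw [this, MulEquiv.orderOf_eq]; exact ht
  apply even_cent w (u⁻¹ * t * u) ht'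
  calc u⁻¹ * t * u * w = u⁻¹ * (t * (u * w * u⁻¹)) * u := by group
    _ = u⁻¹ * ((u * w * u⁻¹) * t) * u := by rw [htc]
    _ = w * (u⁻¹ * t * u) := by group

/-- Soundness of the side certificates. -/
theorem side_sound (X XI : List ℕ) (x : Equiv.Perm GolayPt) (hx : IsTable x X)
    (hxi : IsTable x⁻¹ XI) (c : Equiv.Perm GolayPt) (f : ℕ → ℕ) (hf : B22.Tbl c f)
    (z : ℕ × ℕ × List ℕ) (h : sideOK X XI f z = true) :
    (∃ t ∈ M24, t * t = 1 ∧ t ≠ 1 ∧ t * c = c * t) ∨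
      (∃ u ∈ M24, u * c * u⁻¹ = x ∨ u * c * u⁻¹ = x⁻¹) := by
  obtain ⟨tag, p, T⟩ := z
  match tag, h with
  | 0, h =>
    have h' : (tabIn [] T && sqOne T && Nat.blt p 24 && !(Nat.beq (T.getD p 0) p) &&
      allLt (fun q => Nat.beq (T.getD (f q) 0) (f (T.getD q 0))) 24) = true := h
    simp only [Bool.and_eq_true, Bool.not_eq_true', Nat.blt_eq] at h'
    obtain ⟨⟨⟨⟨hin, hsq⟩, hp⟩, hmv⟩, hall⟩ := h'
    obtain ⟨t, ht, htt⟩ := tabIn_spec hin
    rw [stabM_nil] at ht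
    left
    refine ⟨t, ht, sq_eq_one_of_table htt hsq, ne_one_of_table htt hp ?_, ?_⟩
    · intro h; rw [h] at hmv; simp at hmv
    · apply B22.Tbl_ext (B22.Tbl_mul (B22.Tbl_of_isTable htt) hf)
        (B22.Tbl_mul hf (B22.Tbl_of_isTable htt))
      intro q hq
      exact Nat.eq_of_beq_eq_true (allLt_spec hall q hq)
  | 1, h =>
    have h' : (tabIn [] T &&
      allLt (fun q => Nat.beq (T.getD (f q) 0) (X.getD (T.getD q 0) 0)) 24) = true := h
    rw [Bool.and_eq_true] at h'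
    obtain ⟨hin, hall⟩ := h'
    obtain ⟨u, hu, hut⟩ := tabIn_spec hin
    rw [stabM_nil] at hu
    right
    refine ⟨u, hu, Or.inl ?_⟩
    rw [mul_inv_eq_iff_eq_mul]
    apply B22.Tbl_ext (B22.Tbl_mul (B22.Tbl_of_isTable hut) hf)
      (B22.Tbl_mul (B22.Tbl_of_isTable hx) (B22.Tbl_of_isTable hut))
    intro q hq
    exact Nat.eq_of_beq_eq_true (allLt_spec hall q hq)
  | k + 2, h =>
    have h' : (tabIn [] T &&
      allLt (fun q => Nat.beq (T.getD (f q) 0) (XI.getD (T.getD q 0) 0)) 24) = true := h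
    rw [Bool.and_eq_true] at h'
    obtain ⟨hin, hall⟩ := h'
    obtain ⟨u, hu, hut⟩ := tabIn_spec hin
    rw [stabM_nil] at hu
    right
    refine ⟨u, hu, Or.inr ?_⟩
    rw [mul_inv_eq_iff_eq_mul]
    apply B22.Tbl_ext (B22.Tbl_mul (B22.Tbl_of_isTable hut) hf)
      (B22.Tbl_mul (B22.Tbl_of_isTable hxi) (B22.Tbl_of_isTable hut))
    intro q hq
    exact Nat.eq_of_beq_eq_true (allLt_spec hall q hq)

/-- Side certificates in the group. -/
theorem side_group (X XI : List ℕ) (k : ℕ) (hk : k < 4) (hX : repT k = X)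
    (hXI : repT (k + 4) = XI) (c : ↥M24) (f : ℕ → ℕ)
    (hf : B22.Tbl (c : Equiv.Perm GolayPt) f) (z : ℕ × ℕ × List ℕ)
    (h : sideOK X XI f z = true) :
    (∃ t : ↥M24, orderOf t = 2 ∧ t * c = c * t) ∨
      (∃ u : ↥M24, u * c * u⁻¹ = xq k ∨ u * c * u⁻¹ = (xq k)⁻¹) := by
  have hx : IsTable ((xq k : ↥M24) : Equiv.Perm GolayPt) X := hX ▸ xq_table k (by omega)
  have hxi : IsTable ((xq k : ↥M24) : Equiv.Perm GolayPt)⁻¹ XI := by
    have h1 := xq_table (k + 4) (by omega)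
    rw [xq_inv k hk, hXI] at h1
    exact h1
  rcases side_sound X XI _ hx hxi _ f hf z h with ⟨t, ht, hsq, hne, hcomm⟩ | ⟨u, hu, hconj⟩
  · left
    refine ⟨⟨t, ht⟩, ?_, Subtype.ext hcomm⟩
    haveI : Fact (Nat.Prime 2) := ⟨Nat.prime_two⟩
    apply orderOf_eq_prime
    · apply Subtype.ext; rw [Subgroup.coe_pow, pow_two]; exact hsq
    · intro h1; exact hne (congrArg Subtype.val h1)
  · right
    refine ⟨⟨u, hu⟩, ?_⟩
    rcases hconj with h1 | h1
    · left; exact Subtype.ext h1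
    · right; exact Subtype.ext h1

/-! ### The elements of prime order -/

theorem order_tM : orderOf tM = 23 := by
  haveI : Fact (Nat.Prime 23) := ⟨by norm_num⟩
  exact orderOf_eq_prime tM_pow tM_ne_one

theorem order_yM : orderOf yM = 11 := by
  haveI : Fact (Nat.Prime 11) := ⟨by norm_num⟩
  exact orderOf_eq_prime (Subtype.ext pY_pow) (fun h => pY_ne_one (congrArg Subtype.val h))

theorem order_dM : orderOf dM = 5 := by
  haveI : Fact (Nat.Prime 5) := ⟨by norm_num⟩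
  exact orderOf_eq_prime (Subtype.ext B22.D_pow5) (fun h => B22.D_ne (congrArg Subtype.val h))

/-- The element of order 7. -/
noncomputable def e7M : ↥M24 := ⟨e7, e7_mem⟩

theorem order_e7M : orderOf e7M = 7 := by
  haveI : Fact (Nat.Prime 7) := ⟨by norm_num⟩
  exact orderOf_eq_prime (Subtype.ext e7_pow) (fun h => e7_ne (congrArg Subtype.val h))

theorem cent23 (c : ↥M24) (hc : c * tM = tM * c) : ∃ i : ℕ, c = tM ^ i := by
  obtain ⟨j, -, hj⟩ := centT c.2 (congrArg Subtype.val hc)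
  exact ⟨j, Subtype.ext (by rw [Subgroup.coe_pow]; exact hj)⟩

theorem cent11 (c : ↥M24) (hc : c * yM = yM * c) : ∃ i : ℕ, c = yM ^ i := by
  obtain ⟨j, -, hj⟩ := centY c.2 isTable_pY (congrArg Subtype.val hc)
  exact ⟨j, Subtype.ext (by rw [Subgroup.coe_pow]; exact hj)⟩

theorem rep_eq : repT 0 = mt 2 ∧ repT 3 = tabT ∧ repT 1 = x15T ∧ repT 5 = x15I ∧
    repT 2 = x21T ∧ repT 6 = x21I := by decide +kernel

theorem xq0_eq : xq 0 = yM := by
  apply Subtype.ext
  have h := xq_table 0 (by norm_num)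
  rw [rep_eq.1] at h
  exact eq_of_isTable h isTable_pY

theorem xq3_eq : xq 3 = tM := by
  apply Subtype.ext
  have h := xq_table 3 (by norm_num)
  rw [rep_eq.2.1] at h
  exact eq_of_isTable h isTable_T

theorem num23 : ∀ k < 23, k ≠ 0 → ∃ i, (2 ^ i * k) % 23 = 1 ∨ (2 ^ i * k) % 23 = 23 - 1 := by
  intro k hk hk0
  obtain ⟨i, -, hi⟩ := numeric23 k hk hk0
  exact ⟨i, hi⟩

theorem nsq5 : ¬ 5 ^ 2 ∣ Nat.card ↥M24 := by rw [card_G]; norm_num

theorem nsq7 : ¬ 7 ^ 2 ∣ Nat.card ↥M24 := by rw [card_G]; norm_num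

theorem nsq11 : ¬ 11 ^ 2 ∣ Nat.card ↥M24 := by rw [card_G]; norm_num

theorem nsq23 : ¬ 23 ^ 2 ∣ Nat.card ↥M24 := by rw [card_G]; norm_num

theorem testBit_full (i : ℕ) (hi : i < 24) : (16777215 : ℕ).testBit i = true := by
  interval_cases i <;> decide

/-- The elements commuting with the element of order 7. -/
theorem cent7_cases (c : ↥M24) (hc : c * e7M = e7M * c) :
    (∃ t : ↥M24, orderOf t = 2 ∧ t * c = c * t) ∨
      (∃ u : ↥M24, u * c * u⁻¹ = xq 2 ∨ u * c * u⁻¹ = (xq 2)⁻¹) := by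
  have hr := c7_packC c.2 (congrArg Subtype.val hc)
  have h := List.all_eq_true.mp c7C_ok _ hr
  rw [List.any_eq_true] at h
  obtain ⟨z, -, hz⟩ := h
  rw [Bool.and_eq_true] at hz
  exact side_group x21T x21I 2 (by norm_num) rep_eq.2.2.2.2.1 rep_eq.2.2.2.2.2 c _
    (B22.Tbl_pack _) z.2 hz.2

/-- The elements commuting with the element of order 5. -/
theorem cent5_cases (c : ↥M24) (hc : c * dM = dM * c) :
    (∃ t : ↥M24, orderOf t = 2 ∧ t * c = c * t) ∨
      (∃ u : ↥M24, u * c * u⁻¹ = xq 1 ∨ u * c * u⁻¹ = (xq 1)⁻¹) := by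
  obtain ⟨l, hl, hcl⟩ := centD_gen 16777215 16777215 16777215 R24L chkCentD_24 c.2
    (congrArg Subtype.val hc) (testBit_full _ (idx_lt _)) (testBit_full _ (idx_lt _))
    (testBit_full _ (idx_lt _))
  have h := List.all_eq_true.mp c5C_ok _ hl
  rw [List.any_eq_true] at h
  obtain ⟨z, -, hz⟩ := h
  rw [Bool.and_eq_true] at hz
  exact side_group x15T x15I 1 (by norm_num) rep_eq.2.2.1 rep_eq.2.2.2.1 c _
    (B22.Tbl_of_isTable hcl) z.2 hz.2

/-! ### The Sylow 3-subgroup -/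

theorem tblOf_mul (a b : Equiv.Perm GolayPt) : tblOf (a * b) = mulTab (tblOf a) (tblOf b) :=
  (eq_tblOf (isTable_mulTab (isTable_tblOf a) (isTable_tblOf b)) (B22.length_mulTab _ _)).symm

theorem tblOf_one : tblOf (1 : Equiv.Perm GolayPt) = idTab :=
  (eq_tblOf isTable_one (by decide)).symm

theorem P3_pow3 (a : ↥M24) (ha : tblOf (a : Equiv.Perm GolayPt) ∈ P3T) : a ^ 3 = 1 := by
  have h := List.all_eq_true.mp P3_exp _ ha
  rw [beq_iff_eq] at h
  apply Subtype.ext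
  rw [Subgroup.coe_pow]
  exact pow_eq_one_of_powTab (isTable_tblOf _) 3 h

theorem P3_mul_mem (a b : ↥M24) (ha : tblOf (a : Equiv.Perm GolayPt) ∈ P3T)
    (hb : tblOf (b : Equiv.Perm GolayPt) ∈ P3T) :
    tblOf ((a * b : ↥M24) : Equiv.Perm GolayPt) ∈ P3T := by
  rw [Subgroup.coe_mul, tblOf_mul]
  have h := List.all_eq_true.mp (List.all_eq_true.mp P3_mul _ ha) _ hb
  exact List.contains_iff_mem.mp h

/-- The Sylow 3-subgroup. -/
noncomputable def P3 : Subgroup ↥M24 where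
  carrier := {g | tblOf (g : Equiv.Perm GolayPt) ∈ P3T}
  mul_mem' := fun {a b} ha hb => P3_mul_mem a b ha hb
  one_mem' := by
    show tblOf ((1 : ↥M24) : Equiv.Perm GolayPt) ∈ P3T
    rw [Subgroup.coe_one, tblOf_one]
    exact List.contains_iff_mem.mp P3_one
  inv_mem' := by
    intro a ha
    have h3 := P3_pow3 a ha
    have e : a⁻¹ = a * a := by
      apply inv_eq_of_mul_eq_one_right
      rw [← h3, pow_succ, pow_two, mul_assoc]
    show tblOf ((a⁻¹ : ↥M24) : Equiv.Perm GolayPt) ∈ P3T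
    rw [e]
    exact P3_mul_mem a a ha ha

theorem mem_P3 (g : ↥M24) : g ∈ P3 ↔ tblOf (g : Equiv.Perm GolayPt) ∈ P3T := Iff.rfl

theorem P3_card_ge : 27 ≤ Nat.card ↥P3 := by
  have hin : ∀ i : Fin P3T.length, tabIn [] (P3T.get i) = true :=
    fun i => List.all_eq_true.mp P3_in _ (List.get_mem _ _)
  have hlen : ∀ i : Fin P3T.length, (P3T.get i).length = 24 := by
    intro i
    have := List.all_eq_true.mp P3_len24 _ (List.get_mem P3T i)
    exact beq_iff_eq.mp this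
  have htb : ∀ i : Fin P3T.length, P3T.get i = tblOf (permOf (P3T.get i)) :=
    fun i => eq_tblOf (permOf_table (hin i)) (hlen i)
  have hmem : ∀ i : Fin P3T.length,
      (⟨permOf (P3T.get i), permOf_mem _⟩ : ↥M24) ∈ P3 := by
    intro i
    rw [mem_P3]
    show tblOf (permOf (P3T.get i)) ∈ P3T
    rw [← htb i]
    exact List.get_mem _ _
  have hinj : Function.Injective (fun i : Fin P3T.length =>
      (⟨⟨permOf (P3T.get i), permOf_mem _⟩, hmem i⟩ : ↥P3)) := by
    intro i j hij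
    have h1 : permOf (P3T.get i) = permOf (P3T.get j) :=
      congrArg (fun x : ↥P3 => ((x : ↥M24) : Equiv.Perm GolayPt)) hij
    have h2 : P3T.get i = P3T.get j := by rw [htb i, htb j, h1]
    exact (List.nodup_iff_injective_get.mp P3_nodup) h2
  have := Nat.card_le_card_of_injective _ hinj
  rwa [Nat.card_fin, P3_len] at this

/-- The Sylow 3-subgroup as a Sylow subgroup. -/
theorem exists_sylow3 : ∃ Q : Sylow 3 ↥M24, (Q : Subgroup ↥M24) = P3 := by
  haveI : Fact (Nat.Prime 3) := ⟨Nat.prime_three⟩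
  have hP : IsPGroup 3 ↥P3 := by
    intro g
    refine ⟨1, ?_⟩
    apply Subtype.ext
    rw [pow_one, Subgroup.coe_pow]
    exact P3_pow3 g.1 g.2
  obtain ⟨Q, hQ⟩ := hP.exists_le_sylow
  refine ⟨Q, ?_⟩
  symm
  obtain ⟨n, hn⟩ := Q.isPGroup'.exists_card_eq
  have hdvd : 3 ^ n ∣ 244823040 := by
    have h1 := Subgroup.card_subgroup_dvd_card (Q : Subgroup ↥M24)
    rw [card_G] at h1
    rw [← hn]; exact h1
  have hn2 : n ≤ 3 := by
    by_contra hcon
    have h3 : 3 ^ 4 ∣ 3 ^ n := pow_dvd_pow 3 (by omega)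
    have h4 : 3 ^ 4 ∣ 244823040 := dvd_trans h3 hdvd
    omega
  have hle : Nat.card ↥(Q : Subgroup ↥M24) ≤ Nat.card ↥P3 := by
    rw [hn]
    calc 3 ^ n ≤ 3 ^ 3 := Nat.pow_le_pow_right (by norm_num) hn2
      _ = 27 := by norm_num
      _ ≤ Nat.card ↥P3 := P3_card_ge
  exact Subgroup.eq_of_le_of_card_ge hQ hle

theorem P3_invol (g : ↥M24) (hg : g ∈ P3) (hg1 : g ≠ 1) :
    ∃ t : ↥M24, orderOf t = 2 ∧ t * g = g * t := by
  rw [mem_P3] at hg
  have h := List.all_eq_true.mp P3_comm _ hg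
  rw [Bool.or_eq_true] at h
  rcases h with h | h
  · exfalso
    apply hg1
    rw [beq_iff_eq] at h
    apply Subtype.ext
    have ht := isTable_tblOf (g : Equiv.Perm GolayPt)
    rw [h] at ht
    exact eq_of_isTable ht isTable_one
  · rw [List.any_eq_true] at h
    obtain ⟨z, hz, hcomm⟩ := h
    rw [beq_iff_eq] at hcomm
    have hz2 := List.all_eq_true.mp P3I_ok z hz
    simp only [Bool.and_eq_true, decide_eq_true_eq, Bool.not_eq_true', beq_eq_false_iff_ne] at hz2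
    obtain ⟨⟨⟨hin, hsq⟩, hlt⟩, hmv⟩ := hz2
    obtain ⟨t, ht, htt⟩ := tabIn_spec hin
    rw [stabM_nil] at ht
    have h1 : t * t = 1 := sq_eq_one_of_table htt hsq
    have h2 : t ≠ 1 := ne_one_of_table htt hlt hmv
    refine ⟨⟨t, ht⟩, ?_, ?_⟩
    · haveI : Fact (Nat.Prime 2) := ⟨Nat.prime_two⟩
      apply orderOf_eq_prime
      · apply Subtype.ext
        rw [Subgroup.coe_pow, pow_two]; exact h1
      · intro h; exact h2 (congrArg Subtype.val h)
    · apply Subtype.ext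
      rw [Subgroup.coe_mul, Subgroup.coe_mul]
      show t * _ = _ * t
      apply eq_of_isTable (isTable_mulTab htt (isTable_tblOf _))
      rw [hcomm]
      exact isTable_mulTab (isTable_tblOf _) htt

/-- Nontrivial 3-elements have centralizers of even order. -/
theorem three_even (w : ↥M24) (hw1 : w ≠ 1) (hw : orderOf w ∣ 27) :
    2 ∣ Nat.card (Subgroup.centralizer ({w} : Set ↥M24)) := by
  haveI : Fact (Nat.Prime 3) := ⟨Nat.prime_three⟩
  obtain ⟨m, -, hm⟩ := (Nat.dvd_prime_pow Nat.prime_three).mp (show orderOf w ∣ 3 ^ 3 from hw)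
  have hP : IsPGroup 3 ↥(Subgroup.zpowers w) :=
    IsPGroup.of_card (n := m) (by rw [Nat.card_zpowers, hm])
  obtain ⟨Q, hQ⟩ := hP.exists_le_sylow
  obtain ⟨Q3, hQ3⟩ := exists_sylow3
  obtain ⟨g, hg⟩ := MulAction.exists_smul_eq ↥M24 Q Q3
  have hwQ : w ∈ (Q : Subgroup ↥M24) := hQ (Subgroup.mem_zpowers w)
  have hmem : g * w * g⁻¹ ∈ P3 := by
    rw [← hQ3, ← hg, Sylow.coe_subgroup_smul]
    have := Subgroup.smul_mem_pointwise_smul w (MulAut.conj g) (Q : Subgroup ↥M24) hwQ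
    rwa [MulAut.smul_def, MulAut.conj_apply] at this
  have hne : g * w * g⁻¹ ≠ 1 := B22.conj_ne_one rfl hw1
  obtain ⟨t, ht, htc⟩ := P3_invol _ hmem hne
  exact even_of_conj w g t ht htc

/-! ### The classes of odd centralizer order -/

theorem exists_invol : ∃ t : ↥M24, orderOf t = 2 := by
  haveI : Fact (Nat.Prime 2) := ⟨Nat.prime_two⟩
  apply exists_prime_orderOf_dvd_card' 2
  rw [card_G]; norm_num

/-- The classes of elements with centralizers of odd order. -/
theorem class_odd (w : ↥M24)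
    (hw : ¬ 2 ∣ Nat.card (Subgroup.centralizer ({w} : Set ↥M24))) :
    ∃ j < 4, ∃ u, u * w * u⁻¹ = xq j ∨ u * w * u⁻¹ = (xq j)⁻¹ := by
  have hw1 : w ≠ 1 := by
    intro h
    obtain ⟨t, ht⟩ := exists_invol
    apply hw
    apply even_cent w t ht
    rw [h, mul_one, one_mul]
  have hn0 : orderOf w ≠ 0 := (orderOf_pos w).ne'
  have h2 : ¬ 2 ∣ orderOf w := by
    intro h
    apply hw
    haveI : Fact (Nat.Prime 2) := ⟨Nat.prime_two⟩
    apply even_cent w (w ^ (orderOf w / 2)) (orderOf_pow_orderOf_div hn0 h)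
    rw [← pow_succ, ← pow_succ']
  by_cases h23 : 23 ∣ orderOf w
  · haveI : Fact (Nat.Prime 23) := ⟨by norm_num⟩
    obtain ⟨u, i, hui⟩ := case_q 23 nsq23 tM order_tM cent23 w h23
    have hi : tM ^ i ≠ 1 := B22.conj_ne_one hui hw1
    obtain ⟨v, hv | hv⟩ :=
      conj_to_rep tM yM 23 2 order_tM (by norm_num) relM_yt num23 i hi
    · exact ⟨3, by norm_num, v * u, Or.inl (by rw [xq3_eq]; exact B22.conj_trans hui hv)⟩
    · exact ⟨3, by norm_num, v * u, Or.inr (by rw [xq3_eq]; exact B22.conj_trans hui hv)⟩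
  by_cases h11 : 11 ∣ orderOf w
  · haveI : Fact (Nat.Prime 11) := ⟨by norm_num⟩
    obtain ⟨u, i, hui⟩ := case_q 11 nsq11 yM order_yM cent11 w h11
    have hi : yM ^ i ≠ 1 := B22.conj_ne_one hui hw1
    obtain ⟨v, hv | hv⟩ :=
      conj_to_rep yM dM 11 3 order_yM (by norm_num) relM_dy B22.num11 i hi
    · exact ⟨0, by norm_num, v * u, Or.inl (by rw [xq0_eq]; exact B22.conj_trans hui hv)⟩
    · exact ⟨0, by norm_num, v * u, Or.inr (by rw [xq0_eq]; exact B22.conj_trans hui hv)⟩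
  by_cases h7 : 7 ∣ orderOf w
  · haveI : Fact (Nat.Prime 7) := ⟨by norm_num⟩
    obtain ⟨u, hu⟩ := case_comm 7 nsq7 e7M order_e7M w h7
    rcases cent7_cases _ hu with ⟨t, ht, htc⟩ | ⟨v, hv⟩
    · exact absurd (even_of_conj w u t ht htc) hw
    · refine ⟨2, by norm_num, v * u, ?_⟩
      rcases hv with hv | hv
      · exact Or.inl (B22.conj_trans rfl hv)
      · exact Or.inr (B22.conj_trans rfl hv)
  by_cases h5 : 5 ∣ orderOf w
  · haveI : Fact (Nat.Prime 5) := ⟨by norm_num⟩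
    obtain ⟨u, hu⟩ := case_comm 5 nsq5 dM order_dM w h5
    rcases cent5_cases _ hu with ⟨t, ht, htc⟩ | ⟨v, hv⟩
    · exact absurd (even_of_conj w u t ht htc) hw
    · refine ⟨1, by norm_num, v * u, ?_⟩
      rcases hv with hv | hv
      · exact Or.inl (B22.conj_trans rfl hv)
      · exact Or.inr (B22.conj_trans rfl hv)
  exfalso
  apply hw
  apply three_even w hw1
  have hdvd : orderOf w ∣ 27 * 9067520 := by
    have := orderOf_dvd_natCard w
    rw [card_G] at this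
    exact this
  have c2 : Nat.Coprime (orderOf w) 2 :=
    ((Nat.Prime.coprime_iff_not_dvd Nat.prime_two).mpr h2).symm
  have c5 : Nat.Coprime (orderOf w) 5 :=
    ((Nat.Prime.coprime_iff_not_dvd (by norm_num)).mpr h5).symm
  have c7 : Nat.Coprime (orderOf w) 7 :=
    ((Nat.Prime.coprime_iff_not_dvd (by norm_num)).mpr h7).symm
  have c11 : Nat.Coprime (orderOf w) 11 :=
    ((Nat.Prime.coprime_iff_not_dvd (by norm_num)).mpr h11).symm
  have c23 : Nat.Coprime (orderOf w) 23 :=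
    ((Nat.Prime.coprime_iff_not_dvd (by norm_num)).mpr h23).symm
  have hc : Nat.Coprime (orderOf w) (2 ^ 10 * 5 * 7 * 11 * 23) :=
    Nat.Coprime.mul_right (Nat.Coprime.mul_right (Nat.Coprime.mul_right (Nat.Coprime.mul_right
      (Nat.Coprime.pow_right 10 c2) c5) c7) c11) c23
  exact Nat.Coprime.dvd_of_dvd_mul_right hc hdvd

end Cfsg.Agent.Lib.helper27.B24
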