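import Cfsg.Agent.Lib.helper27.M24BlkT2
import Cfsg.Agent.Lib.helper27.BlkGen
import Cfsg.Agent.Lib.helper27.M24BlkC0
import Cfsg.Agent.Lib.helper27.M24BlkC1
import Cfsg.Agent.Lib.helper27.M24BlkC2
import Cfsg.Agent.Lib.helper27.M24BlkC3

set_option autoImplicit false

/-! The character values on the classes with centralizers of odd order, for characters of full
2-part degree, in the group of the code. -/

namespace Cfsg.Agent.Lib.helper27.B24

open Cfsg Cfsg.Agent.Lib.helper28 Cfsg.Agent.Lib.helper27 Cfsg.Agent.Lib.helper27.OF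
open Cfsg.Agent.Lib.helper27.TB
open Cfsg.Agent.Lib.helper24 Cfsg.Agent.Lib.helper5 Cfsg.Agent.Lib.helper23
open scoped Pointwise

/-- Not conjugate to a representative or its inverse. -/
def NC (y : ↥M24) : Prop :=
  ∀ i < 4, ∀ u : ↥M24, ¬ (u * y * u⁻¹ = xq i ∨ u * y * u⁻¹ = (xq i)⁻¹)

theorem even_of_NC (y : ↥M24) (h : NC y) :
    2 ∣ Nat.card (Subgroup.centralizer ({y} : Set ↥M24)) := by
  by_contra hodd
  obtain ⟨i, hi, u, hu⟩ := class_odd y hodd
  exact h i hi u hu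

theorem NC_conj_inv (y c : ↥M24) (h : NC y) : NC (c * y⁻¹ * c⁻¹) := by
  intro i hi u hu
  apply h i hi (u * c)
  have e : (u * c) * y * (u * c)⁻¹ = (u * (c * y⁻¹ * c⁻¹) * u⁻¹)⁻¹ := by group
  rcases hu with hu | hu
  · right; rw [e, hu]
  · left; rw [e, hu, inv_inv]

theorem NC_of_pow (y : ↥M24) (n : ℕ) (hn : n = 3 ∨ n = 5 ∨ n = 7) (hy : y ^ n = 1) : NC y := by
  intro i hi u hu
  obtain ⟨h3, h5, h7⟩ := xq_pow_ne i hi
  have key : xq i ^ n = 1 := by
    rcases hu with hu | hu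
    · rw [← hu, conj_pow, hy]; group
    · have h1 : (xq i)⁻¹ ^ n = 1 := by rw [← hu, conj_pow, hy]; group
      rwa [inv_pow, inv_eq_one] at h1
  rcases hn with rfl | rfl | rfl
  · exact h3 key
  · exact h5 key
  · exact h7 key

theorem NC_of_pow_ne (y : ↥M24) (h11 : y ^ 11 ≠ 1) (h15 : y ^ 15 ≠ 1) (h21 : y ^ 21 ≠ 1)
    (h23 : y ^ 23 ≠ 1) : NC y := by
  intro i hi u hu
  have key : ∀ n : ℕ, xq i ^ n = 1 → y ^ n = 1 := by
    intro n hx
    rcases hu with hu | hu
    · exact B22.pow_of_conj hu n hx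
    · exact B22.pow_of_conj hu n (by rw [inv_pow, hx, inv_one])
  rcases xq_pow i hi with h | h | h | h
  · exact h11 (key 11 h)
  · exact h15 (key 15 h)
  · exact h21 (key 21 h)
  · exact h23 (key 23 h)

theorem class_val (χ : IrrCharacter ↥M24) {u y x : ↥M24} (h : u * y * u⁻¹ = x) :
    χ.1 y = χ.1 x := by
  rw [← h]; exact (isClassFunction_irr χ y u).symm

/-- Soundness of one certificate. -/
theorem cert_sound (M : Ideal AlgInt) (hM : IsPModular 2 M) (χ : IrrCharacter ↥M24)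
    (hχ : 2 ^ (Nat.card ↥M24).factorization 2 ∣ charDegree χ.1)
    (j : ℕ) (hj : j < 4) (l : List ℕ) (hl : l ∈ invT) (c : ℕ × ℕ × List ℕ)
    (hc : chk1 (repP j) (packT l) c = true) :
    lab c ≤ 8 ∧
      (lab c = 0 → MemLocalIdeal M (χ.1 (elT l * xq j)) ∧
        MemLocalIdeal M (χ.1 (elT l * (xq j)⁻¹))) ∧
      (∀ i, lab c = i + 1 → χ.1 (elT l * xq j) = χ.1 (xq i) ∧
        χ.1 (elT l * (xq j)⁻¹) = χ.1 ((xq i)⁻¹)) := by
  obtain ⟨y, hy⟩ : ∃ y : ↥M24, y = elT l * xq j := ⟨_, rfl⟩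
  obtain ⟨t, ht⟩ : ∃ t : ↥M24, t = elT l := ⟨_, rfl⟩
  have htt : t * t = 1 := by rw [ht]; exact (elT_spec l hl).2.1
  have hy' : elT l * (xq j)⁻¹ = t * y⁻¹ * t⁻¹ := by
    rw [hy, ← ht]
    have e : t⁻¹ = t := inv_eq_of_mul_eq_one_right htt
    rw [mul_inv_rev, e, mul_assoc, mul_assoc, htt, mul_one]
  rw [hy', ← hy]
  have hT : B22.Tbl (y : Equiv.Perm GolayPt)
      (fun q => B22.lk (packT l) (B22.lk (repP j) q)) := by
    rw [hy, Subgroup.coe_mul]
    exact B22.Tbl_mul (Tbl_elT l hl) (Tbl_xq j (by omega))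
  have both : NC y → MemLocalIdeal M (χ.1 y) ∧ MemLocalIdeal M (χ.1 (t * y⁻¹ * t⁻¹)) :=
    fun h => ⟨memLocalIdeal_of_even_centralizer M hM χ hχ y (even_of_NC y h),
      memLocalIdeal_of_even_centralizer M hM χ hχ _ (even_of_NC _ (NC_conj_inv y t h))⟩
  have powone : ∀ n : ℕ, allLt (fun q => Nat.beq
      (B22.itr (fun q => B22.lk (packT l) (B22.lk (repP j) q)) n q) q) 24 = true →
      y ^ n = 1 := by
    intro n hall
    apply Subtype.ext
    rw [Subgroup.coe_pow]
    apply B22.Tbl_ext (B22.Tbl_pow hT n) B22.Tbl_one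
    intro q hq
    exact Nat.eq_of_beq_eq_true (allLt_spec hall q hq)
  obtain ⟨tag, p, w⟩ := c
  match tag, hc with
  | 0, hc =>
    have hc' : (Nat.blt p 24 &&
      !(Nat.beq (B22.itr (fun q => B22.lk (packT l) (B22.lk (repP j) q)) 11 p) p) &&
      !(Nat.beq (B22.itr (fun q => B22.lk (packT l) (B22.lk (repP j) q)) 15 p) p) &&
      !(Nat.beq (B22.itr (fun q => B22.lk (packT l) (B22.lk (repP j) q)) 21 p) p) &&
      !(Nat.beq (B22.itr (fun q => B22.lk (packT l) (B22.lk (repP j) q)) 23 p) p)) = true := hc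
    simp only [Bool.and_eq_true, Bool.not_eq_true', Nat.blt_eq] at hc'
    obtain ⟨⟨⟨⟨hp, h11⟩, h15⟩, h21⟩, h23⟩ := hc'
    have g : ∀ n : ℕ, Nat.beq
        (B22.itr (fun q => B22.lk (packT l) (B22.lk (repP j) q)) n p) p = false → y ^ n ≠ 1 := by
      intro n hn h1
      have h2 : (y : Equiv.Perm GolayPt) ^ n = 1 := by rw [← Subgroup.coe_pow, h1]; rfl
      exact B22.pow_ne_one_of_itr hT n p hp (by intro h; rw [h] at hn; simp at hn) h2
    have hNC := NC_of_pow_ne y (g 11 h11) (g 15 h15) (g 21 h21) (g 23 h23)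
    exact ⟨Nat.zero_le _, fun _ => both hNC,
      fun i hi => absurd hi (by show (0 : ℕ) ≠ i + 1; omega)⟩
  | 1, hc =>
    have hc' : allLt (fun q => Nat.beq
      (B22.itr (fun q => B22.lk (packT l) (B22.lk (repP j) q)) 3 q) q) 24 = true := hc
    have hNC := NC_of_pow y 3 (Or.inl rfl) (powone 3 hc')
    exact ⟨Nat.zero_le _, fun _ => both hNC,
      fun i hi => absurd hi (by show (0 : ℕ) ≠ i + 1; omega)⟩
  | 2, hc =>
    have hc' : allLt (fun q => Nat.beq
      (B22.itr (fun q => B22.lk (packT l) (B22.lk (repP j) q)) 5 q) q) 24 = true := hc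
    have hNC := NC_of_pow y 5 (Or.inr (Or.inl rfl)) (powone 5 hc')
    exact ⟨Nat.zero_le _, fun _ => both hNC,
      fun i hi => absurd hi (by show (0 : ℕ) ≠ i + 1; omega)⟩
  | 3, hc =>
    have hc' : allLt (fun q => Nat.beq
      (B22.itr (fun q => B22.lk (packT l) (B22.lk (repP j) q)) 7 q) q) 24 = true := hc
    have hNC := NC_of_pow y 7 (Or.inr (Or.inr rfl)) (powone 7 hc')
    exact ⟨Nat.zero_le _, fun _ => both hNC,
      fun i hi => absurd hi (by show (0 : ℕ) ≠ i + 1; omega)⟩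
  | k + 4, hc =>
    have hc' : (Nat.blt k 8 && allLt (fun q => Nat.beq
      (appW w (B22.lk (packT l) (B22.lk (repP j) q)))
      (B22.lk (repP k) (appW w q))) 24) = true := hc
    simp only [Bool.and_eq_true, Nat.blt_eq] at hc'
    obtain ⟨hk, hall⟩ := hc'
    have e : wordPerm w * (y : Equiv.Perm GolayPt)
        = ((xq k : ↥M24) : Equiv.Perm GolayPt) * wordPerm w := by
      apply B22.Tbl_ext (B22.Tbl_mul (Tbl_word w) hT) (B22.Tbl_mul (Tbl_xq k hk) (Tbl_word w))
      intro q hq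
      exact Nat.eq_of_beq_eq_true (allLt_spec hall q hq)
    obtain ⟨u, hu⟩ : ∃ u : ↥M24, u = ⟨wordPerm w, word_mem w⟩ := ⟨_, rfl⟩
    have hconj : u * y * u⁻¹ = xq k := by
      rw [mul_inv_eq_iff_eq_mul]
      apply Subtype.ext
      rw [Subgroup.coe_mul, Subgroup.coe_mul, hu]
      exact e
    have hconj' : (u * t⁻¹) * (t * y⁻¹ * t⁻¹) * (u * t⁻¹)⁻¹ = (xq k)⁻¹ := by
      rw [← hconj]; group
    refine ⟨by show k + 1 ≤ 8; omega, fun h => absurd h (by show k + 1 ≠ 0; omega),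
      fun i hi => ?_⟩
    have hik : i = k := by
      have : k + 1 = i + 1 := hi
      omega
    rw [hik]
    exact ⟨class_val χ hconj, class_val χ hconj'⟩

theorem chkAll_spec (X : ℕ) : ∀ (Ps : List ℕ) (C : List (ℕ × ℕ × List ℕ)),
    chkAll X Ps C = true → List.Forall₂ (fun P c => chk1 X P c = true) Ps C
  | [], [], _ => List.Forall₂.nil
  | P :: Ps, c :: cs, h => by
    have h' : (chk1 X P c && chkAll X Ps cs) = true := h
    rw [Bool.and_eq_true] at h'
    exact List.Forall₂.cons h'.1 (chkAll_spec X Ps cs h'.2)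
  | [], _ :: _, h => by
    have h' : false = true := h
    exact absurd h' (by decide)
  | _ :: _, [], h => by
    have h' : false = true := h
    exact absurd h' (by decide)

/-- The relation among the values from a list of certificates. -/
theorem rel_sum (M : Ideal AlgInt) (hM : IsPModular 2 M) (χ : IrrCharacter ↥M24)
    (hχ : 2 ^ (Nat.card ↥M24).factorization 2 ∣ charDegree χ.1) (x : ↥M24) (v : ℕ → ℂ)
    (C : List (ℕ × ℕ × List ℕ))
    (h : List.Forall₂ (fun l c => lab c ≤ 8 ∧ (lab c = 0 → MemLocalIdeal M (χ.1 (elT l * x))) ∧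
      (∀ i, lab c = i + 1 → χ.1 (elT l * x) = v i)) invT C) :
    MemLocalIdeal M (∑ i ∈ Finset.range 8, ((C.map lab).count (i + 1) : ℂ) * v i) := by
  classical
  haveI := Fintype.ofFinite ↥M24
  have hMp := isPModular_isPrime hM
  obtain ⟨Z, hZ1, hZ2, hZ3⟩ := exists_Z' lab 8 v (fun l => χ.1 (elT l * x)) invT C h
  have h3 := sum_labels_gen hMp 8 v Z hZ3
  rw [hZ1, hZ2] at h3
  have hsum : (invT.map (fun l => χ.1 (elT l * x))).sum = 0 := by
    have hS2 : ∀ c ∈ (invT.map elT).toFinset, orderOf c = 2 := by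
      intro c hc
      rw [List.mem_toFinset, List.mem_map] at hc
      obtain ⟨l, hl, rfl⟩ := hc
      exact elT_order l hl
    have hSn : ∀ c ∈ (invT.map elT).toFinset, ∀ t : ↥M24,
        t * c * t⁻¹ ∈ (invT.map elT).toFinset := by
      intro c hc t
      have ho : orderOf (t * c * t⁻¹) = 2 := by rw [B22.conj_order]; exact hS2 c hc
      rw [List.mem_toFinset, List.mem_map] at hc
      obtain ⟨l, hl, rfl⟩ := hc
      obtain ⟨p, hp⟩ := (elT_spec l hl).2.2.2
      have hfp : ∃ p', ((t * elT l * t⁻¹ : ↥M24) : Equiv.Perm GolayPt) p' = p' := by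
        refine ⟨(t : Equiv.Perm GolayPt) p, ?_⟩
        rw [Subgroup.coe_mul, Subgroup.coe_mul, Subgroup.coe_inv]
        show (t : Equiv.Perm GolayPt) ((elT l : Equiv.Perm GolayPt)
          ((t : Equiv.Perm GolayPt)⁻¹ ((t : Equiv.Perm GolayPt) p))) = _
        have e : (t : Equiv.Perm GolayPt)⁻¹ ((t : Equiv.Perm GolayPt) p) = p :=
          (t : Equiv.Perm GolayPt).symm_apply_apply p
        rw [e, hp]
      obtain ⟨l', hl', hl2⟩ := inv_complete _ ho hfp
      rw [List.mem_toFinset, List.mem_map]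
      exact ⟨l', hl', hl2⟩
    have h4 := sum_invol_eq_zero χ hχ (invT.map elT).toFinset hS2 hSn x
    rw [List.sum_toFinset _ elT_nodup, List.map_map] at h4
    exact h4
  rw [hsum, zero_sub] at h3
  have h5 := memLocalIdeal_neg h3
  rw [neg_neg] at h5
  exact h5

theorem parOK_spec (j : ℕ) (C : List (ℕ × ℕ × List ℕ)) (h : parOK j C = true) (i : ℕ)
    (hi : i < 8) : (C.map lab).count (i + 1) % 2 = if i = j then 1 else 0 := by
  unfold parOK at h
  exact Nat.eq_of_beq_eq_true (allLt_spec h i hi)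

theorem val_ring (M : Ideal AlgInt) (hM : IsPModular 2 M) (χ : IrrCharacter ↥M24)
    (g : ↥M24) : MemLocalRing M (χ.1 g) :=
  memLocalRing_of_isIntegral (isPModular_ne_top hM)
    (isCharacter_isIntegral (isCharacter_of_isIrrCharacter χ.2) g)

theorem val_of_cert (M : Ideal AlgInt) (hM : IsPModular 2 M) (χ : IrrCharacter ↥M24)
    (hχ : 2 ^ (Nat.card ↥M24).factorization 2 ∣ charDegree χ.1)
    (j : ℕ) (hj : j < 4) (cc : ℕ → List (ℕ × ℕ × List ℕ))
    (hok : ∀ i < 23, chkAll (repP j) (pkc i) (cc i) = true)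
    (hpar : parOK j ((List.range 23).flatMap cc) = true) :
    MemLocalIdeal M (χ.1 (xq j)) ∧ MemLocalIdeal M (χ.1 ((xq j)⁻¹)) := by
  have h1 : List.Forall₂ (fun P c => chk1 (repP j) P c = true) pkL
      ((List.range 23).flatMap cc) := by
    unfold pkL
    exact forall₂_flatMap_range _ pkc cc 23 (fun i hi => chkAll_spec _ _ _ (hok i hi))
  rw [← pkL_eq, List.forall₂_map_left_iff] at h1
  obtain ⟨hlen, hz⟩ := List.forall₂_iff_zip.mp h1
  have hA : List.Forall₂ (fun l c => lab c ≤ 8 ∧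
      (lab c = 0 → MemLocalIdeal M (χ.1 (elT l * xq j))) ∧
      (∀ i, lab c = i + 1 → χ.1 (elT l * xq j) = χ.1 (xq i))) invT
      ((List.range 23).flatMap cc) :=
    List.forall₂_iff_zip.mpr ⟨hlen, fun {l c} hmem => by
      obtain ⟨a, b, d⟩ := cert_sound M hM χ hχ j hj l (List.of_mem_zip hmem).1 c (hz hmem)
      exact ⟨a, fun h => (b h).1, fun i hi => (d i hi).1⟩⟩
  have hB : List.Forall₂ (fun l c => lab c ≤ 8 ∧
      (lab c = 0 → MemLocalIdeal M (χ.1 (elT l * (xq j)⁻¹))) ∧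
      (∀ i, lab c = i + 1 → χ.1 (elT l * (xq j)⁻¹) = χ.1 ((xq i)⁻¹))) invT
      ((List.range 23).flatMap cc) :=
    List.forall₂_iff_zip.mpr ⟨hlen, fun {l c} hmem => by
      obtain ⟨a, b, d⟩ := cert_sound M hM χ hχ j hj l (List.of_mem_zip hmem).1 c (hz hmem)
      exact ⟨a, fun h => (b h).2, fun i hi => (d i hi).2⟩⟩
  have r1 := rel_sum M hM χ hχ (xq j) (fun i => χ.1 (xq i)) _ hA
  have r2 := rel_sum M hM χ hχ (xq j)⁻¹ (fun i => χ.1 ((xq i)⁻¹)) _ hB
  exact ⟨odd_one hM 8 j (by omega)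
      (fun i => (((List.range 23).flatMap cc).map lab).count (i + 1)) (fun i => χ.1 (xq i))
      (fun i => val_ring M hM χ _) (fun i hi => parOK_spec j _ hpar i hi) r1,
    odd_one hM 8 j (by omega)
      (fun i => (((List.range 23).flatMap cc).map lab).count (i + 1))
      (fun i => χ.1 ((xq i)⁻¹))
      (fun i => val_ring M hM χ _) (fun i hi => parOK_spec j _ hpar i hi) r2⟩

/-- The second hypothesis of the criterion. -/
theorem H2_M24 (M : Ideal AlgInt) (hM : IsPModular 2 M) (χ : IrrCharacter ↥M24)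
    (hχ : 2 ^ (Nat.card ↥M24).factorization 2 ∣ charDegree χ.1) (w : ↥M24)
    (hw : ¬ 2 ∣ Nat.card (Subgroup.centralizer ({w} : Set ↥M24))) :
    MemLocalIdeal M (χ.1 w) := by
  obtain ⟨j, hj, u, hu⟩ := class_odd w hw
  have key : MemLocalIdeal M (χ.1 (xq j)) ∧ MemLocalIdeal M (χ.1 ((xq j)⁻¹)) := by
    interval_cases j
    · exact val_of_cert M hM χ hχ 0 (by norm_num) cc0 cert0_ok cert0_par
    · exact val_of_cert M hM χ hχ 1 (by norm_num) cc1 cert1_ok cert1_par
    · exact val_of_cert M hM χ hχ 2 (by norm_num) cc2 cert2_ok cert2_par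
    · exact val_of_cert M hM χ hχ 3 (by norm_num) cc3 cert3_ok cert3_par
  rcases hu with hu | hu
  · rw [class_val χ hu]; exact key.1
  · rw [class_val χ hu]; exact key.2

end Cfsg.Agent.Lib.helper27.B24
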