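import Cfsg.Agent.Lib.helper27.M24BlkT3
import Cfsg.Agent.Lib.helper27.M24BlkB

set_option autoImplicit false

/-! The group of the code has a single 2-block. -/

namespace Cfsg.Agent.Lib.helper27.B24

open Cfsg Cfsg.Agent.Lib.helper28 Cfsg.Agent.Lib.helper27 Cfsg.Agent.Lib.helper27.OF
open Cfsg.Agent.Lib.helper27.TB
open Cfsg.Agent.Lib.helper24 Cfsg.Agent.Lib.helper5 Cfsg.Agent.Lib.helper23
open scoped Pointwise

/-! ### Involutions with fixed points -/

theorem constr_2A (t : ↥M24)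
    (hO : (Finset.univ.filter fun q => (t : Equiv.Perm GolayPt) q = q) ∈ octads) : Constr t := by
  have htM : (t : Equiv.Perm GolayPt) ∈ M24 := t.2
  obtain ⟨O, hOdef⟩ : ∃ O : Finset GolayPt,
      O = Finset.univ.filter fun q => (t : Equiv.Perm GolayPt) q = q := ⟨_, rfl⟩
  rw [← hOdef] at hO
  have htO : (t : Equiv.Perm GolayPt) ∈ fixer O := by rw [hOdef]; exact mem_fixer_fix htM
  have hmemO : ∀ p : GolayPt, p ∈ O ↔ (t : Equiv.Perm GolayPt) p = p := by
    intro p; rw [hOdef, Finset.mem_filter]; simp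
  refine ⟨(fixer O).subgroupOf M24, ?_, ?_, ?_, ?_⟩
  · intro q hq
    rw [Subgroup.mem_subgroupOf] at hq
    exact Subtype.ext (fixer_comm hO hq htO)
  · intro q hq
    rw [Subgroup.mem_subgroupOf] at hq
    exact Subtype.ext ((octad_pointwise_stabilizer hO).2 _ hq)
  · intro c hc q hq
    rw [Subgroup.mem_subgroupOf] at hq ⊢
    obtain ⟨hqM, hqf⟩ := mem_fixer.mp hq
    rw [mem_fixer]
    refine ⟨(c * q * c⁻¹).2, ?_⟩
    intro p hp
    have hct : (c : Equiv.Perm GolayPt) * (t : Equiv.Perm GolayPt)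
        = (t : Equiv.Perm GolayPt) * (c : Equiv.Perm GolayPt) := congrArg Subtype.val hc
    have h1 : (t : Equiv.Perm GolayPt) ((c : Equiv.Perm GolayPt)⁻¹ p)
        = (c : Equiv.Perm GolayPt)⁻¹ p := by
      have e : (t : Equiv.Perm GolayPt) * (c : Equiv.Perm GolayPt)⁻¹
          = (c : Equiv.Perm GolayPt)⁻¹ * (t : Equiv.Perm GolayPt) := by
        calc (t : Equiv.Perm GolayPt) * (c : Equiv.Perm GolayPt)⁻¹
            = (c : Equiv.Perm GolayPt)⁻¹ * ((c : Equiv.Perm GolayPt) * (t : Equiv.Perm GolayPt))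
              * (c : Equiv.Perm GolayPt)⁻¹ := by group
          _ = (c : Equiv.Perm GolayPt)⁻¹ * ((t : Equiv.Perm GolayPt) * (c : Equiv.Perm GolayPt))
              * (c : Equiv.Perm GolayPt)⁻¹ := by rw [hct]
          _ = (c : Equiv.Perm GolayPt)⁻¹ * (t : Equiv.Perm GolayPt) := by group
      have e5 := congrArg (fun g : Equiv.Perm GolayPt => g p) e
      simp only [Equiv.Perm.mul_apply] at e5
      rw [e5, (hmemO p).mp hp]
    have h2 : (q : Equiv.Perm GolayPt) ((c : Equiv.Perm GolayPt)⁻¹ p)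
        = (c : Equiv.Perm GolayPt)⁻¹ p := hqf _ ((hmemO _).mpr h1)
    show ((c * q * c⁻¹ : ↥M24) : Equiv.Perm GolayPt) p = p
    rw [Subgroup.coe_mul, Subgroup.coe_mul, Subgroup.coe_inv, Equiv.Perm.mul_apply,
      Equiv.Perm.mul_apply, h2]
    exact Equiv.apply_symm_apply _ p
  · intro c hc hall
    rw [Subgroup.mem_subgroupOf]
    apply cent_fixer hO c.2
    intro q hq
    have hqM : q ∈ M24 := (mem_fixer.mp hq).1
    have hqQ : (⟨q, hqM⟩ : ↥M24) ∈ (fixer O).subgroupOf M24 := by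
      rw [Subgroup.mem_subgroupOf]; exact hq
    exact congrArg Subtype.val (hall _ hqQ)

/-! ### The fixed-point-free involution -/

/-- The tetrad of a point. -/
def tetF (p : GolayPt) : ℕ := B22.lk TP (idx p)

/-- The fixed-point-free involution as an element of the group. -/
noncomputable def uBM : ↥M24 := ⟨uB, uB_mem⟩

/-- Decomposition of the elements commuting with the fixed-point-free involution. -/
theorem K_dec (c : Equiv.Perm GolayPt) (hcM : c ∈ M24) (hc : c * uB = uB * c) :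
    ∃ q < 24, ∃ r ∈ cBR, B22.Tbl c (fun i => B22.lk (cBT.getD q 0) (B22.lk r i)) := by
  have hq := idx_lt (c (pt 0))
  have h := allLt_spec cBT_chk (idx (c (pt 0))) hq
  rw [Bool.and_eq_true, beq_iff_eq] at h
  obtain ⟨c', hcM', hct', hp', hc', _⟩ := cBchk_spec h.1
  have h0' : c' (pt 0) = c (pt 0) := by
    rw [apply_of_table hct' (by norm_num), h.2, pt_idx]
  have hdM : c'⁻¹ * c ∈ M24 := M24.mul_mem (M24.inv_mem hcM') hcM
  have hd : (c'⁻¹ * c) * uB = uB * (c'⁻¹ * c) := by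
    have h1 : c'⁻¹ * uB = uB * c'⁻¹ := by
      calc c'⁻¹ * uB = c'⁻¹ * (uB * c') * c'⁻¹ := by group
        _ = c'⁻¹ * (c' * uB) * c'⁻¹ := by rw [hc']
        _ = uB * c'⁻¹ := by group
    rw [mul_assoc, hc, ← mul_assoc, h1, mul_assoc]
  have hd0 : (c'⁻¹ * c) (pt 0) = pt 0 := by
    show c'⁻¹ (c (pt 0)) = pt 0
    rw [← h0']
    exact c'.symm_apply_apply _
  have hr := cB_pack hdM hd hd0
  refine ⟨idx (c (pt 0)), hq, _, hr, ?_⟩
  have e : c' * (c'⁻¹ * c) = c := by group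
  have T1 : B22.Tbl c' (B22.lk (cBT.getD (idx (c (pt 0))) 0)) := by
    have := B22.Tbl_pack c'
    rw [hp'] at this
    exact this
  have T2 := B22.Tbl_pack (c'⁻¹ * c)
  have T3 := B22.Tbl_mul T1 T2
  rw [e] at T3
  exact T3

theorem K_facts (c : ↥M24)
    (hc : (c : Equiv.Perm GolayPt) * uB = uB * (c : Equiv.Perm GolayPt)) :
    ∃ f : ℕ → ℕ, B22.Tbl (c : Equiv.Perm GolayPt) f ∧ kOK f = true := by
  obtain ⟨q, hq, r, hr, hT⟩ := K_dec _ c.2 hc
  exact ⟨_, hT, List.all_eq_true.mp (K_chk q hq) r hr⟩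

theorem tetF_of_Tbl {c : Equiv.Perm GolayPt} {f : ℕ → ℕ} (hT : B22.Tbl c f) (p : GolayPt) :
    tetF (c p) = B22.lk TP (f (idx p)) := by
  unfold tetF
  have := hT (idx p) (idx_lt p)
  rw [pt_idx] at this
  rw [this]

theorem fixT_iff {c : Equiv.Perm GolayPt} {f : ℕ → ℕ} (hT : B22.Tbl c f) :
    fixT f = true ↔ ∀ p, tetF (c p) = tetF p := by
  constructor
  · intro h p
    rw [tetF_of_Tbl hT p]
    exact Nat.eq_of_beq_eq_true (allLt_spec h (idx p) (idx_lt p))
  · intro h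
    apply allLt_of_forall'
    intro i hi
    have h1 := h (pt i)
    rw [tetF_of_Tbl hT (pt i)] at h1
    unfold tetF at h1
    rw [idx_pt hi] at h1
    rw [h1]; exact Nat.beq_refl _

theorem tet_congr {c : Equiv.Perm GolayPt} {f : ℕ → ℕ} (hT : B22.Tbl c f)
    (hperm : permT f = true) (a b : GolayPt) (hab : tetF a = tetF b) :
    tetF (c a) = tetF (c b) := by
  have key : ∀ p : GolayPt, tetF (c p) = B22.lk TP (f (B22.lk RP (tetF p))) := by
    intro p
    rw [tetF_of_Tbl hT p]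
    exact Nat.eq_of_beq_eq_true (allLt_spec hperm (idx p) (idx_lt p))
  rw [key a, key b, hab]

/-- The normal subgroup of the centralizer of the fixed-point-free involution. -/
noncomputable def QB : Subgroup ↥M24 where
  carrier := {g | (g : Equiv.Perm GolayPt) * uB = uB * (g : Equiv.Perm GolayPt) ∧
    ∀ p, tetF ((g : Equiv.Perm GolayPt) p) = tetF p}
  mul_mem' := by
    rintro a b ⟨ha, ha'⟩ ⟨hb, hb'⟩
    refine ⟨?_, ?_⟩
    · show ((a * b : ↥M24) : Equiv.Perm GolayPt) * uB = uB * ((a * b : ↥M24) : Equiv.Perm GolayPt)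
      rw [Subgroup.coe_mul, mul_assoc, hb, ← mul_assoc, ha, mul_assoc]
    · intro p
      show tetF (((a * b : ↥M24) : Equiv.Perm GolayPt) p) = tetF p
      rw [Subgroup.coe_mul, Equiv.Perm.mul_apply, ha', hb']
  one_mem' := by
    refine ⟨?_, ?_⟩
    · show ((1 : ↥M24) : Equiv.Perm GolayPt) * uB = uB * ((1 : ↥M24) : Equiv.Perm GolayPt)
      rw [Subgroup.coe_one, one_mul, mul_one]
    · intro p
      show tetF (((1 : ↥M24) : Equiv.Perm GolayPt) p) = tetF p
      rw [Subgroup.coe_one]; rfl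
  inv_mem' := by
    rintro a ⟨ha, ha'⟩
    refine ⟨?_, ?_⟩
    · show ((a⁻¹ : ↥M24) : Equiv.Perm GolayPt) * uB = uB * ((a⁻¹ : ↥M24) : Equiv.Perm GolayPt)
      rw [Subgroup.coe_inv]
      calc (a : Equiv.Perm GolayPt)⁻¹ * uB
          = (a : Equiv.Perm GolayPt)⁻¹ * (uB * (a : Equiv.Perm GolayPt))
            * (a : Equiv.Perm GolayPt)⁻¹ := by group
        _ = (a : Equiv.Perm GolayPt)⁻¹ * ((a : Equiv.Perm GolayPt) * uB)
            * (a : Equiv.Perm GolayPt)⁻¹ := by rw [ha]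
        _ = uB * (a : Equiv.Perm GolayPt)⁻¹ := by group
    · intro p
      show tetF (((a⁻¹ : ↥M24) : Equiv.Perm GolayPt) p) = tetF p
      rw [Subgroup.coe_inv]
      have h1 := ha' ((a : Equiv.Perm GolayPt)⁻¹ p)
      have h2 : (a : Equiv.Perm GolayPt) ((a : Equiv.Perm GolayPt)⁻¹ p) = p :=
        Equiv.apply_symm_apply _ p
      rw [h2] at h1
      exact h1.symm

theorem QB_sq (q : ↥M24) (hq : q ∈ QB) : q * q = 1 := by
  obtain ⟨hcomm, htet⟩ := hq
  obtain ⟨f, hT, hk⟩ := K_facts q hcomm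
  unfold kOK at hk
  rw [Bool.and_eq_true] at hk
  have hfix : fixT f = true := (fixT_iff hT).mpr htet
  rw [hfix] at hk
  have hsq : sqF f = true := by simpa using hk.2
  apply Subtype.ext
  rw [Subgroup.coe_mul]
  apply B22.Tbl_ext (B22.Tbl_mul hT hT) B22.Tbl_one
  intro i hi
  exact Nat.eq_of_beq_eq_true (allLt_spec hsq i hi)

theorem QB_norm (c : ↥M24) (hc : c * uBM = uBM * c) (q : ↥M24) (hq : q ∈ QB) :
    c * q * c⁻¹ ∈ QB := by
  obtain ⟨hcomm, htet⟩ := hq
  have hcu : (c : Equiv.Perm GolayPt) * uB = uB * (c : Equiv.Perm GolayPt) :=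
    congrArg Subtype.val hc
  obtain ⟨f, hT, hk⟩ := K_facts c hcu
  unfold kOK at hk
  rw [Bool.and_eq_true] at hk
  refine ⟨?_, ?_⟩
  · show ((c * q * c⁻¹ : ↥M24) : Equiv.Perm GolayPt) * uB
      = uB * ((c * q * c⁻¹ : ↥M24) : Equiv.Perm GolayPt)
    rw [Subgroup.coe_mul, Subgroup.coe_mul, Subgroup.coe_inv]
    have hci : (c : Equiv.Perm GolayPt)⁻¹ * uB = uB * (c : Equiv.Perm GolayPt)⁻¹ := by
      calc (c : Equiv.Perm GolayPt)⁻¹ * uB
          = (c : Equiv.Perm GolayPt)⁻¹ * (uB * (c : Equiv.Perm GolayPt))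
            * (c : Equiv.Perm GolayPt)⁻¹ := by group
        _ = (c : Equiv.Perm GolayPt)⁻¹ * ((c : Equiv.Perm GolayPt) * uB)
            * (c : Equiv.Perm GolayPt)⁻¹ := by rw [hcu]
        _ = uB * (c : Equiv.Perm GolayPt)⁻¹ := by group
    calc (c : Equiv.Perm GolayPt) * (q : Equiv.Perm GolayPt) * (c : Equiv.Perm GolayPt)⁻¹ * uB
        = (c : Equiv.Perm GolayPt) * (q : Equiv.Perm GolayPt)
          * ((c : Equiv.Perm GolayPt)⁻¹ * uB) := by group
      _ = (c : Equiv.Perm GolayPt) * (q : Equiv.Perm GolayPt)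
          * (uB * (c : Equiv.Perm GolayPt)⁻¹) := by rw [hci]
      _ = (c : Equiv.Perm GolayPt) * ((q : Equiv.Perm GolayPt) * uB)
          * (c : Equiv.Perm GolayPt)⁻¹ := by group
      _ = (c : Equiv.Perm GolayPt) * (uB * (q : Equiv.Perm GolayPt))
          * (c : Equiv.Perm GolayPt)⁻¹ := by rw [hcomm]
      _ = ((c : Equiv.Perm GolayPt) * uB) * (q : Equiv.Perm GolayPt)
          * (c : Equiv.Perm GolayPt)⁻¹ := by group
      _ = (uB * (c : Equiv.Perm GolayPt)) * (q : Equiv.Perm GolayPt)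
          * (c : Equiv.Perm GolayPt)⁻¹ := by rw [hcu]
      _ = uB * ((c : Equiv.Perm GolayPt) * (q : Equiv.Perm GolayPt)
          * (c : Equiv.Perm GolayPt)⁻¹) := by group
  · intro p
    show tetF (((c * q * c⁻¹ : ↥M24) : Equiv.Perm GolayPt) p) = tetF p
    rw [Subgroup.coe_mul, Subgroup.coe_mul, Subgroup.coe_inv, Equiv.Perm.mul_apply,
      Equiv.Perm.mul_apply]
    have h1 := tet_congr hT hk.1 ((q : Equiv.Perm GolayPt) ((c : Equiv.Perm GolayPt)⁻¹ p))
      ((c : Equiv.Perm GolayPt)⁻¹ p) (htet _)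
    have h2 : (c : Equiv.Perm GolayPt) ((c : Equiv.Perm GolayPt)⁻¹ p) = p :=
      Equiv.apply_symm_apply _ p
    rw [h1, h2]

theorem QB_self (c : ↥M24) (hc : c * uBM = uBM * c) (hall : ∀ q ∈ QB, c * q = q * c) :
    c ∈ QB := by
  have hcu : (c : Equiv.Perm GolayPt) * uB = uB * (c : Equiv.Perm GolayPt) :=
    congrArg Subtype.val hc
  obtain ⟨f, hT, hk⟩ := K_facts c hcu
  unfold kOK at hk
  rw [Bool.and_eq_true] at hk
  refine ⟨hcu, ?_⟩
  by_contra hne
  have hfix : fixT f = false := by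
    by_contra h
    rw [Bool.not_eq_false] at h
    exact hne ((fixT_iff hT).mp h)
  rw [hfix] at hk
  have hany : QGP.any (fun a => ncomm f a) = true := by simpa using hk.2
  rw [List.any_eq_true] at hany
  obtain ⟨a, ha, hnc⟩ := hany
  have hQ := List.all_eq_true.mp QG_ok a ha
  rw [Bool.and_eq_true] at hQ
  obtain ⟨g, hgM, hgt, hp, hgu, -⟩ := cBchk_spec hQ.1
  have hTg : B22.Tbl g (B22.lk a) := by
    have := B22.Tbl_pack g
    rw [hp] at this
    exact this
  have hgQ : (⟨g, hgM⟩ : ↥M24) ∈ QB := ⟨hgu, (fixT_iff hTg).mp hQ.2⟩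
  have hcg : (c : Equiv.Perm GolayPt) * g = g * (c : Equiv.Perm GolayPt) :=
    congrArg Subtype.val (hall _ hgQ)
  unfold ncomm at hnc
  rw [Bool.not_eq_true'] at hnc
  have hcomm : allLt (fun i => Nat.beq (f (B22.lk a i)) (B22.lk a (f i))) 24 = true := by
    apply allLt_of_forall'
    intro i hi
    have e1 : idx (((c : Equiv.Perm GolayPt) * g) (pt i)) = f (B22.lk a i) :=
      B22.Tbl_mul hT hTg i hi
    have e2 : idx ((g * (c : Equiv.Perm GolayPt)) (pt i)) = B22.lk a (f i) :=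
      B22.Tbl_mul hTg hT i hi
    rw [hcg] at e1
    rw [← e1, e2]
    exact Nat.beq_refl _
  rw [hcomm] at hnc
  exact absurd hnc (by decide)

theorem constr_2B : Constr uBM :=
  ⟨QB, fun q hq => Subtype.ext hq.1, QB_sq, QB_norm, QB_self⟩

/-! ### The main theorem -/

theorem constr_invol (t : ↥M24) (ht : orderOf t = 2) : Constr t := by
  have hord : orderOf (t : Equiv.Perm GolayPt) = 2 := by rw [Subgroup.orderOf_coe]; exact ht
  rcases inv_normal (t : Equiv.Perm GolayPt) t.2 hord with ⟨-, k, hk, hkt⟩ | ⟨hO, -⟩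
  · have e : t = (⟨k, hk⟩ : ↥M24)⁻¹ * uBM * ((⟨k, hk⟩ : ↥M24)⁻¹)⁻¹ := by
      apply Subtype.ext
      rw [Subgroup.coe_mul, Subgroup.coe_mul, Subgroup.coe_inv, Subgroup.coe_inv,
        Subgroup.coe_inv]
      show (t : Equiv.Perm GolayPt) = k⁻¹ * uB * k⁻¹⁻¹
      rw [← hkt]; group
    rw [e]
    exact constr_conj _ _ constr_2B
  · exact constr_2A t hO

/-- The first hypothesis of the criterion: the centralizers of involutions have a single
2-block. -/
theorem H1_M24 (M : Ideal AlgInt) (hM : IsPModular 2 M) (t : ↥M24) (ht : orderOf t = 2)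
    (ξ : IrrCharacter ↥(Subgroup.centralizer
      ((Subgroup.zpowers t : Subgroup ↥M24) : Set ↥M24))) :
    ξ ∈ principalBlock M ↥(Subgroup.centralizer
      ((Subgroup.zpowers t : Subgroup ↥M24) : Set ↥M24)) :=
  principal_of_constr M hM t (constr_invol t ht) ξ

/-- Every irreducible character lies in the principal 2-block. -/
theorem principal_M24 (M : Ideal AlgInt) (hM : IsPModular 2 M) (χ : IrrCharacter ↥M24) :
    χ ∈ principalBlock M ↥M24 :=
  criterion M hM (fun t ht ξ => H1_M24 M hM t ht ξ) (fun χ hχ w hw => H2_M24 M hM χ hχ w hw) χ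

end Cfsg.Agent.Lib.helper27.B24
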