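import Cfsg.Agent.Lib.helper28.GolaySimple
import Cfsg.Agent.Lib.helper28.GolayOctad
import Cfsg.Agent.Lib.helper27.GolayInv

set_option autoImplicit false

/-! The pointwise stabilizer of an octad is self-centralizing in the group of the code. -/

namespace Cfsg.Agent.Lib.helper27.OF

open Cfsg Cfsg.Agent.Lib.helper28 Cfsg.Agent.Lib.helper27
open scoped Pointwise

/-- The non-identity elements fixing the base octad pointwise. -/
def E0nz : List (List ℕ) :=
  [[0, 1, 2, 3, 4, 6, 5, 7, 18, 14, 10, 23, 12, 15, 9, 13, 21, 22, 8, 20, 19, 16, 17, 11],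
   [0, 1, 2, 3, 4, 8, 18, 7, 5, 20, 10, 13, 12, 11, 19, 23, 17, 16, 6, 14, 9, 22, 21, 15],
   [0, 1, 2, 3, 4, 9, 14, 7, 20, 5, 10, 17, 12, 16, 6, 21, 13, 11, 19, 18, 8, 15, 23, 22],
   [0, 1, 2, 3, 4, 11, 23, 7, 13, 17, 10, 5, 12, 8, 22, 18, 20, 9, 15, 21, 16, 19, 14, 6],
   [0, 1, 2, 3, 4, 13, 15, 7, 11, 16, 10, 8, 12, 5, 21, 6, 9, 20, 23, 22, 17, 14, 19, 18],
   [0, 1, 2, 3, 4, 14, 9, 7, 19, 6, 10, 22, 12, 21, 5, 16, 15, 23, 20, 8, 18, 13, 11, 17],
   [0, 1, 2, 3, 4, 15, 13, 7, 23, 21, 10, 18, 12, 6, 16, 5, 14, 19, 11, 17, 22, 9, 20, 8],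
   [0, 1, 2, 3, 4, 16, 21, 7, 17, 13, 10, 20, 12, 9, 15, 14, 5, 8, 22, 23, 11, 6, 18, 19],
   [0, 1, 2, 3, 4, 17, 22, 7, 16, 11, 10, 9, 12, 20, 23, 19, 8, 5, 21, 15, 13, 18, 6, 14],
   [0, 1, 2, 3, 4, 18, 8, 7, 6, 19, 10, 15, 12, 23, 20, 11, 22, 21, 5, 9, 14, 17, 16, 13],
   [0, 1, 2, 3, 4, 19, 20, 7, 14, 18, 10, 21, 12, 22, 8, 17, 23, 15, 9, 5, 6, 11, 13, 16],
   [0, 1, 2, 3, 4, 20, 19, 7, 9, 8, 10, 16, 12, 17, 18, 22, 11, 13, 14, 6, 5, 23, 15, 21],
   [0, 1, 2, 3, 4, 21, 16, 7, 22, 15, 10, 19, 12, 14, 13, 9, 6, 18, 17, 11, 23, 5, 8, 20],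
   [0, 1, 2, 3, 4, 22, 17, 7, 21, 23, 10, 14, 12, 19, 11, 20, 18, 6, 16, 13, 15, 8, 5, 9],
   [0, 1, 2, 3, 4, 23, 11, 7, 15, 22, 10, 6, 12, 18, 17, 8, 19, 14, 13, 16, 21, 20, 9, 5]]

theorem E0_all : chainAll (fun l => l == idTab || E0nz.contains l) octChainB idTab = true := by
  decide +kernel

theorem E0_trans : allLt (fun y => o0.testBit y ||
    E0nz.any (fun l => tabIn octInv6 l && l.getD 5 0 == y) || y == 5) 24 = true := by
  decide +kernel

theorem fixer_o0_table {g : Equiv.Perm GolayPt} (hg : g ∈ fixer (setOf o0)) :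
    g = 1 ∨ ∃ l ∈ E0nz, IsTable g l := by
  rw [fixer_o0_eq] at hg
  obtain ⟨l, hl, hQ⟩ := chainAll_sound _ octChainB octInv6 idTab 1 isTable_one octChainB_ok
    oct_final_bot E0_all g hg
  rw [one_mul] at hl
  rw [Bool.or_eq_true, beq_iff_eq, List.contains_iff_mem] at hQ
  rcases hQ with h | h
  · left
    rw [h] at hl
    exact eq_of_isTable hl isTable_one
  · exact Or.inr ⟨l, h, hl⟩

theorem fixer_o0_trans (y : GolayPt) (hy : y ∉ setOf o0) :
    ∃ e ∈ fixer (setOf o0), e (pt 5) = y := by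
  have h := allLt_spec E0_trans (idx y) (idx_lt y)
  rw [mem_setOf] at hy
  rw [Bool.or_eq_true, Bool.or_eq_true] at h
  rcases h with (h | h) | h
  · exact absurd h hy
  · rw [List.any_eq_true] at h
    obtain ⟨l, -, hl⟩ := h
    rw [Bool.and_eq_true, beq_iff_eq] at hl
    obtain ⟨hl1, hl2⟩ := hl
    refine ⟨tp octInv6 l hl1, ?_, ?_⟩
    · rw [fixer_o0_eq]; exact tp_mem _ _ _
    · have := isTable_tp octInv6 l hl1 (pt 5)
      rw [idx_pt (by norm_num), hl2] at this
      rw [← pt_idx (tp octInv6 l hl1 (pt 5)), ← this, pt_idx]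
  · rw [beq_iff_eq] at h
    refine ⟨1, Subgroup.one_mem _, ?_⟩
    rw [← pt_idx y, h]; rfl

theorem fixer_o0_comm {a b : Equiv.Perm GolayPt} (ha : a ∈ fixer (setOf o0))
    (hb : b ∈ fixer (setOf o0)) : a * b = b * a := by
  have h1 := sq_eq_one_of_mem_fixer_o0 ha
  have h2 := sq_eq_one_of_mem_fixer_o0 hb
  have h3 := sq_eq_one_of_mem_fixer_o0 ((fixer (setOf o0)).mul_mem ha hb)
  have ha' : a⁻¹ = a := inv_eq_of_mul_eq_one_left h1
  have hb' : b⁻¹ = b := inv_eq_of_mul_eq_one_left h2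
  have h4 : (a * b)⁻¹ = a * b := inv_eq_of_mul_eq_one_left h3
  rw [mul_inv_rev, ha', hb'] at h4
  exact h4.symm

/-- Propagation certificate from the complement of the base octad. -/
def cSteps : List (ℕ × ℕ) := [(31554, 168928), (15777, 39257), (15777, 69395), (15777, 18147), (18147, 31554), (5279, 36294), (5279, 69395), (5279, 10558)]

theorem cSteps_ok : propRun 16771936 cSteps = some (2 ^ 24 - 1) := by decide +kernel

theorem compl_bits : allLt (fun i => (16771936 : ℕ).testBit i == !o0.testBit i) 24 = true := by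
  decide +kernel

/-- An element of the group of the code centralizing the pointwise stabilizer of the base octad
lies in it. -/
theorem cent_fixer_o0 {c : Equiv.Perm GolayPt} (hc : c ∈ M24)
    (hcomm : ∀ q ∈ fixer (setOf o0), c * q = q * c) : c ∈ fixer (setOf o0) := by
  have h5 : (pt 5 : GolayPt) ∉ setOf o0 := by rw [mem_setOf, idx_pt (by norm_num)]; decide
  have h6 : (pt 6 : GolayPt) ∉ setOf o0 := by rw [mem_setOf, idx_pt (by norm_num)]; decide
  have hfix : ∀ e ∈ fixer (setOf o0), ∀ p ∈ setOf o0, e p = p := fun e he => (mem_fixer.mp he).2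
  have h1 : c (pt 5) ∉ setOf o0 := by
    intro hin
    obtain ⟨e, he, he5⟩ := fixer_o0_trans (pt 6) h6
    have h := congrArg (fun f : Equiv.Perm GolayPt => f (pt 5)) (hcomm e he)
    simp only [Equiv.Perm.mul_apply] at h
    rw [hfix e he _ hin, he5] at h
    have := c.injective h
    revert this; decide
  obtain ⟨e₁, he₁, he₁5⟩ := fixer_o0_trans (c (pt 5)) h1
  obtain ⟨g, hg⟩ : ∃ g : Equiv.Perm GolayPt, g = e₁⁻¹ * c := ⟨_, rfl⟩
  have hgM : g ∈ M24 := by
    rw [hg]; exact M24.mul_mem (M24.inv_mem (mem_fixer.mp he₁).1) hc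
  have hg5 : g (pt 5) = pt 5 := by
    rw [hg, Equiv.Perm.mul_apply, ← he₁5]; exact e₁.symm_apply_apply (pt 5)
  have hgcomm : ∀ q ∈ fixer (setOf o0), g * q = q * g := by
    intro q hq
    have hq1 : e₁⁻¹ * q = q * e₁⁻¹ :=
      fixer_o0_comm ((fixer (setOf o0)).inv_mem he₁) hq
    rw [hg, mul_assoc, hcomm q hq, ← mul_assoc, hq1, mul_assoc]
  have hF : FixesMask g 16771936 := by
    intro p hp
    have hb := allLt_spec compl_bits (idx p) (idx_lt p)
    rw [hp] at hb
    have hp' : p ∉ setOf o0 := by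
      rw [mem_setOf]
      intro h
      rw [h] at hb
      exact absurd hb (by decide)
    obtain ⟨e, he, he5⟩ := fixer_o0_trans p hp'
    have h := congrArg (fun f : Equiv.Perm GolayPt => f (pt 5)) (hgcomm e he)
    simp only [Equiv.Perm.mul_apply] at h
    rw [he5, hg5, he5] at h
    exact h
  have hg1 : g = 1 := eq_one_of_propRun hgM cSteps (by norm_num) hF cSteps_ok
  have : c = e₁ := by
    rw [hg] at hg1
    have h := congrArg (fun f => e₁ * f) hg1
    simp only [mul_one] at h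
    rw [← h]; group
  rw [this]; exact he₁

/-- An element of the group of the code centralizing the pointwise stabilizer of an octad lies in
it. -/
theorem cent_fixer {o : Finset GolayPt} (ho : o ∈ octads) {c : Equiv.Perm GolayPt} (hc : c ∈ M24)
    (hcomm : ∀ q ∈ fixer o, c * q = q * c) : c ∈ fixer o := by
  obtain ⟨a, ha, rfl⟩ := exists_smul_o0_eq ho
  rw [mem_fixer_smul_iff ha]
  apply cent_fixer_o0 (M24.mul_mem (M24.mul_mem (M24.inv_mem ha) hc) ha)
  intro q hq
  have hq' : a * q * a⁻¹ ∈ fixer (a • setOf o0) := by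
    rw [mem_fixer_smul_iff ha]
    have : a⁻¹ * (a * q * a⁻¹) * a = q := by group
    rw [this]; exact hq
  have h := hcomm _ hq'
  calc a⁻¹ * c * a * q = a⁻¹ * (c * (a * q * a⁻¹)) * a := by group
    _ = a⁻¹ * ((a * q * a⁻¹) * c) * a := by rw [h]
    _ = q * (a⁻¹ * c * a) := by group

theorem fixer_comm {o : Finset GolayPt} (ho : o ∈ octads) {a b : Equiv.Perm GolayPt}
    (ha : a ∈ fixer o) (hb : b ∈ fixer o) : a * b = b * a := by
  have hsq := (octad_pointwise_stabilizer ho).2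
  have h1 := hsq a ha
  have h2 := hsq b hb
  have h3 := hsq _ ((fixer o).mul_mem ha hb)
  have ha' : a⁻¹ = a := inv_eq_of_mul_eq_one_left h1
  have hb' : b⁻¹ = b := inv_eq_of_mul_eq_one_left h2
  have h4 : (a * b)⁻¹ = a * b := inv_eq_of_mul_eq_one_left h3
  rw [mul_inv_rev, ha', hb'] at h4
  exact h4.symm

/-- The fixed points of an involution with a fixed point form an octad. -/
theorem fix_octad {t : Equiv.Perm GolayPt} (ht : t ∈ M24) (hord : orderOf t = 2) (p : GolayPt)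
    (hp : t p = p) : (Finset.univ.filter fun q => t q = q) ∈ octads := by
  rcases m24_involutions.1 t ht hord with h | h
  · exact h
  · exact absurd hp (h p)

theorem mem_fixer_fix {t : Equiv.Perm GolayPt} (ht : t ∈ M24) :
    t ∈ fixer (Finset.univ.filter fun q => t q = q) := by
  rw [mem_fixer]
  exact ⟨ht, fun p hp => (Finset.mem_filter.mp hp).2⟩

end Cfsg.Agent.Lib.helper27.OF
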