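import Cfsg.Agent.Lib.helper27.CentSearch
import Cfsg.Agent.Lib.helper27.GolayTrio

set_option autoImplicit false

namespace Cfsg.Agent.Lib.helper27

open Cfsg Cfsg.Agent.Lib.helper28
open scoped Pointwise

/-! The normaliser and the centraliser of an element of order 7 of the group of the length-24
code. -/

/-- Table of an element of order 7. -/
def tE7 : List ℕ := [6, 3, 2, 21, 1, 5, 16, 12, 7, 19, 8, 9, 17, 15, 13, 11, 4, 22, 10, 20, 14, 0, 18, 23]

theorem tE7_in : tabIn [] tE7 = true := by decide +kernel

/-- The element of order 7. -/
noncomputable def e7 : Equiv.Perm GolayPt := (tabIn_spec tE7_in).choose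

theorem e7_mem : e7 ∈ M24 := (tabIn_spec tE7_in).choose_spec.1.1

theorem e7_table : IsTable e7 tE7 := (tabIn_spec tE7_in).choose_spec.2

theorem e7_pow : e7 ^ 7 = 1 := pow_eq_one_of_powTab e7_table 7 (by decide +kernel)

theorem e7_ne : e7 ≠ 1 := ne_one_of_table e7_table (i := 0) (by norm_num) (by decide)

/-- Membership in a list of numbers. -/
def memN : List ℕ → ℕ → Bool
  | [], _ => false
  | a :: l, x => Nat.beq a x || memN l x

theorem memN_spec : ∀ (l : List ℕ) (x : ℕ), memN l x = true → x ∈ l
  | [], _, h => by simp [memN] at h
  | a :: l, x, h => by
    unfold memN at h
    rw [Bool.or_eq_true, natBeq_eq, beq_iff_eq] at h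
    rcases h with h | h
    · rw [h]; exact List.mem_cons_self
    · exact List.mem_cons_of_mem _ (memN_spec l x h)

/-- Packed tables of the powers. -/
def c7Pk : ℕ → ℕ
  | 0 => 984818244535754528103549039458486304
  | 1 => 978766510459594708251448298497017958
  | 2 => 968623797688358402946156788819430064
  | 3 => 966435791593649012994445842222090244
  | 4 => 964645954308414653318056378267863233
  | 5 => 971011943291848087713364649930000899
  | _ => 977596047671616058656642491031259285

/-- The value at index `v` of the table of the `k`-th power. -/
def c7V (k v : ℕ) : ℕ := Nat.land (Nat.shiftRight (c7Pk k) (Nat.mul 5 v)) 31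

/-- Base points of the search. -/
def c7B : List ℕ := [0, 7, 9, 2, 5, 23]

/-- Origins of the entries of the table. -/
def c7Src : List (ℕ × ℕ) := [(0, 0), (0, 4), (3, 0), (0, 5), (0, 3), (4, 0), (0, 1), (1, 0), (1, 6), (2, 0), (1, 5), (2, 6), (1, 1), (2, 4), (2, 3), (2, 5), (0, 2), (1, 2), (1, 4), (2, 1), (2, 2), (0, 6), (1, 3), (5, 0)]

/-- Levels of the search. -/
def c7Levels : List SLevel :=
  [(false, 16777215, [0, 1, 2, 3, 4, 5, 6], []),
   (false, 16777215, [0, 1, 2, 3, 4, 5, 6], [152371331064224532234400, 226748712557634268528640]),
   (false, 16777215, [0, 1, 2, 3, 4, 5, 6], [191294107602694789300224, 75781711770099409616896]),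
   (true, 16777215, [0], [39145145077541100453888, 191479690810206212590720]),
   (true, 16777215, [0], [153700794768340511886464, 153515175704726028161024]),
   (true, 16777215, [0], [6126806180554554215424, 5941222938954885660800])]

/-- Mask of the fixed points. -/
def c7FY : ℕ := 8388644

/-- The value at index `v` of the table of the `j`-th power of the `k`-th power. -/
def c7Y (k j v : ℕ) : ℕ := c7V (Nat.mod (Nat.mul k j) 7) v

theorem c7Y_ok : allLt (fun k => allLt (fun j => allLt (fun v =>
    (powTab (powTab tE7 k) j).getD v 0 == c7Y k j v) 24) 7) 7 = true := by
  decide +kernel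

theorem c7_FY : allLt (fun k => k == 0 || allLt (fun v =>
    Nat.testBit c7FY v == Nat.beq (c7Y k 1 v) v) 24) 7 = true := by
  decide +kernel

theorem c7_full : c7Levels.all (fun L => L.2.1 == 16777215) = true := by decide +kernel

theorem c7_spec : specLevels tE7 c7B 7 c7Levels 0 [] = true := by decide +kernel

theorem c7_src : srcOK tE7 c7B 7 c7Src = true := by decide +kernel

/-- Packed tables of the normaliser. -/
def c7RN : List ℕ := [83625939685522232421465391023920427, 83860634583305627801840392765609263, 83911743599743905194798305007736110, 84836529961684884868835197663548841, 85005249885156861661507138333808052, 85156436401378112000565504020682158, 87358107235258902343868446653388275, 87445410672926476162422410921514478, 87791538637653666969600023947679213, 88647681943668734796487114869937620, 88812314942343731222386610569254355, 88886711230778862321178263144535499, 91446511873528528524911115555706477, 91502036775177791639796751760037481, 91687309816781076353004808774850155, 94821835190636379715591966605990933, 95015975119540026917837286804610051, 95432167946475206433060080288226308, 97378679216057573565861140749246113, 97533378137617545865162063659359907,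 97627528488635769477771723248000688, 100095379059575604562464287070837808, 100205972091749441526414121464683556, 100819083966663436186129096740297760, 101263356087422932861500482337758352, 101306290007961552842032248647605382, 101380690540935246984055086437686421, 102569902510735530383260018875751526, 103206181449029531674409585833172065, 103427954880770194546134481398946916, 104315642589077323074390953272186515, 104383822361411089541863908547434127, 104423615839754838329136538222696073, 107890235712965375932670876107037888, 107915833783713724777894423216807105, 108400030638817716943173061354577109, 109089354260891488906993694947827203, 109210252575327733771661617728773632, 109913602828629195573415027746594310, 110724492215624570930513918145533293, 110919751923415321558506078838822255, 111135601693487009665356581160916340, 217373055996248225701892594954013293, 217388789055568066736155772998584937, 217589871829299713921089376949340779, 218609134564200888883000522416195883, 218874482016983638022748993478887727, 218891616079312680962106363139950894, 219685767142403547935094650032577810, 219865186637880832803770237725170961, 220272301942790535447749768226692362, 221041762024397002357384449796540781,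 221260815907307283997982738670520687, 221444784775176158609808731302824308, 222256082292085708042900111007964492, 222299268019115071890069200128499030, 222680599077001338966283180526787922, 223718966898741790135291951009139347, 223796960789218113912334798063864463, 223844331003091214705276946954422921, 224850926109862847508405160828559057, 224993026543120108992283356100648648, 225302932265279915918171081179127500, 226216111492946804932125753362439724, 226602702871050185356338108268502570, 226777752202207413422123875643448871, 227493224683858139532090682972134983, 227569928924607695348033240308276817, 227658214882220575034900926124285526, 230150902206856756784053470581197268, 230306890206288535906507291006110163, 230375241903811835805963764824967627, 231428011253570386356750643795167731, 231504706009087968393858449726376430, 231876954972404057872026238844176877, 232842239788046091517058756549106922, 233071650970471634450657279776021750, 233087370424540290012680040871419112, 234062984697456188711969075850075527, 234350620285158844583563101949222280, 234546634628351971436074129939815826, 236716263133579168368887691206953385, 236863890841768496410879079376062900, 237020370325837725309233892767926702,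 955681313548366873936025666297992466, 955888937805485863597847941526820113, 956293567713338908688190433627870474, 956976679611935936572470013811037905, 957112453940316917409650805275432648, 957429053242991358804760358056859340, 959619928614405833387396765451621959, 959699348857446037768595954826876497, 959788143724657294650001536048174678, 960913900480873180928735876392490540, 961329529328698023544140011181643306, 961493292901985999284111868439041575, 963669812303997703122573517168121066, 963875227372452865813837755428771062, 963918511534667365034570783971120360, 964608129103482726050920640445286592, 964645954308414653318056378267863233, 965130165167287966116772390148081877, 965826295839863409417567763399444501, 966025368959181363139676903783303171, 966435791593649012994445842222090244, 968383153056680565508693977198627489, 968551342469050877566057656335141539, 968623797688358402946156788819430064, 971011943291848087713364649930000899, 971146385250731902433820555502848512, 971830970653802322012356693119240710, 976577028212964848090009743485769095, 976866037797226636869581630991570312, 977056085231501545871974195405559186, 977464365338537330845676961079068816, 977516405971684943388140921880053894,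 977596047671616058656642491031259285, 978766510459594708251448298497017958, 979421526626216642191936410653558881, 979616670149770029198133234722408548, 982943168410119192566833026437485900, 982986472050965632406031504926872918, 983357499424542708227702113370871122, 984080140993898682198425504990824496, 984195659518282143899147363194406948, 984818244535754528103549039458486304]

/-- Packed tables of the centraliser. -/
def c7RC : List ℕ := [83911743599743905194798305007736110, 84836529961684884868835197663548841, 87358107235258902343868446653388275, 88886711230778862321178263144535499, 91446511873528528524911115555706477, 95432167946475206433060080288226308, 97627528488635769477771723248000688, 100819083966663436186129096740297760, 101380690540935246984055086437686421, 102569902510735530383260018875751526, 104383822361411089541863908547434127, 107915833783713724777894423216807105, 109089354260891488906993694947827203, 111135601693487009665356581160916340, 217373055996248225701892594954013293, 218891616079312680962106363139950894, 219865186637880832803770237725170961, 221444784775176158609808731302824308, 222256082292085708042900111007964492, 223796960789218113912334798063864463,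 224993026543120108992283356100648648, 226602702871050185356338108268502570, 227493224683858139532090682972134983, 230375241903811835805963764824967627, 231428011253570386356750643795167731, 233071650970471634450657279776021750, 234546634628351971436074129939815826, 236716263133579168368887691206953385, 955888937805485863597847941526820113, 957112453940316917409650805275432648, 959619928614405833387396765451621959, 961329529328698023544140011181643306, 963875227372452865813837755428771062, 964645954308414653318056378267863233, 966435791593649012994445842222090244, 968623797688358402946156788819430064, 971011943291848087713364649930000899, 977056085231501545871974195405559186, 977596047671616058656642491031259285, 978766510459594708251448298497017958, 982943168410119192566833026437485900, 984818244535754528103549039458486304]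

/-- The final test of the search for the normaliser. -/
def c7P (k : ℕ) (l : List ℕ) : Bool :=
  !(tabOK l) || ((Nat.beq k 1 || Nat.beq k 2 || Nat.beq k 4) && memN c7RN (packT l))

/-- The final test of the search for the centraliser. -/
def c7PC (l : List ℕ) : Bool := !(tabOK l) || memN c7RC (packT l)

theorem c7_srch : allLt (fun k => k == 0 ||
    srchN (c7Y k) c7FY c7Src (c7P k) c7Levels 0 0 0) 7 = true := by
  decide +kernel

theorem c7_srchC : srchN (c7Y 1) c7FY c7Src c7PC c7Levels 0 0 0 = true := by
  decide +kernel

theorem c7_sound {c : Equiv.Perm GolayPt} (hcM : c ∈ M24) {k : ℕ} (hk : k < 7) (hk0 : k ≠ 0)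
    (hc : c * e7 = e7 ^ k * c) (P : List ℕ → Bool)
    (hs : srchN (c7Y k) c7FY c7Src P c7Levels 0 0 0 = true) : P (tblOf c) = true := by
  have hF := allLt_spec c7_FY k hk
  rw [Bool.or_eq_true, beq_iff_eq] at hF
  rcases hF with h0 | hF
  · exact absurd h0 hk0
  exact srch_sound e7_table (isTable_powTab e7_table k) hcM hc (c7Y k) 7
    (allLt_spec c7Y_ok k hk) c7FY hF c7B c7Src c7Levels c7_spec c7_src (mask_full c7_full) P hs

/-- The elements conjugating the element of order 7 to a power of it have their packed tables in
the list, and the power is the first, second or fourth. -/
theorem c7_pack {c : Equiv.Perm GolayPt} (hcM : c ∈ M24) {k : ℕ} (hk : k < 7) (hk0 : k ≠ 0)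
    (hc : c * e7 = e7 ^ k * c) : packT (tblOf c) ∈ c7RN := by
  have hs := allLt_spec c7_srch k hk
  rw [Bool.or_eq_true, beq_iff_eq] at hs
  rcases hs with h0 | hs
  · exact absurd h0 hk0
  have h := c7_sound hcM hk hk0 hc (c7P k) hs
  unfold c7P at h
  rw [tabOK_of_mem_M24 hcM (isTable_tblOf c), Bool.not_true, Bool.false_or, Bool.and_eq_true] at h
  exact memN_spec _ _ h.2

theorem c7_packC {c : Equiv.Perm GolayPt} (hcM : c ∈ M24) (hc : c * e7 = e7 * c) :
    packT (tblOf c) ∈ c7RC := by
  have h := c7_sound hcM (k := 1) (by norm_num) (by norm_num) (by rw [pow_one]; exact hc) c7PC
    c7_srchC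
  unfold c7PC at h
  rw [tabOK_of_mem_M24 hcM (isTable_tblOf c), Bool.not_true, Bool.false_or] at h
  exact memN_spec _ _ h

/-- Masks of two octads of the invariant trio. -/
def c7m1 : ℕ := 2162811

/-- Masks of two octads of the invariant trio. -/
def c7m2 : ℕ := 4593028

/-- The invariant trio. -/
noncomputable def T7 : Finset (Finset GolayPt) := trioOf (setOf c7m1) (setOf c7m2)

theorem c7m1_oct : setOf c7m1 ∈ octads := setOf_mem_octads (by decide +kernel)

theorem c7m2_oct : setOf c7m2 ∈ octads := setOf_mem_octads (by decide +kernel)

theorem c7m_disj : Disjoint (setOf c7m1) (setOf c7m2) :=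
  (disjoint_setOf_iff (by norm_num [c7m1])).mpr (by decide +kernel)

theorem T7_mem : T7 ∈ trios := trioOf_mem c7m1_oct c7m2_oct c7m_disj

theorem trio_fixed_of_inTrio {c : Equiv.Perm GolayPt} (hcM : c ∈ M24) {l : List ℕ}
    (hl : IsTable c l) {m1 m2 : ℕ} (h1 : m1 < 2 ^ 24) (h2 : m2 < 2 ^ 24)
    (hT : trioOf (setOf m1) (setOf m2) ∈ trios) (hne : setOf m1 ≠ setOf m2)
    (ha : inTrio m1 m2 (preMask l m1) = true) (hb : inTrio m1 m2 (preMask l m2) = true) :
    c • trioOf (setOf m1) (setOf m2) = trioOf (setOf m1) (setOf m2) := by
  have hinv : c⁻¹ • trioOf (setOf m1) (setOf m2) = trioOf (setOf m1) (setOf m2) := by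
    rw [trio_fixed_iff (M24.inv_mem hcM) hT (mem_trioOf.mpr (Or.inl rfl))
      (mem_trioOf.mpr (Or.inr (Or.inl rfl))) hne, inv_smul_setOf hl, inv_smul_setOf hl]
    exact ⟨(inTrio_iff h1 h2 (preMask_lt _ _)).mp ha, (inTrio_iff h1 h2 (preMask_lt _ _)).mp hb⟩
  calc c • trioOf (setOf m1) (setOf m2) = c • (c⁻¹ • trioOf (setOf m1) (setOf m2)) := by
        rw [hinv]
    _ = trioOf (setOf m1) (setOf m2) := smul_inv_smul c _

/-- The test of an entry of the lists. -/
def c7chk (ks : List ℕ) (r : ℕ) : Bool :=
  tabIn [] (unpackT r) && Nat.beq (packT (unpackT r)) r &&
  ks.any (fun k => mulTab (unpackT r) tE7 == mulTab (powTab tE7 k) (unpackT r)) &&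
  (inTrio c7m1 c7m2 (preMask (unpackT r) c7m1) && inTrio c7m1 c7m2 (preMask (unpackT r) c7m2))

theorem c7RN_chk : c7RN.all (c7chk [1, 2, 4]) = true := by decide +kernel

theorem c7RC_chk : c7RC.all (c7chk [1]) = true := by decide +kernel

theorem c7RN_sorted : sortedB c7RN = true := by decide +kernel

theorem c7RC_sorted : sortedB c7RC = true := by decide +kernel

theorem c7chk_spec {ks : List ℕ} {r : ℕ} (h : c7chk ks r = true) :
    ∃ c ∈ M24, IsTable c (unpackT r) ∧ packT (tblOf c) = r ∧
      (∃ k ∈ ks, c * e7 = e7 ^ k * c) ∧ c • T7 = T7 := by
  unfold c7chk at h
  simp only [Bool.and_eq_true] at h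
  obtain ⟨⟨⟨h1, h2⟩, h3⟩, h4, h5⟩ := h
  rw [natBeq_eq, beq_iff_eq] at h2
  obtain ⟨c, hcM, hct, hp⟩ := exists_of_unpack h1 h2
  refine ⟨c, hcM, hct, hp, ?_, ?_⟩
  · rw [List.any_eq_true] at h3
    obtain ⟨k, hk, hke⟩ := h3
    refine ⟨k, hk, ?_⟩
    apply eq_of_isTable (isTable_mulTab hct e7_table)
    rw [beq_iff_eq.mp hke]
    exact isTable_mulTab (isTable_powTab e7_table k) hct
  · exact trio_fixed_of_inTrio hcM hct (by norm_num [c7m1]) (by norm_num [c7m2]) T7_mem
      (octad_ne_of_disjoint c7m1_oct c7m_disj) h4 h5

/-- The number of the elements conjugating the element of order 7 to a power of it. -/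
theorem card_norm7 : Nat.card {c : Equiv.Perm GolayPt | c ∈ M24 ∧
    ∃ k, k < 7 ∧ k ≠ 0 ∧ c * e7 = e7 ^ k * c} = 126 := by
  rw [card_of_packs _ c7RN c7RN_sorted]
  · rfl
  · rintro c ⟨hcM, k, hk, hk0, hc⟩
    exact c7_pack hcM hk hk0 hc
  · intro r hr
    obtain ⟨c, hcM, _, hp, ⟨k, hk, hke⟩, _⟩ := c7chk_spec (List.all_eq_true.mp c7RN_chk r hr)
    refine ⟨c, ⟨hcM, k, ?_, ?_, hke⟩, hp⟩
    · simp only [List.mem_cons, List.not_mem_nil, or_false] at hk
      omega
    · simp only [List.mem_cons, List.not_mem_nil, or_false] at hk
      omega

/-- The number of the elements commuting with the element of order 7. -/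
theorem card_cent7 : Nat.card {c : Equiv.Perm GolayPt | c ∈ M24 ∧ c * e7 = e7 * c} = 42 := by
  rw [card_of_packs _ c7RC c7RC_sorted]
  · rfl
  · rintro c ⟨hcM, hc⟩
    exact c7_packC hcM hc
  · intro r hr
    obtain ⟨c, hcM, _, hp, ⟨k, hk, hke⟩, _⟩ := c7chk_spec (List.all_eq_true.mp c7RC_chk r hr)
    simp only [List.mem_cons, List.not_mem_nil, or_false] at hk
    subst hk
    rw [pow_one] at hke
    exact ⟨c, ⟨hcM, hke⟩, hp⟩

/-- The elements conjugating the element of order 7 to a power of it leave the trio
invariant. -/
theorem trio7_fixed {c : Equiv.Perm GolayPt} (hcM : c ∈ M24) {k : ℕ} (hk : k < 7) (hk0 : k ≠ 0)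
    (hc : c * e7 = e7 ^ k * c) : c • T7 = T7 := by
  have hr := c7_pack hcM hk hk0 hc
  obtain ⟨c', _, _, hp, _, hT⟩ := c7chk_spec (List.all_eq_true.mp c7RN_chk _ hr)
  rw [← packT_tblOf_inj hp]
  exact hT

/-- The centraliser of the element of order 7 is not abelian. -/
theorem cent7_nonabelian : ∃ a ∈ M24, ∃ b ∈ M24, a * e7 = e7 * a ∧ b * e7 = e7 * b ∧
    a * b ≠ b * a := by
  have ha : c7chk [1] 100819083966663436186129096740297760 = true := by decide +kernel
  have hb : c7chk [1] 959619928614405833387396765451621959 = true := by decide +kernel
  have hab : (mulTab (unpackT 100819083966663436186129096740297760) (unpackT 959619928614405833387396765451621959) ==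
      mulTab (unpackT 959619928614405833387396765451621959) (unpackT 100819083966663436186129096740297760)) = false := by
    decide +kernel
  obtain ⟨a, haM, hat, _, ⟨k, hk, hke⟩, _⟩ := c7chk_spec ha
  obtain ⟨b, hbM, hbt, _, ⟨k', hk', hke'⟩, _⟩ := c7chk_spec hb
  simp only [List.mem_cons, List.not_mem_nil, or_false] at hk hk'
  subst hk
  subst hk'
  rw [pow_one] at hke hke'
  refine ⟨a, haM, b, hbM, hke, hke', ?_⟩
  intro hcomm
  have e1 := eq_tblOf (isTable_mulTab hat hbt) (by simp [mulTab])
  have e2 := eq_tblOf (isTable_mulTab hbt hat) (by simp [mulTab])
  rw [hcomm] at e1
  rw [e1, ← e2] at hab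
  simp at hab

end Cfsg.Agent.Lib.helper27
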