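import Cfsg.Agent.Lib.helper27.Syl24CertA
import Cfsg.Agent.Lib.helper1.PGroup
import Cfsg.Prelude.Def_Transfer

/-!
An abstract model of a Sylow 2-subgroup of the group of the length-24 code modulo its centre: a
group of order 512 whose elements are indexed so that the commutation relation is given by
explicit masks.  The centres of its maximal subgroups have order at most 8, and it has a unique
abelian subgroup of order 64, which is elementary abelian.
-/

set_option autoImplicit false

namespace Cfsg.Agent.Lib.helper27.S24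

open Cfsg

/-- An indexing of a group by the rows of the data. -/
structure Model {T : Type*} [Group T] (ρ : ℕ → T) : Prop where
  surj : ∀ t : T, ∃ i < 512, ρ i = t
  inj : ∀ i < 512, ∀ j < 512, ρ i = ρ j → i = j
  comm : ∀ i < 512, ∀ j < 512, (ρ i * ρ j = ρ j * ρ i ↔ (cmN i).testBit j = true)
  word : ∀ i < 512, ρ i = ((wdN i).map (fun k => ρ (k + 1))).prod
  sq : ∀ i < 512, a0m.testBit i = true → ρ i * ρ i = 1

/-! ### Rows -/

theorem row_mem {i : ℕ} (hi : i < 512) : row i ∈ dat := by
  unfold row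
  rw [List.getD_eq_getElem dat _ (by rw [dat_len]; exact hi)]
  exact List.getElem_mem _

theorem row_zip {i : ℕ} (hi : i < 512) : (row i, i) ∈ dat.zipIdx := by
  rw [List.mem_zipIdx_iff_getElem?]
  show dat[i]? = some (row i)
  unfold row
  rw [List.getD_eq_getElem dat _ (by rw [dat_len]; exact hi), List.getElem?_eq_getElem]

theorem zip_row {c : Row × ℕ} (hc : c ∈ dat.zipIdx) : c.2 < 512 ∧ c.1 = row c.2 := by
  have h := List.mem_zipIdx_iff_getElem?.mp hc
  obtain ⟨h1, h2⟩ := List.getElem?_eq_some_iff.mp h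
  refine ⟨by rw [← dat_len]; exact h1, ?_⟩
  unfold row
  rw [List.getD_eq_getElem dat _ h1, h2]

theorem rowA_spec {i : ℕ} (hi : i < 512) :
    vcN i = vecW (wdN i) ∧ (∀ k ∈ wdN i, k < 4) ∧
    (a0m.testBit i = true → cmN i &&& a0m = a0m) ∧
    (a0m.testBit i = false →
      clN i = bitsOf (cmN i) ∧ (eList (cmN i) (clN i)).length < 64) := by
  have h : ((vcN i == vecW (wdN i)) && (wdN i).all (fun k => decide (k < 4)) &&
      (!(a0m.testBit i) || (cmN i &&& a0m == a0m)) &&
      (a0m.testBit i || ((clN i == bitsOf (cmN i)) &&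
        decide ((eList (cmN i) (clN i)).length < 64)))) = true :=
    rowA_all i hi
  rw [Bool.and_eq_true, Bool.and_eq_true, Bool.and_eq_true] at h
  obtain ⟨⟨⟨h1, h2⟩, h3⟩, h4⟩ := h
  refine ⟨beq_iff_eq.mp h1, fun k hk => of_decide_eq_true (List.all_eq_true.mp h2 k hk), ?_, ?_⟩
  · intro hb
    rw [hb] at h3
    simpa using h3
  · intro hb
    rw [hb] at h4
    simp only [Bool.false_or, Bool.and_eq_true, beq_iff_eq, decide_eq_true_eq] at h4
    exact h4

theorem vec_ok' {i : ℕ} (hi : i < 512) : vcN i = vecW (wdN i) := (rowA_spec hi).1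

theorem wd_lt' {i : ℕ} (hi : i < 512) : ∀ k ∈ wdN i, k < 4 := (rowA_spec hi).2.1

theorem a0_comm' {i : ℕ} (hi : i < 512) (hb : a0m.testBit i = true) : cmN i &&& a0m = a0m :=
  (rowA_spec hi).2.2.1 hb

theorem mem_bitsOf {m j : ℕ} : j ∈ bitsOf m ↔ j < 512 ∧ m.testBit j = true := by
  unfold bitsOf
  rw [List.mem_filter, List.mem_range]

/-! ### Counting -/

theorem card_le_of_idx {X T : Type*} (ρ : ℕ → T) (f : X → T) (hf : Function.Injective f)
    (l : List ℕ) (hX : ∀ x, ∃ i ∈ l, ρ i = f x) : Nat.card X ≤ l.length := by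
  choose g hg1 hg2 using hX
  have hinj : Function.Injective
      (fun x => (⟨g x, List.mem_toFinset.mpr (hg1 x)⟩ : ↥l.toFinset)) := by
    intro a b hab
    have h1 : g a = g b := congrArg Subtype.val hab
    apply hf
    rw [← hg2 a, ← hg2 b, h1]
  calc Nat.card X ≤ Nat.card ↥l.toFinset := Nat.card_le_card_of_injective _ hinj
    _ = l.toFinset.card := by rw [Nat.card_eq_fintype_card, Fintype.card_coe]
    _ ≤ l.length := List.toFinset_card_le l

section abs

variable {T : Type*} [Group T] {ρ : ℕ → T}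

theorem Model.finite (h : Model ρ) : Finite T :=
  Finite.of_surjective (fun i : Fin 512 => ρ i) (fun t => by
    obtain ⟨i, hi, hit⟩ := h.surj t
    exact ⟨⟨i, hi⟩, hit⟩)

theorem Model.card (h : Model ρ) : Nat.card T = 512 := by
  have hb : Function.Bijective (fun i : Fin 512 => ρ i) :=
    ⟨fun a b hab => Fin.ext (h.inj a a.2 b b.2 hab), fun t => by
      obtain ⟨i, hi, hit⟩ := h.surj t
      exact ⟨⟨i, hi⟩, hit⟩⟩
  rw [← Nat.card_eq_of_bijective _ hb, Nat.card_fin]

/-- Transport of a model along an isomorphism. -/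
theorem Model.map {T' : Type*} [Group T'] (h : Model ρ) (e : T ≃* T') :
    Model (fun i => e (ρ i)) where
  surj t := by
    obtain ⟨i, hi, hit⟩ := h.surj (e.symm t)
    exact ⟨i, hi, by rw [hit, MulEquiv.apply_symm_apply]⟩
  inj i hi j hj hij := h.inj i hi j hj (e.injective hij)
  comm i hi j hj := by
    rw [← map_mul, ← map_mul, e.injective.eq_iff]
    exact h.comm i hi j hj
  word i hi := by
    show e (ρ i) = ((wdN i).map (fun k => e (ρ (k + 1)))).prod
    have h1 := congrArg e (h.word i hi)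
    rw [h1, map_list_prod, List.map_map]
    rfl
  sq i hi hb := by
    rw [← map_mul, h.sq i hi hb, map_one]

/-! ### Maximal subgroups -/

theorem mem_word (M : Subgroup T) (hidx : M.index = 2) (a : ℕ) (ha : a < 16)
    (hgen : ∀ k < 4, (ρ (k + 1) ∈ M ↔ a.testBit k = false)) :
    ∀ w : List ℕ, (∀ k ∈ w, k < 4) →
      vecW w < 16 ∧ (((w.map (fun k => ρ (k + 1))).prod ∈ M) ↔ par4 (vecW w &&& a) = false)
  | [], _ => by
    refine ⟨by decide, ?_⟩
    have e : par4 (vecW [] &&& a) = false := by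
      show par4 (0 &&& a) = false
      rw [Nat.zero_and]; decide
    rw [e]
    exact ⟨fun _ => rfl, fun _ => M.one_mem⟩
  | k :: w, hw => by
    have hk : k < 4 := hw k List.mem_cons_self
    obtain ⟨hv, ih⟩ := mem_word M hidx a ha hgen w (fun j hj => hw j (List.mem_cons_of_mem _ hj))
    obtain ⟨h1, h2⟩ := par_step a ha (vecW w) hv k hk
    refine ⟨h1, ?_⟩
    show (((k :: w).map (fun k => ρ (k + 1))).prod ∈ M) ↔
      par4 ((2 ^ k ^^^ vecW w) &&& a) = false
    rw [List.map_cons, List.prod_cons, Subgroup.mul_mem_iff_of_index_two hidx, hgen k hk, ih, h2]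
    cases a.testBit k <;> cases par4 (vecW w &&& a) <;> simp

theorem dec_iff (p : Prop) [Decidable p] : (p ↔ (!decide p) = false) := by
  by_cases hp : p <;> simp [hp]

theorem part1 (h : Model ρ) (M : Subgroup T) (hM : IsCoatom M) :
    Nat.card ↥(Subgroup.center ↥M) ≤ 8 := by
  haveI := h.finite
  have hP : IsPGroup 2 T := IsPGroup.of_card (n := 9) (by rw [h.card]; norm_num)
  haveI : Fact (Nat.Prime 2) := ⟨Nat.prime_two⟩
  obtain ⟨_, hidx⟩ := Cfsg.Agent.Lib.helper1.coatom_normal_index 2 hP M hM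
  classical
  obtain ⟨a, ha, hgen⟩ : ∃ a < 16, ∀ k < 4, (ρ (k + 1) ∈ M ↔ a.testBit k = false) := by
    obtain ⟨k0, k1, k2, k3, k4⟩ := bits_spec (decide (ρ 1 ∈ M)) (decide (ρ 2 ∈ M))
      (decide (ρ 3 ∈ M)) (decide (ρ 4 ∈ M))
    refine ⟨_, k0, ?_⟩
    intro k hk
    interval_cases k
    · rw [k1]; exact dec_iff _
    · rw [k2]; exact dec_iff _
    · rw [k3]; exact dec_iff _
    · rw [k4]; exact dec_iff _
  have ha0 : 0 < a := by
    rcases Nat.eq_zero_or_pos a with h0 | h0
    · exfalso
      apply hM.1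
      rw [eq_top_iff]
      intro t _
      obtain ⟨i, hi, hit⟩ := h.surj t
      rw [← hit, h.word i hi]
      have h1 := (mem_word M hidx a ha hgen (wdN i) (wd_lt' hi)).2
      rw [h1, h0, Nat.and_zero]
      decide
    · exact h0
  have hmem : ∀ j < 512, (ρ j ∈ M ↔ par4 (vcN j &&& a) = false) := by
    intro j hj
    have h1 := (mem_word M hidx a ha hgen (wdN j) (wd_lt' hj)).2
    rw [← h.word j hj, ← vec_ok' hj] at h1
    exact h1
  refine le_trans (card_le_of_idx ρ (fun c : ↥(Subgroup.center ↥M) => ((c : ↥M) : T)) ?_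
    ((centList a).map Prod.snd) ?_) ?_
  · intro c c' hcc
    exact Subtype.ext (Subtype.ext hcc)
  · intro c
    obtain ⟨i, hi, hci⟩ := h.surj ((c : ↥M) : T)
    refine ⟨i, ?_, hci⟩
    have hin : (row i, i) ∈ centList a := by
      unfold centList
      refine List.mem_filter.mpr ⟨row_zip hi, List.all_eq_true.mpr ?_⟩
      intro b hb
      obtain ⟨hb1, hb2⟩ := zip_row hb
      rw [Bool.or_eq_true]
      by_cases hp : par4 (b.1.2.2.2.1 &&& a) = true
      · left; exact hp
      · right
        have hp' : par4 (vcN b.2 &&& a) = false := by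
          have e1 : b.1.2.2.2.1 = vcN b.2 := by rw [hb2]; rfl
          rw [← e1]
          simpa using hp
        have hbM : ρ b.2 ∈ M := (hmem b.2 hb1).mpr hp'
        have hcomm : ρ i * ρ b.2 = ρ b.2 * ρ i := by
          have h1 := Subgroup.mem_center_iff.mp c.2 ⟨ρ b.2, hbM⟩
          have h2 := congrArg Subtype.val h1
          rw [hci]
          exact h2.symm
        exact (h.comm i hi b.2 hb1).mp hcomm
    exact List.mem_map_of_mem (f := Prod.snd) hin
  · rw [List.length_map]
    exact cen_ok a ha ha0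

/-! ### The abelian subgroup of order 64 -/

theorem a0_bit (h : Model ρ) {j : ℕ} (hj : j < 512) :
    (ρ x0 * ρ j = ρ j * ρ x0 ↔ a0m.testBit j = true) := by
  have h1 := h.comm x0 (by decide) j hj
  rw [← a0_def] at h1
  exact h1

theorem A0_key (h : Model ρ) : ∀ c ∈ Subgroup.centralizer ({ρ x0} : Set T),
    ∃ j < 512, a0m.testBit j = true ∧ ρ j = c := by
  intro c hc
  obtain ⟨j, hj, hcj⟩ := h.surj c
  refine ⟨j, hj, (a0_bit h hj).mp ?_, hcj⟩
  have h1 := Subgroup.mem_centralizer_iff.mp hc (ρ x0) (Set.mem_singleton _)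
  rw [hcj]
  exact h1

theorem A0_card_le (h : Model ρ) : Nat.card ↥(Subgroup.centralizer ({ρ x0} : Set T)) ≤ 64 := by
  refine le_trans (card_le_of_idx ρ (fun c : ↥(Subgroup.centralizer ({ρ x0} : Set T)) => (c : T))
    Subtype.val_injective (bitsOf a0m) ?_) (le_of_eq a0_len)
  intro c
  obtain ⟨j, hj, hb, hcj⟩ := A0_key h c.1 c.2
  exact ⟨j, mem_bitsOf.mpr ⟨hj, hb⟩, hcj⟩

theorem A0_card (h : Model ρ) : Nat.card ↥(Subgroup.centralizer ({ρ x0} : Set T)) = 64 := by
  haveI := h.finite
  apply le_antisymm (A0_card_le h)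
  have hnd : (bitsOf a0m).Nodup := List.Nodup.filter _ List.nodup_range
  have hc : Nat.card ↥(bitsOf a0m).toFinset = 64 := by
    rw [Nat.card_eq_fintype_card, Fintype.card_coe, List.toFinset_card_of_nodup hnd, a0_len]
  rw [← hc]
  have hmemj : ∀ j : ↥(bitsOf a0m).toFinset, (j : ℕ) < 512 ∧ a0m.testBit j = true :=
    fun j => mem_bitsOf.mp (List.mem_toFinset.mp j.2)
  have hin : ∀ j : ↥(bitsOf a0m).toFinset, ρ j ∈ Subgroup.centralizer ({ρ x0} : Set T) := by
    intro j
    rw [Subgroup.mem_centralizer_iff]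
    intro y hy
    rw [Set.mem_singleton_iff.mp hy]
    exact (a0_bit h (hmemj j).1).mpr (hmemj j).2
  refine Nat.card_le_card_of_injective
    (fun j : ↥(bitsOf a0m).toFinset =>
      (⟨ρ j, hin j⟩ : ↥(Subgroup.centralizer ({ρ x0} : Set T)))) ?_
  intro j j' hjj
  have h1 : ρ j = ρ j' := congrArg Subtype.val hjj
  exact Subtype.ext (h.inj _ (hmemj j).1 _ (hmemj j').1 h1)

theorem A0_elem (h : Model ρ) :
    Cfsg.IsElementaryAbelian 2 (Subgroup.centralizer ({ρ x0} : Set T)) := by
  constructor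
  · refine ⟨⟨fun c d => ?_⟩⟩
    obtain ⟨i, hi, hbi, hci⟩ := A0_key h c.1 c.2
    obtain ⟨j, hj, hbj, hdj⟩ := A0_key h d.1 d.2
    apply Subtype.ext
    show (c : T) * (d : T) = (d : T) * (c : T)
    rw [← hci, ← hdj]
    apply (h.comm i hi j hj).mpr
    have h1 := a0_comm' hi hbi
    have h2 : (cmN i &&& a0m).testBit j = true := by rw [h1]; exact hbj
    rw [Nat.testBit_and, Bool.and_eq_true] at h2
    exact h2.1
  · intro c hc
    obtain ⟨i, hi, hbi, hci⟩ := A0_key h c hc
    rw [← hci, pow_two]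
    exact h.sq i hi hbi

theorem part3_aux (h : Model ρ) (A : Subgroup T) (hA : IsMulCommutative ↥A)
    (hc : Nat.card ↥A = 64) : A = Subgroup.centralizer ({ρ x0} : Set T) := by
  haveI := h.finite
  have hcomm : ∀ s ∈ A, ∀ t ∈ A, s * t = t * s := by
    intro s hs t ht
    have h1 := hA.is_comm.comm ⟨s, hs⟩ ⟨t, ht⟩
    exact congrArg Subtype.val h1
  have hle : A ≤ Subgroup.centralizer ({ρ x0} : Set T) := by
    intro t ht
    obtain ⟨i, hi, hti⟩ := h.surj t
    by_contra hnot
    have hbit : a0m.testBit i = false := by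
      by_contra hb
      apply hnot
      rw [Subgroup.mem_centralizer_iff]
      intro y hy
      rw [Set.mem_singleton_iff.mp hy, ← hti]
      exact (a0_bit h hi).mpr (by simpa using hb)
    have hidxA : ∀ s ∈ A, ∃ j < 512, ρ j = s ∧ (cmN i).testBit j = true := by
      intro s hs
      obtain ⟨j, hj, hsj⟩ := h.surj s
      refine ⟨j, hj, hsj, (h.comm i hi j hj).mp ?_⟩
      rw [hti, hsj]
      exact hcomm t ht s hs
    obtain ⟨hcl, hE⟩ := (rowA_spec hi).2.2.2 hbit
    by_cases hex : ∃ s ∈ A, ∃ j < 512, ρ j = s ∧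
        ((clN i).filter (fun t => (cmN j).testBit t)).length < 64
    · obtain ⟨s, hs, j, hj, hsj, hlen⟩ := hex
      have hcard : Nat.card ↥A ≤ ((clN i).filter (fun t => (cmN j).testBit t)).length := by
        refine card_le_of_idx ρ (fun c : ↥A => (c : T)) Subtype.val_injective _ ?_
        intro c
        obtain ⟨j', hj', hcj', hb'⟩ := hidxA c.1 c.2
        refine ⟨j', List.mem_filter.mpr ⟨?_, ?_⟩, hcj'⟩
        · rw [hcl]
          exact mem_bitsOf.mpr ⟨hj', hb'⟩
        · show (cmN j).testBit j' = true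
          apply (h.comm j hj j' hj').mp
          rw [hsj, hcj']
          exact hcomm s hs c.1 c.2
      omega
    · have hcard : Nat.card ↥A ≤ ((eList (cmN i) (clN i)).map Prod.snd).length := by
        refine card_le_of_idx ρ (fun c : ↥A => (c : T)) Subtype.val_injective _ ?_
        intro c
        obtain ⟨j', hj', hcj', hb'⟩ := hidxA c.1 c.2
        refine ⟨j', ?_, hcj'⟩
        have hin : (row j', j') ∈ eList (cmN i) (clN i) := by
          unfold eList
          refine List.mem_filter.mpr ⟨row_zip hj', ?_⟩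
          show ((cmN i).testBit j' &&
            decide (64 ≤ ((clN i).filter (fun t => (cmN j').testBit t)).length)) = true
          rw [Bool.and_eq_true, decide_eq_true_eq]
          refine ⟨hb', ?_⟩
          by_contra hlt
          exact hex ⟨c.1, c.2, j', hj', hcj', by omega⟩
        exact List.mem_map_of_mem (f := Prod.snd) hin
      rw [List.length_map] at hcard
      omega
  exact Subgroup.eq_of_le_of_card_ge hle (by rw [hc]; exact A0_card_le h)

/-- The three properties of the model. -/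
theorem claims (h : Model ρ) :
    (∀ M : Subgroup T, IsCoatom M → Nat.card ↥(Subgroup.center ↥M) ≤ 8) ∧
    (∃ A : Subgroup T, Cfsg.IsElementaryAbelian 2 A ∧ Nat.card ↥A = 64) ∧
    ∀ A B : Subgroup T, IsMulCommutative ↥A → Nat.card ↥A = 64 → IsMulCommutative ↥B →
      Nat.card ↥B = 64 → A = B :=
  ⟨fun M hM => part1 h M hM, ⟨_, A0_elem h, A0_card h⟩,
    fun A B hA hcA hB hcB => (part3_aux h A hA hcA).trans (part3_aux h B hB hcB).symm⟩

end abs

end Cfsg.Agent.Lib.helper27.S24
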