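import Cfsg.Agent.Lib.helper27.Syl24Data

/-! Certificates for the abstract model of a Sylow 2-subgroup modulo its centre. -/

set_option autoImplicit false
set_option maxRecDepth 1000000

namespace Cfsg.Agent.Lib.helper27.S24

open Cfsg Cfsg.Agent.Lib.helper28 Cfsg.Agent.Lib.helper27
open Cfsg.Agent.Lib.helper27.B22 (lk)

theorem dat_len : dat.length = 512 := by decide +kernel

theorem wd_gen : wdN 0 = [] ∧ wdN 1 = [0] ∧ wdN 2 = [1] ∧ wdN 3 = [2] ∧ wdN 4 = [3] := by
  decide +kernel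

theorem a0_def : a0m = cmN x0 := by decide +kernel

theorem a0_len : (bitsOf a0m).length = 64 := by decide +kernel

theorem cen_ok : ∀ a < 16, 0 < a → (centList a).length ≤ 8 := by decide +kernel

theorem par_step : ∀ a < 16, ∀ v < 16, ∀ k < 4,
    (2 ^ k ^^^ v < 16) ∧ par4 ((2 ^ k ^^^ v) &&& a) = (a.testBit k != par4 (v &&& a)) := by
  decide +kernel

theorem bits_spec : ∀ b0 b1 b2 b3 : Bool,
    (cond b0 0 1 + cond b1 0 2 + cond b2 0 4 + cond b3 0 8 < 16) ∧
    (cond b0 0 1 + cond b1 0 2 + cond b2 0 4 + cond b3 0 8).testBit 0 = !b0 ∧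
    (cond b0 0 1 + cond b1 0 2 + cond b2 0 4 + cond b3 0 8).testBit 1 = !b1 ∧
    (cond b0 0 1 + cond b1 0 2 + cond b2 0 4 + cond b3 0 8).testBit 2 = !b2 ∧
    (cond b0 0 1 + cond b1 0 2 + cond b2 0 4 + cond b3 0 8).testBit 3 = !b3 := by
  decide

theorem rowA_0 : ∀ j < 64, rowA (64 * 0 + j) (row (64 * 0 + j)) = true := by decide +kernel

theorem rowA_1 : ∀ j < 64, rowA (64 * 1 + j) (row (64 * 1 + j)) = true := by decide +kernel

theorem rowA_2 : ∀ j < 64, rowA (64 * 2 + j) (row (64 * 2 + j)) = true := by decide +kernel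

theorem rowA_3 : ∀ j < 64, rowA (64 * 3 + j) (row (64 * 3 + j)) = true := by decide +kernel

theorem rowA_4 : ∀ j < 64, rowA (64 * 4 + j) (row (64 * 4 + j)) = true := by decide +kernel

theorem rowA_5 : ∀ j < 64, rowA (64 * 5 + j) (row (64 * 5 + j)) = true := by decide +kernel

theorem rowA_6 : ∀ j < 64, rowA (64 * 6 + j) (row (64 * 6 + j)) = true := by decide +kernel

theorem rowA_7 : ∀ j < 64, rowA (64 * 7 + j) (row (64 * 7 + j)) = true := by decide +kernel

theorem rowA_all : ∀ i < 512, rowA i (row i) = true := by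
  intro i hi
  have h := Nat.div_add_mod i 64
  have hm := Nat.mod_lt i (show 0 < 64 by norm_num)
  have hk : i / 64 < 8 := by omega
  rw [← h]
  generalize i / 64 = k at hk ⊢
  interval_cases k
  · exact rowA_0 _ hm
  · exact rowA_1 _ hm
  · exact rowA_2 _ hm
  · exact rowA_3 _ hm
  · exact rowA_4 _ hm
  · exact rowA_5 _ hm
  · exact rowA_6 _ hm
  · exact rowA_7 _ hm

end Cfsg.Agent.Lib.helper27.S24
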