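import Cfsg.Agent.Lib.helper27.Syl24Data

/-! Certificates relating the model of a Sylow 2-subgroup modulo its centre to permutations. -/

set_option autoImplicit false
set_option maxRecDepth 1000000

namespace Cfsg.Agent.Lib.helper27.S24

open Cfsg Cfsg.Agent.Lib.helper28 Cfsg.Agent.Lib.helper27
open Cfsg.Agent.Lib.helper27.B22 (lk)

theorem g_in0 : tabIn [] (gTab 0) = true := by decide +kernel

theorem g_in1 : tabIn [] (gTab 1) = true := by decide +kernel

theorem g_in2 : tabIn [] (gTab 2) = true := by decide +kernel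

theorem g_in3 : tabIn [] (gTab 3) = true := by decide +kernel

theorem gPk_ok : ∀ k < 4, ∀ q < 24, lk (gPk k) q = (gTab k).getD q 0 := by decide +kernel

theorem g_inv : ∀ k < 4, ∀ q < 24, lk (gPk k) (lk (gPk k) q) = q := by decide +kernel

theorem z_ok : ∀ q < 24, lk zPk q = wf zWd q := by decide +kernel

theorem z_comm : ∀ k < 4, ∀ q < 24, lk zPk (lk (gPk k) q) = lk (gPk k) (lk zPk q) := by
  decide +kernel

theorem z_sq : ∀ q < 24, lk zPk (lk zPk q) = q := by decide +kernel

theorem z_ne : lk zPk 5 ≠ 5 := by decide +kernel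

theorem r24_mem : ∀ q < 24, q ∈ r24 := by decide

theorem r24_lt : ∀ q ∈ r24, q < 24 := by decide

theorem rowB_0 : ∀ j < 64, rowB (64 * 0 + j) (row (64 * 0 + j)) = true := by decide +kernel

theorem rowB_1 : ∀ j < 64, rowB (64 * 1 + j) (row (64 * 1 + j)) = true := by decide +kernel

theorem rowB_2 : ∀ j < 64, rowB (64 * 2 + j) (row (64 * 2 + j)) = true := by decide +kernel

theorem rowB_3 : ∀ j < 64, rowB (64 * 3 + j) (row (64 * 3 + j)) = true := by decide +kernel

theorem rowB_4 : ∀ j < 64, rowB (64 * 4 + j) (row (64 * 4 + j)) = true := by decide +kernel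

theorem rowB_5 : ∀ j < 64, rowB (64 * 5 + j) (row (64 * 5 + j)) = true := by decide +kernel

theorem rowB_6 : ∀ j < 64, rowB (64 * 6 + j) (row (64 * 6 + j)) = true := by decide +kernel

theorem rowB_7 : ∀ j < 64, rowB (64 * 7 + j) (row (64 * 7 + j)) = true := by decide +kernel

theorem rowB_all : ∀ i < 512, rowB i (row i) = true := by
  intro i hi
  have h := Nat.div_add_mod i 64
  have hm := Nat.mod_lt i (show 0 < 64 by norm_num)
  have hk : i / 64 < 8 := by omega
  rw [← h]
  generalize i / 64 = k at hk ⊢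
  interval_cases k
  · exact rowB_0 _ hm
  · exact rowB_1 _ hm
  · exact rowB_2 _ hm
  · exact rowB_3 _ hm
  · exact rowB_4 _ hm
  · exact rowB_5 _ hm
  · exact rowB_6 _ hm
  · exact rowB_7 _ hm

theorem rowC_0 : ∀ j < 64, rowC (row (64 * 0 + j)) = true := by decide +kernel

theorem rowC_1 : ∀ j < 64, rowC (row (64 * 1 + j)) = true := by decide +kernel

theorem rowC_2 : ∀ j < 64, rowC (row (64 * 2 + j)) = true := by decide +kernel

theorem rowC_3 : ∀ j < 64, rowC (row (64 * 3 + j)) = true := by decide +kernel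

theorem rowC_4 : ∀ j < 64, rowC (row (64 * 4 + j)) = true := by decide +kernel

theorem rowC_5 : ∀ j < 64, rowC (row (64 * 5 + j)) = true := by decide +kernel

theorem rowC_6 : ∀ j < 64, rowC (row (64 * 6 + j)) = true := by decide +kernel

theorem rowC_7 : ∀ j < 64, rowC (row (64 * 7 + j)) = true := by decide +kernel

theorem rowC_all : ∀ i < 512, rowC (row i) = true := by
  intro i hi
  have h := Nat.div_add_mod i 64
  have hm := Nat.mod_lt i (show 0 < 64 by norm_num)
  have hk : i / 64 < 8 := by omega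
  rw [← h]
  generalize i / 64 = k at hk ⊢
  interval_cases k
  · exact rowC_0 _ hm
  · exact rowC_1 _ hm
  · exact rowC_2 _ hm
  · exact rowC_3 _ hm
  · exact rowC_4 _ hm
  · exact rowC_5 _ hm
  · exact rowC_6 _ hm
  · exact rowC_7 _ hm

end Cfsg.Agent.Lib.helper27.S24
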