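import Cfsg.Agent.Lib.helper27.Syl24Data

/-! The commutation masks of the model of a Sylow 2-subgroup modulo its centre. -/

set_option autoImplicit false
set_option maxRecDepth 1000000

namespace Cfsg.Agent.Lib.helper27.S24

open Cfsg Cfsg.Agent.Lib.helper28 Cfsg.Agent.Lib.helper27
open Cfsg.Agent.Lib.helper27.B22 (lk)

theorem rowD_0 : ∀ j < 32, rowD (row (32 * 0 + j)) = true := by decide +kernel

theorem rowD_1 : ∀ j < 32, rowD (row (32 * 1 + j)) = true := by decide +kernel

theorem rowD_2 : ∀ j < 32, rowD (row (32 * 2 + j)) = true := by decide +kernel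

theorem rowD_3 : ∀ j < 32, rowD (row (32 * 3 + j)) = true := by decide +kernel

theorem rowD_4 : ∀ j < 32, rowD (row (32 * 4 + j)) = true := by decide +kernel

theorem rowD_5 : ∀ j < 32, rowD (row (32 * 5 + j)) = true := by decide +kernel

theorem rowD_6 : ∀ j < 32, rowD (row (32 * 6 + j)) = true := by decide +kernel

theorem rowD_7 : ∀ j < 32, rowD (row (32 * 7 + j)) = true := by decide +kernel

theorem rowD_8 : ∀ j < 32, rowD (row (32 * 8 + j)) = true := by decide +kernel

theorem rowD_9 : ∀ j < 32, rowD (row (32 * 9 + j)) = true := by decide +kernel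

theorem rowD_10 : ∀ j < 32, rowD (row (32 * 10 + j)) = true := by decide +kernel

theorem rowD_11 : ∀ j < 32, rowD (row (32 * 11 + j)) = true := by decide +kernel

theorem rowD_12 : ∀ j < 32, rowD (row (32 * 12 + j)) = true := by decide +kernel

theorem rowD_13 : ∀ j < 32, rowD (row (32 * 13 + j)) = true := by decide +kernel

theorem rowD_14 : ∀ j < 32, rowD (row (32 * 14 + j)) = true := by decide +kernel

theorem rowD_15 : ∀ j < 32, rowD (row (32 * 15 + j)) = true := by decide +kernel

theorem rowD_all : ∀ i < 512, rowD (row i) = true := by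
  intro i hi
  have h := Nat.div_add_mod i 32
  have hm := Nat.mod_lt i (show 0 < 32 by norm_num)
  have hk : i / 32 < 16 := by omega
  rw [← h]
  generalize i / 32 = k at hk ⊢
  interval_cases k
  · exact rowD_0 _ hm
  · exact rowD_1 _ hm
  · exact rowD_2 _ hm
  · exact rowD_3 _ hm
  · exact rowD_4 _ hm
  · exact rowD_5 _ hm
  · exact rowD_6 _ hm
  · exact rowD_7 _ hm
  · exact rowD_8 _ hm
  · exact rowD_9 _ hm
  · exact rowD_10 _ hm
  · exact rowD_11 _ hm
  · exact rowD_12 _ hm
  · exact rowD_13 _ hm
  · exact rowD_14 _ hm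
  · exact rowD_15 _ hm

end Cfsg.Agent.Lib.helper27.S24
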